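import Cfsg.Agent.Lib.Transfer.SylowIn

/-! Homogeneous finite groups: basic extension lemmas. -/

set_option autoImplicit false

namespace Cfsg.Lib.Hg

open Subgroup Cfsg.Lib.Transfer

variable {G : Type*} [Group G]

/-- Every isomorphism between subgroups extends to an automorphism. -/
def Hm (G : Type*) [Group G] : Prop :=
  ∀ (A B : Subgroup G) (e : A ≃* B), ∃ φ : G ≃* G, ∀ a : A, φ (a : G) = (e a : G)

theorem Hm.of_homs (h : Hm G) {A : Type*} [Group A] (f f' : A →* G) (hf : Function.Injective f)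
    (hf' : Function.Injective f') : ∃ φ : G ≃* G, ∀ a, φ (f a) = f' a := by
  obtain ⟨φ, hφ⟩ := h f.range f'.range
    ((MonoidHom.ofInjective hf).symm.trans (MonoidHom.ofInjective hf'))
  refine ⟨φ, fun a => ?_⟩
  have := hφ ⟨f a, a, rfl⟩
  rw [this]
  have h1 : (MonoidHom.ofInjective hf).symm ⟨f a, a, rfl⟩ = a := by
    rw [MulEquiv.symm_apply_eq]; rfl
  simp only [MulEquiv.trans_apply, h1]
  rfl

theorem Hm.of_graph (h : Hm G) (D : Subgroup (G × G)) (h1 : ∀ d ∈ D, d.1 = 1 → d.2 = 1)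
    (h2 : ∀ d ∈ D, d.2 = 1 → d.1 = 1) : ∃ φ : G ≃* G, ∀ d ∈ D, φ d.1 = d.2 := by
  obtain ⟨φ, hφ⟩ := h.of_homs ((MonoidHom.fst G G).comp D.subtype) ((MonoidHom.snd G G).comp D.subtype)
    ((injective_iff_map_eq_one _).2 fun d hd => Subtype.ext (Prod.ext hd (h1 d d.2 hd)))
    ((injective_iff_map_eq_one _).2 fun d hd => Subtype.ext (Prod.ext (h2 d d.2 hd) hd))
  exact ⟨φ, fun d hd => hφ ⟨d, hd⟩⟩

theorem Hm.of_order (h : Hm G) {x y : G} (hxy : orderOf x = orderOf y) : ∃ φ : G ≃* G, φ x = y := by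
  obtain ⟨φ, hφ⟩ := h.of_graph (zpowers (x, y)) (by
      rintro _ ⟨k, rfl⟩ hk
      have hk' : x ^ k = 1 := hk
      show y ^ k = 1
      rw [← orderOf_dvd_iff_zpow_eq_one, ← hxy, orderOf_dvd_iff_zpow_eq_one]; exact hk') (by
      rintro _ ⟨k, rfl⟩ hk
      have hk' : y ^ k = 1 := hk
      show x ^ k = 1
      rw [← orderOf_dvd_iff_zpow_eq_one, hxy, orderOf_dvd_iff_zpow_eq_one]; exact hk')
  exact ⟨φ, hφ (x, y) (mem_zpowers _)⟩

theorem Hm.equiv (h : Hm G) {G' : Type*} [Group G'] (e : G ≃* G') : Hm G' := by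
  intro A B f
  obtain ⟨φ, hφ⟩ := h.of_homs (e.symm.toMonoidHom.comp A.subtype)
    (e.symm.toMonoidHom.comp (B.subtype.comp f.toMonoidHom))
    (e.symm.injective.comp A.subtype_injective)
    (e.symm.injective.comp (B.subtype_injective.comp f.injective))
  refine ⟨e.symm.trans (φ.trans e), fun a => ?_⟩
  have := hφ a
  simp only [MonoidHom.comp_apply, MulEquiv.coe_toMonoidHom, coe_subtype] at this
  simp [this]

theorem char_mem {N : Subgroup G} [hN : N.Characteristic] (φ : G ≃* G) {x : G} (hx : x ∈ N) :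
    φ x ∈ N := by
  have := (characteristic_iff_le_comap.1 hN) φ hx
  exact this

/-- Restriction of an automorphism to an invariant subgroup. -/
def resAut (φ : G ≃* G) (N : Subgroup G) (h1 : ∀ x ∈ N, φ x ∈ N) (h2 : ∀ x ∈ N, φ.symm x ∈ N) :
    N ≃* N where
  toFun x := ⟨φ x, h1 x x.2⟩
  invFun x := ⟨φ.symm x, h2 x x.2⟩
  left_inv x := by simp
  right_inv x := by simp
  map_mul' x y := by simp

theorem Hm.char (h : Hm G) (N : Subgroup G) [N.Characteristic] : Hm N := by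
  intro A B f
  obtain ⟨φ, hφ⟩ := h.of_homs (N.subtype.comp A.subtype) (N.subtype.comp (B.subtype.comp f.toMonoidHom))
    (N.subtype_injective.comp A.subtype_injective)
    (N.subtype_injective.comp (B.subtype_injective.comp f.injective))
  exact ⟨resAut φ N (fun x hx => char_mem φ hx) (fun x hx => char_mem φ.symm hx),
    fun a => Subtype.ext (hφ a)⟩

theorem Hm.mem_char (h : Hm G) (N : Subgroup G) [N.Characteristic] {x y : G} (hx : x ∈ N)
    (hxy : orderOf x = orderOf y) : y ∈ N := by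
  obtain ⟨φ, rfl⟩ := h.of_order hxy
  exact char_mem φ hx

/-- The action of the commutator of an automorphism with an element. -/
theorem key (α : G ≃* G) (g y : G) :
    (α g * g⁻¹) * y * (α g * g⁻¹)⁻¹ = α (g * α.symm (g⁻¹ * y * g) * g⁻¹) := by
  simp only [map_mul, map_inv, MulEquiv.apply_symm_apply]
  group

theorem symm_fix {α : G ≃* G} {x : G} (h : α x = x) : α.symm x = x := by
  rw [MulEquiv.symm_apply_eq, h]

theorem symm_mem_of_mem [Finite G] {α : G ≃* G} {V : Subgroup G} (h : ∀ x ∈ V, α x ∈ V) :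
    ∀ x ∈ V, α.symm x ∈ V := by
  intro x hx
  have hinj : Function.Injective (fun v : V => (⟨α v, h v v.2⟩ : V)) := fun a b hab =>
    Subtype.ext (α.injective (congrArg Subtype.val hab))
  obtain ⟨v, hv⟩ := Finite.injective_iff_surjective.1 hinj ⟨x, hx⟩
  have : α v = x := congrArg Subtype.val hv
  rw [← this, MulEquiv.symm_apply_apply]; exact v.2

theorem inv_conj_mem [Finite G] {g : G} {V : Subgroup G} (h : ∀ x ∈ V, g * x * g⁻¹ ∈ V) :
    ∀ x ∈ V, g⁻¹ * x * g ∈ V := by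
  intro x hx
  have := symm_mem_of_mem (α := MulAut.conj g) (V := V) h x hx
  simpa using this

theorem mem_norm [Finite G] {g : G} {V : Subgroup G} (h : ∀ x ∈ V, g * x * g⁻¹ ∈ V) :
    g ∈ normalizer (V : Set G) :=
  mem_normalizer_of_conj_le (conj_le_iff.2 h)

theorem norm_conj {g : G} {V : Subgroup G} (h : g ∈ normalizer (V : Set G)) :
    ∀ x ∈ V, g * x * g⁻¹ ∈ V := fun x hx => (mem_normalizer_iff.1 h x).1 hx

theorem norm_conj' {g : G} {V : Subgroup G} (h : g ∈ normalizer (V : Set G)) :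
    ∀ x ∈ V, g⁻¹ * x * g ∈ V := fun x hx => by
  simpa using norm_conj (inv_mem h) x hx

/-- A subgroup of a finite group from a multiplicatively closed set. -/
def mkSub [Finite G] (S : Set G) (h1 : (1 : G) ∈ S) (hm : ∀ x ∈ S, ∀ y ∈ S, x * y ∈ S) : Subgroup G where
  carrier := S
  one_mem' := h1
  mul_mem' := fun hx hy => hm _ hx _ hy
  inv_mem' := by
    intro x hx
    have hp : ∀ n : ℕ, x ^ n ∈ S := fun n => by
      induction n with
      | zero => simpa using h1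
      | succ n ih => rw [pow_succ]; exact hm _ ih _ hx
    have : x⁻¹ = x ^ (orderOf x - 1) := by
      rw [eq_comm, ← mul_eq_one_iff_eq_inv, ← pow_succ, Nat.sub_add_cancel (orderOf_pos x), pow_orderOf_eq_one]
    rw [this]; exact hp _

theorem mem_of_pow_mem {p : ℕ} (hp : p.Prime) {V : Subgroup G} {a : G} (hap : a ^ p ∈ V) {i : ℕ}
    (hi : a ^ i ∈ V) (hpi : ¬ p ∣ i) : a ∈ V := by
  have hc : Nat.Coprime i p := ((Nat.Prime.coprime_iff_not_dvd hp).2 hpi).symm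
  have := Nat.gcd_eq_gcd_ab i p
  rw [hc] at this
  have h1 : a = (a ^ i) ^ (Nat.gcdA i p) * (a ^ p) ^ (Nat.gcdB i p) := by
    rw [← zpow_natCast, ← zpow_natCast, ← zpow_mul, ← zpow_mul, ← zpow_add, ← this]; simp
  rw [h1]; exact V.mul_mem (V.zpow_mem hi _) (V.zpow_mem hap _)

theorem pow_conj_mem {V : Subgroup G} {a : G} (haN : ∀ v ∈ V, a * v * a⁻¹ ∈ V) (i : ℕ) :
    ∀ v ∈ V, a ^ i * v * (a ^ i)⁻¹ ∈ V := by
  induction i with
  | zero => simp
  | succ i ih =>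
    intro v hv
    have := ih _ (haN v hv)
    rw [pow_succ]; convert this using 1; group

theorem Hm.ext0 [Finite G] (h : Hm G) {p : ℕ} (hp : p.Prime) (V : Subgroup G) {a a' : G} (ha : a ∉ V)
    (haN : ∀ v ∈ V, a * v * a⁻¹ ∈ V) (hap : a ^ p ∈ V) (ha' : a' ∉ V)
    (hc : ∀ v ∈ V, a * v * a⁻¹ = a' * v * a'⁻¹) (hp' : a ^ p = a' ^ p) :
    ∃ α : G ≃* G, (∀ v ∈ V, α v = v) ∧ α a = a' := by
  have hci : ∀ i : ℕ, ∀ v ∈ V, a ^ i * v * (a ^ i)⁻¹ = a' ^ i * v * (a' ^ i)⁻¹ := by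
    intro i
    induction i with
    | zero => simp
    | succ i ih =>
      intro v hv
      have h1 := ih _ (haN v hv)
      calc a ^ (i + 1) * v * (a ^ (i + 1))⁻¹ = a ^ i * (a * v * a⁻¹) * (a ^ i)⁻¹ := by
            rw [pow_succ]; group
        _ = a' ^ i * (a' * v * a'⁻¹) * (a' ^ i)⁻¹ := by rw [h1, hc v hv]
        _ = _ := by rw [pow_succ]; group
  let D : Subgroup (G × G) := mkSub {d | ∃ v ∈ V, ∃ i : ℕ, d = (v * a ^ i, v * a' ^ i)}
    ⟨1, V.one_mem, 0, by simp [Prod.ext_iff]⟩ (by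
      rintro _ ⟨v, hv, i, rfl⟩ _ ⟨w, hw, j, rfl⟩
      refine ⟨v * (a ^ i * w * (a ^ i)⁻¹), V.mul_mem hv (pow_conj_mem haN i w hw), i + j, ?_⟩
      refine Prod.ext ?_ ?_
      · simp only [Prod.mk_mul_mk, pow_add]; group
      · simp only [Prod.mk_mul_mk, pow_add, hci i w hw]; group)
  obtain ⟨φ, hφ⟩ := h.of_graph D (by
      rintro _ ⟨v, hv, i, rfl⟩ h1
      have h1' : v * a ^ i = 1 := h1
      have hi : a ^ i ∈ V := by rw [← (eq_inv_of_mul_eq_one_right h1').symm]; exact V.inv_mem hv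
      obtain ⟨j, rfl⟩ : p ∣ i := by by_contra hh; exact ha (mem_of_pow_mem hp hap hi hh)
      show v * a' ^ (p * j) = 1
      rw [pow_mul, ← hp', ← pow_mul, h1']) (by
      rintro _ ⟨v, hv, i, rfl⟩ h1
      have h1' : v * a' ^ i = 1 := h1
      have hi : a' ^ i ∈ V := by rw [← (eq_inv_of_mul_eq_one_right h1').symm]; exact V.inv_mem hv
      obtain ⟨j, rfl⟩ : p ∣ i := by by_contra hh; exact ha' (mem_of_pow_mem hp (hp' ▸ hap) hi hh)
      show v * a ^ (p * j) = 1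
      rw [pow_mul, hp', ← pow_mul, h1'])
  refine ⟨φ, fun v hv => ?_, ?_⟩
  · simpa using hφ _ ⟨v, hv, 0, rfl⟩
  · simpa using hφ _ ⟨1, V.one_mem, 1, rfl⟩

theorem Hm.ext [Finite G] (h : Hm G) {p : ℕ} (hp : p.Prime) (α0 : G ≃* G) (V : Subgroup G) {a a' : G}
    (ha : a ∉ V) (haN : ∀ v ∈ V, a * v * a⁻¹ ∈ V) (hap : a ^ p ∈ V) (ha' : α0.symm a' ∉ V)
    (hc : ∀ v ∈ V, α0 (a * v * a⁻¹) = a' * α0 v * a'⁻¹) (hp' : α0 (a ^ p) = a' ^ p) :
    ∃ α : G ≃* G, (∀ v ∈ V, α v = α0 v) ∧ α a = a' := by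
  obtain ⟨α, h1, h2⟩ := h.ext0 hp V ha haN hap ha' (fun v hv => by
      apply α0.injective; rw [hc v hv]; simp) (by apply α0.injective; rw [hp']; simp)
  exact ⟨α.trans α0, fun v hv => by simp [h1 v hv], by simp [h2]⟩

theorem mem_adj [Finite G] {V : Subgroup G} {a : G} (haN : ∀ v ∈ V, a * v * a⁻¹ ∈ V) {x : G} :
    x ∈ V ⊔ zpowers a ↔ ∃ v ∈ V, ∃ i : ℕ, x = v * a ^ i := by
  constructor
  · intro hx
    obtain ⟨v, hv, y, hy, rfl⟩ := exists_mul_of_mem_sup (N := V) (H := zpowers a)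
      (zpowers_le.2 (mem_norm haN)) hx
    obtain ⟨i, rfl⟩ := (mem_powers_iff_mem_zpowers.2 hy)
    exact ⟨v, hv, i, rfl⟩
  · rintro ⟨v, hv, i, rfl⟩
    exact mul_mem (mem_sup_left hv) (mem_sup_right (pow_mem (mem_zpowers a) i))

/-- The `p`-part of an element, as a power with exponent `1 mod p`. -/
theorem ppart [Finite G] {p : ℕ} (hp : p.Prime) (g : G) :
    ∃ m k : ℕ, (g ^ (p * m + 1)) ^ p ^ k = 1 := by
  obtain ⟨k, r, hr, hkr⟩ := Nat.exists_eq_pow_mul_and_not_dvd (orderOf_pos g).ne' p hp.ne_one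
  have hc : Nat.Coprime r p := ((Nat.Prime.coprime_iff_not_dvd hp).2 hr).symm
  obtain ⟨s, hs⟩ := Nat.exists_mul_mod_eq_one_of_coprime hc hp.one_lt
  refine ⟨r * s / p, k, ?_⟩
  have : p * (r * s / p) + 1 = r * s := by
    have := Nat.div_add_mod (r * s) p
    omega
  rw [this, ← pow_mul, ← orderOf_dvd_iff_pow_eq_one, hkr]
  exact ⟨s, by ring⟩

theorem isPGroup_zpowers {p : ℕ} {g : G} {k : ℕ} (h : g ^ p ^ k = 1) : IsPGroup p (zpowers g) := by
  rintro ⟨_, n, rfl⟩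
  refine ⟨k, Subtype.ext ?_⟩
  show (g ^ n) ^ p ^ k = 1
  rw [← zpow_natCast, ← zpow_mul, mul_comm, zpow_mul, zpow_natCast, h, one_zpow]

theorem pow_of_isPGroup {p : ℕ} {P : Subgroup G} (h : IsPGroup p P) {g : G} (hg : g ∈ P) :
    ∃ k, g ^ p ^ k = 1 := by
  obtain ⟨k, hk⟩ := h ⟨g, hg⟩
  exact ⟨k, congrArg Subtype.val hk⟩

/-- A Sylow subgroup covers a quotient that is a `p`-group. -/
theorem lift [Finite G] {p : ℕ} [hp : Fact p.Prime] {Y P M : Subgroup G} (hPY : P ≤ Y)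
    (hP : ¬ p ∣ P.relIndex Y) (hM : Y ≤ normalizer (M : Set G)) (hq : ∀ y ∈ Y, ∃ k, y ^ p ^ k ∈ M)
    {y : G} (hy : y ∈ Y) : ∃ x ∈ P, ∃ m ∈ M, y = x * m := by
  have hN : (M.subgroupOf Y).Normal := by
    refine ⟨fun n hn g => ?_⟩
    exact norm_conj (hM g.2) _ hn
  let π := QuotientGroup.mk' (M.subgroupOf Y)
  have hQ : IsPGroup p (Y ⧸ M.subgroupOf Y) := by
    intro q
    obtain ⟨z, rfl⟩ := QuotientGroup.mk_surjective q
    obtain ⟨k, hk⟩ := hq z z.2
    exact ⟨k, by rw [← QuotientGroup.mk_pow, QuotientGroup.eq_one_iff]; exact hk⟩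
  have h1 : ((P.subgroupOf Y).map π).index ∣ (P.subgroupOf Y).index :=
    index_map_dvd _ (QuotientGroup.mk'_surjective _)
  obtain ⟨k, hk⟩ := hQ.index ((P.subgroupOf Y).map π)
  have h2 : ((P.subgroupOf Y).map π) = ⊤ := by
    rw [← index_eq_one, hk]
    cases k with
    | zero => rfl
    | succ k => exact absurd ((dvd_pow_self p (Nat.succ_ne_zero k)).trans (hk ▸ h1)) hP
  have h3 : π ⟨y, hy⟩ ∈ (P.subgroupOf Y).map π := h2 ▸ mem_top _
  obtain ⟨x, hx, hxy⟩ := h3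
  have h4 : x⁻¹ * ⟨y, hy⟩ ∈ M.subgroupOf Y := QuotientGroup.eq.1 hxy
  exact ⟨x, hx, (x : G)⁻¹ * y, h4, by simp⟩

end Cfsg.Lib.Hg
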