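import Cfsg.Agent.Lib.Hg.Basic
import Cfsg.Agent.Lib.Unitary.U3

/-! Homogeneous finite groups: excluding `PSL₃(q)` for odd `q` and `PSU₃(4)`. -/

set_option autoImplicit false

namespace Cfsg.Lib.Hg

open Subgroup Matrix

variable {G : Type*} [Group G]

theorem comm_of_quot {p : ℕ} (hZ : ∀ z ∈ center G, z ^ p = 1 → z = 1) {x g : G} (hx : x ^ p = 1)
    (h : (g : G ⧸ center G) * (x : G ⧸ center G) = x * g) : g * x = x * g := by
  have h1 : x⁻¹ * (g * x * g⁻¹) ∈ center G := by
    rw [← QuotientGroup.eq]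
    simp only [QuotientGroup.mk_mul, QuotientGroup.mk_inv, h]; group
  have h2 := hZ _ h1 (by
    have h3 : (x * (x⁻¹ * (g * x * g⁻¹))) ^ p = 1 := by rw [mul_inv_cancel_left, conj_pow, hx]; group
    rwa [(show Commute x _ from mem_center_iff.1 h1 x).mul_pow, hx, one_mul] at h3)
  rw [inv_mul_eq_one] at h2
  nth_rewrite 2 [h2]; group

/-- The matrix of an element of the special linear group. -/
def tm {F : Type*} [Field F] {n : ℕ} : Matrix.SpecialLinearGroup (Fin n) F →* Matrix (Fin n) (Fin n) F where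
  toFun g := g.1
  map_one' := rfl
  map_mul' _ _ := rfl

theorem tm_inj {F : Type*} [Field F] {n : ℕ} : Function.Injective (tm (F := F) (n := n)) :=
  fun _ _ h => Subtype.ext h

theorem tm_det {F : Type*} [Field F] {n : ℕ} (g : Matrix.SpecialLinearGroup (Fin n) F) : (tm g).det = 1 := g.2

theorem tm_center {F : Type*} [Field F] {n : ℕ} {z : Matrix.SpecialLinearGroup (Fin n) F} :
    z ∈ center _ ↔ ∃ r : F, r ^ n = 1 ∧ tm z = r • (1 : Matrix (Fin n) (Fin n) F) := by
  rw [Matrix.SpecialLinearGroup.mem_center_iff, Fintype.card_fin]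
  refine exists_congr fun r => and_congr_right fun _ => ?_
  rw [smul_one_eq_diagonal, eq_comm]; rfl

theorem sl_center_pow {F : Type*} [Field F] {p : ℕ} [Fact p.Prime] [CharP F p] {n : ℕ}
    (z : Matrix.SpecialLinearGroup (Fin n) F) (hz : z ∈ center _) (h : z ^ p = 1) : z = 1 := by
  obtain ⟨r, -, hr⟩ := tm_center.1 hz
  have h1 := congrArg tm h
  rw [map_pow, hr, map_one, _root_.smul_pow, one_pow] at h1
  apply tm_inj
  rw [hr, map_one]
  ext i j
  have h2 : r ^ p = 1 := by simpa using congrFun (congrFun h1 i) i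
  have h3 : r = 1 := by
    have := sub_pow_char (R := F) (p := p) r 1
    rw [h2, one_pow, sub_self] at this
    exact sub_eq_zero.1 (pow_eq_zero_iff (Fact.out : p.Prime).ne_zero |>.1 this)
  simp [h3]

/-- Upper unitriangular `3 × 3` matrices. -/
def un3 {F : Type*} [Field F] (a b c : F) : Matrix.SpecialLinearGroup (Fin 3) F :=
  ⟨!![1, a, c; 0, 1, b; 0, 0, 1], by simp [det_fin_three]⟩

theorem tm_un3 {F : Type*} [Field F] (a b c : F) : tm (un3 a b c) = !![1, a, c; 0, 1, b; 0, 0, 1] := rfl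

theorem un3_mul {F : Type*} [Field F] (a b c a' b' c' : F) :
    un3 a b c * un3 a' b' c' = un3 (a + a') (b + b') (c + c' + a * b') := by
  apply tm_inj
  simp only [map_mul, tm_un3]
  ext i j; fin_cases i <;> fin_cases j <;> simp [mul_apply, Fin.sum_univ_three] <;> ring

theorem un3_zero {F : Type*} [Field F] : un3 (0 : F) 0 0 = 1 := by
  apply tm_inj
  simp only [map_one, tm_un3]
  ext i j; fin_cases i <;> fin_cases j <;> simp

theorem un3_pow {F : Type*} [Field F] (a b c : F) (n : ℕ) :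
    un3 a b c ^ n = un3 (n * a) (n * b) (n * c + (n.choose 2 : ℕ) * (a * b)) := by
  induction n with
  | zero => simp [un3_zero]
  | succ n ih =>
    rw [pow_succ, ih, un3_mul, Nat.choose_succ_succ' n 1]
    congr 1 <;> simp <;> ring

theorem un3_pow_char {F : Type*} [Field F] {p : ℕ} [hp : Fact p.Prime] [CharP F p] (h2 : p ≠ 2)
    (a b c : F) : un3 a b c ^ p = 1 := by
  have h1 : ((p.choose 2 : ℕ) : F) = 0 := (CharP.cast_eq_zero_iff F p _).2
    (hp.out.dvd_choose_self two_ne_zero (lt_of_le_of_ne hp.out.two_le h2.symm))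
  rw [un3_pow, h1]
  simp [un3_zero]

theorem comm_reg {F : Type*} [Field F] {g h : Matrix.SpecialLinearGroup (Fin 3) F}
    (hg : g * un3 1 1 0 = un3 1 1 0 * g) (hh : h * un3 1 1 0 = un3 1 1 0 * h) : g * h = h * g := by
  have key : ∀ g : Matrix.SpecialLinearGroup (Fin 3) F, g * un3 1 1 0 = un3 1 1 0 * g →
      tm g = !![tm g 0 0, tm g 0 1, tm g 0 2; 0, tm g 0 0, tm g 0 1; 0, 0, tm g 0 0] := by
    intro g hg
    have e' := congrArg tm hg
    simp only [map_mul, tm_un3] at e'
    have e := fun i j => congrFun (congrFun e' i) j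
    have e00 := e 0 0
    have e01 := e 0 1
    have e02 := e 0 2
    have e10 := e 1 0
    have e11 := e 1 1
    have e12 := e 1 2
    simp [mul_apply, Fin.sum_univ_three] at e00 e01 e02 e10 e11 e12
    ext i j; fin_cases i <;> fin_cases j <;> simp
    · exact e00
    · linear_combination -e01
    · linear_combination -e02
    · exact e10
    · linear_combination e00 - e11
    · linear_combination -e01 + e02 - e12 - e02
  apply tm_inj
  rw [map_mul, map_mul, key g hg, key h hh]
  ext i j; fin_cases i <;> fin_cases j <;> simp [mul_apply, Fin.sum_univ_three] <;> ring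

theorem ne_two_of_odd {F : Type*} [Field F] [Fintype F] (hF : Odd (Fintype.card F)) {p : ℕ} [Fact p.Prime]
    [CharP F p] : p ≠ 2 := by
  rintro rfl
  obtain ⟨n, -, hn⟩ := FiniteField.card F 2
  rw [hn] at hF
  exact (Nat.not_even_iff_odd.2 hF) (Nat.even_pow.2 ⟨even_two, n.ne_zero⟩)

theorem not_psl3 {F : Type} [Field F] [Fintype F] (hF : Odd (Fintype.card F))
    (h : Hm (ProjectiveSpecialLinearGroup (Fin 3) F)) : False := by
  obtain ⟨p, hch⟩ := CharP.exists F
  have := Fact.mk (CharP.char_is_prime F p)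
  have h2 : p ≠ 2 := ne_two_of_odd hF
  have hZ := sl_center_pow (F := F) (p := p) (n := 3)
  have ho : ∀ a b c : F, un3 a b c ≠ 1 →
      orderOf (QuotientGroup.mk (un3 a b c) : ProjectiveSpecialLinearGroup (Fin 3) F) = p := fun a b c h1 =>
    orderOf_eq_prime (by rw [← QuotientGroup.mk_pow, un3_pow_char h2]; rfl)
      fun hh => h1 (hZ _ ((QuotientGroup.eq_one_iff _).1 hh) (un3_pow_char h2 a b c))
  obtain ⟨φ, hφ⟩ := h.of_order ((ho 0 0 1 fun hh => by
    simpa [tm_un3] using congrFun (congrFun (congrArg tm hh) 0) 2).trans (ho 1 1 0 fun hh => by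
    simpa [tm_un3] using congrFun (congrFun (congrArg tm hh) 0) 1).symm)
  obtain ⟨g1, hg1⟩ := QuotientGroup.mk_surjective (φ (QuotientGroup.mk (un3 1 0 0)))
  obtain ⟨g2, hg2⟩ := QuotientGroup.mk_surjective (φ (QuotientGroup.mk (un3 0 1 0)))
  have h3 := comm_reg (g := g1) (h := g2) (comm_of_quot hZ (un3_pow_char h2 _ _ _) (by
      rw [hg1, ← hφ, ← map_mul, ← map_mul, ← QuotientGroup.mk_mul, ← QuotientGroup.mk_mul, un3_mul, un3_mul]
      simp)) (comm_of_quot hZ (un3_pow_char h2 _ _ _) (by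
      rw [hg2, ← hφ, ← map_mul, ← map_mul, ← QuotientGroup.mk_mul, ← QuotientGroup.mk_mul, un3_mul, un3_mul]
      simp))
  have h4 := comm_of_quot hZ (g := un3 1 0 0) (un3_pow_char h2 0 1 0) (φ.injective (by
    rw [map_mul, map_mul, ← hg1, ← hg2, ← QuotientGroup.mk_mul, ← QuotientGroup.mk_mul, h3]))
  rw [un3_mul, un3_mul] at h4
  simpa [tm_un3] using congrFun (congrFun (congrArg tm h4) 0) 2

theorem mem_su4 {F : Type} [Field F] {g : Matrix.SpecialLinearGroup (Fin 3) F} :
    g ∈ SU 3 F 4 ↔ ∀ u v, hermForm 3 F 4 (tm g *ᵥ u) (tm g *ᵥ v) = hermForm 3 F 4 u v := Iff.rfl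

/-- Diagonal elements of `SU₃(4)`. -/
def dg4 {F : Type} [Field F] (a b c : F) (ha : a ^ 5 = 1) (hb : b ^ 5 = 1) (hc : c ^ 5 = 1)
    (h : a * b * c = 1) : SU 3 F 4 :=
  ⟨⟨!![a, 0, 0; 0, b, 0; 0, 0, c], by simp [det_fin_three, h]⟩, by
    intro u v
    show hermForm 3 F 4 (!![a, 0, 0; 0, b, 0; 0, 0, c] *ᵥ u) (!![a, 0, 0; 0, b, 0; 0, 0, c] *ᵥ v) = _
    simp [hermForm, mulVec, dotProduct, Fin.sum_univ_three]
    linear_combination (u 0 * v 0 ^ 4) * ha + (u 1 * v 1 ^ 4) * hb + (u 2 * v 2 ^ 4) * hc⟩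

theorem not_psu4 {F : Type} [Field F] [Fintype F] (hF : Fintype.card F = 16) (h : Hm (PSU 3 F 4)) :
    False := by
  obtain ⟨σ, hσ⟩ := Unitary.exists_isBar (q := 4) (hF.trans (by norm_num))
  have := hσ.finite_SU_three
  have hZ : center (SU 3 F 4) = ⊥ := card_eq_one.1 (by rw [hσ.card_center_SU_three]; norm_num)
  have h' : Hm (SU 3 F 4) := h.equiv ((QuotientGroup.quotientMulEquivOfEq hZ).trans QuotientGroup.quotientBot)
  obtain ⟨a, ha⟩ := hσ.exists_primitive_norm_one
  have h5 : a ^ 5 = 1 := ha.pow_eq_one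
  have hne : ∀ k, 0 < k → k < 5 → a ^ k ≠ 1 := fun k h1 h2 => ha.pow_ne_one_of_pos_of_lt h1.ne' h2
  have h2 : (2 : F) = 0 := by
    have : (4 : F) = 0 := by simpa using hσ.cast_q
    have h3 : (2 : F) ^ 2 = 0 := by linear_combination this
    exact pow_eq_zero_iff two_ne_zero |>.1 h3
  have hp : ∀ k, (a ^ k) ^ 5 = 1 := fun k => by rw [← pow_mul, mul_comm, pow_mul, h5, one_pow]
  let M : SU 3 F 4 →* Matrix (Fin 3) (Fin 3) F := tm.comp (SU 3 F 4).subtype
  have hM : Function.Injective M := tm_inj.comp (SU 3 F 4).subtype_injective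
  have hd : ∀ (a b c : F) ha hb hc hh, M (dg4 a b c ha hb hc hh) = !![a, 0, 0; 0, b, 0; 0, 0, c] :=
    fun _ _ _ _ _ _ _ => rfl
  obtain ⟨x, hx⟩ : ∃ x, x = dg4 a (a ^ 4) 1 h5 (hp 4) (one_pow 5) (by linear_combination h5) := ⟨_, rfl⟩
  obtain ⟨y, hy⟩ : ∃ y, y = dg4 a a (a ^ 3) h5 h5 (hp 3) (by linear_combination h5) := ⟨_, rfl⟩
  obtain ⟨s, hs⟩ : ∃ s, M s = !![0, 1, 0; 1, 0, 0; 0, 0, 1] :=
    ⟨⟨⟨!![0, 1, 0; 1, 0, 0; 0, 0, 1], by simp [det_fin_three]; linear_combination -h2⟩, by
      intro u v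
      show hermForm 3 F 4 (!![0, 1, 0; 1, 0, 0; 0, 0, 1] *ᵥ u) (!![0, 1, 0; 1, 0, 0; 0, 0, 1] *ᵥ v) = _
      simp [hermForm, mulVec, dotProduct, Fin.sum_univ_three]; ring⟩, rfl⟩
  have := Fact.mk Nat.prime_five
  have ho : ∀ (b c : F) hb hc hh, orderOf (dg4 a b c h5 hb hc hh) = 5 := fun b c hb hc hh =>
    orderOf_eq_prime (by
      apply hM
      rw [map_pow, map_one, hd]
      ext i j; fin_cases i <;> fin_cases j <;> simp [pow_succ]
      · linear_combination h5
      · linear_combination hb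
      · linear_combination hc) fun hh => hne 1 (by norm_num) (by norm_num) (by
      simpa [hd] using congrFun (congrFun (congrArg M hh) 0) 0)
  obtain ⟨φ, hφ⟩ := h'.of_order (x := y) (y := x) (by rw [hx, hy, ho, ho])
  have hx' := hx ▸ hd a (a ^ 4) 1 h5 (hp 4) (one_pow 5) (by linear_combination h5)
  have hy' := hy ▸ hd a a (a ^ 3) h5 h5 (hp 3) (by linear_combination h5)
  have ha0 : a ≠ 0 := fun hh => by simp [hh] at h5
  have n1 : a - a ^ 4 ≠ 0 := fun hh => hne 3 (by norm_num) (by norm_num)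
    (mul_left_cancel₀ ha0 (by linear_combination -hh))
  have n2 : a - 1 ≠ 0 := fun hh => hne 1 (by norm_num) (by norm_num) (by linear_combination hh)
  have n3 : a ^ 4 - 1 ≠ 0 := fun hh => hne 4 (by norm_num) (by norm_num) (by linear_combination hh)
  have key : ∀ g : SU 3 F 4, g * x = x * g → M g = !![M g 0 0, 0, 0; 0, M g 1 1, 0; 0, 0, M g 2 2] := by
    intro g hg
    have e' := congrArg M hg
    rw [map_mul, map_mul, hx'] at e'
    have e : ∀ i j, (M g * !![a, 0, 0; 0, a ^ 4, 0; 0, 0, 1]) i j =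
      (!![a, 0, 0; 0, a ^ 4, 0; 0, 0, 1] * M g) i j := fun i j => congrFun (congrFun e' i) j
    simp only [mul_apply, Fin.sum_univ_three] at e
    ext i j; fin_cases i <;> fin_cases j <;> simp
    · exact mul_left_cancel₀ n1 (by have := e 0 1; simp at this; linear_combination -this)
    · exact mul_left_cancel₀ n2 (by have := e 0 2; simp at this; linear_combination -this)
    · exact mul_left_cancel₀ n1 (by have := e 1 0; simp at this; linear_combination this)
    · exact mul_left_cancel₀ n3 (by have := e 1 2; simp at this; linear_combination -this)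
    · exact mul_left_cancel₀ n2 (by have := e 2 0; simp at this; linear_combination this)
    · exact mul_left_cancel₀ n3 (by have := e 2 1; simp at this; linear_combination this)
  have hsy : s * y = y * s := by
    apply hM
    rw [map_mul, map_mul, hs, hy']
    ext i j; fin_cases i <;> fin_cases j <;> simp
  have hxy : x * y = y * x := by
    apply hM
    rw [map_mul, map_mul, hx', hy']
    ext i j; fin_cases i <;> fin_cases j <;> simp <;> ring
  have k1 := key (φ s) (by rw [← hφ, ← map_mul, ← map_mul, hsy])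
  have k2 := key (φ x) (by nth_rewrite 2 3 [← hφ]; rw [← map_mul, ← map_mul, hxy])
  have h3 : s * x = x * s := φ.injective (by
    apply hM
    rw [map_mul, map_mul, map_mul, map_mul, k1, k2]
    ext i j; fin_cases i <;> fin_cases j <;> simp <;> ring)
  have := congrFun (congrFun (key s h3) 0) 1
  simp [hs] at this

end Cfsg.Lib.Hg
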