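import Cfsg.Agent.Lib.Hg.Two6
import Cfsg.Agent.Lib.Char.Burnside

/-! Homogeneous finite groups: action on the elements of order `p` when these commute. -/

set_option autoImplicit false

namespace Cfsg.Lib.Hg

open Subgroup Cfsg.Lib.Transfer
open scoped commutatorElement

variable {G : Type*} [Group G]

theorem inv_cent {V : Subgroup G} {β : G ≃* G} (hβ : ∀ v ∈ V, β v = v⁻¹) {z : G}
    (hz : ∀ v ∈ V, z⁻¹ * v * z ∈ V) : β z * z⁻¹ ∈ centralizer (V : Set G) := mem_cent.2 fun v hv => by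
  have h1 : β.symm (z⁻¹ * v * z) = (z⁻¹ * v * z)⁻¹ := by
    rw [MulEquiv.symm_apply_eq, hβ _ (V.inv_mem (hz v hv)), inv_inv]
  rw [key, h1, show z * (z⁻¹ * v * z)⁻¹ * z⁻¹ = v⁻¹ by group, hβ _ (V.inv_mem hv), inv_inv]

theorem Hm.pel_cent [Finite G] (h : Hm G) {p : ℕ} (hp : p.Prime) (h2 : p ≠ 2) {V : Subgroup G} (hV : EA p V)
    (hall : ∀ x : G, x ^ p = 1 → x ∈ V) {g : G} {k : ℕ} (hk : g ^ p ^ k = 1) :
    g ∈ centralizer (V : Set G) := by
  have := Fact.mk hp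
  have := Fact.mk Nat.prime_two
  have hn : ∀ z : G, ∀ v ∈ V, z⁻¹ * v * z ∈ V := fun z v hv => hall _ (by
    rw [show z⁻¹ * v * z = z⁻¹ * v * z⁻¹⁻¹ by group, conj_pow, hV.pow v hv]; group)
  have hN : V.Normal := ⟨fun v hv z => by simpa using hn z⁻¹ v hv⟩
  obtain ⟨α, hα⟩ := h.of_homs V.subtype (MonoidHom.mk' (fun v : V => (v : G)⁻¹) fun a b => by
    rw [coe_mul, hV.comm a a.2 b b.2, mul_inv_rev]) V.subtype_injective
    (fun a b hab => Subtype.ext (inv_injective hab))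
  have hα' : ∀ v ∈ V, α v = v⁻¹ := fun v hv => hα ⟨v, hv⟩
  set C := centralizer (V : Set G) with hC
  obtain ⟨P, hP⟩ := (isPGroup_zpowers hk).exists_le_sylow
  have hgP : g ∈ (P : Subgroup G) := hP (mem_zpowers g)
  obtain ⟨y, hy, hy'⟩ := exists_conj_le_of_not_dvd_relIndex P.isPGroup'
    (sylow_not_dvd_relIndex P (le_sup_right : _ ≤ C ⊔ P)) (P.isPGroup'.map α.toMonoidHom) (by
      rintro _ ⟨z, hz, rfl⟩
      have := mul_mem (mem_sup_left (T := (P : Subgroup G)) (inv_cent hα' (hn z))) (mem_sup_right hz)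
      simpa using this)
  obtain ⟨x, hx, c, hc, rfl⟩ := exists_mul_of_mem_sup' le_normalizer_of_normal hy
  let β : MulAut G := MulAut.conj c * α
  have hβV : ∀ v ∈ V, β v = v⁻¹ := fun v hv => by
    show c * α v * c⁻¹ = _
    rw [hα' v hv, mem_cent.1 hc _ (V.inv_mem hv)]
  have hβP : ∀ z ∈ (P : Subgroup G), β z ∈ (P : Subgroup G) := fun z hz => by
    have := conj_le_iff.1 hy' _ ⟨z, hz, rfl⟩
    have h1 := mul_mem (mul_mem (inv_mem hx) this) hx
    convert h1 using 1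
    show c * α z * c⁻¹ = x⁻¹ * (x * c * α z * (x * c)⁻¹) * x
    group
  obtain ⟨m, l, hl⟩ := ppart Nat.prime_two β
  have hpP : ∀ n : ℕ, ∀ z ∈ (P : Subgroup G), (β ^ n) z ∈ (P : Subgroup G) := fun n => by
    induction n with
    | zero => simp
    | succ n ih => exact fun z hz => by rw [pow_succ, MulAut.mul_apply]; exact ih _ (hβP z hz)
  have hγV : ∀ v ∈ V, (β ^ (2 * m + 1)) v = v⁻¹ := by
    clear hl
    induction m with
    | zero => simpa using hβV
    | succ m ih =>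
      intro v hv
      rw [show 2 * (m + 1) + 1 = 2 * m + 1 + 1 + 1 by ring, pow_succ, pow_succ, MulAut.mul_apply,
        MulAut.mul_apply, hβV v hv, hβV _ (V.inv_mem hv), inv_inv, ih v hv]
  have hγP := hpP (2 * m + 1)
  set γ := β ^ (2 * m + 1)
  have hγC : ∀ z : G, γ z * z⁻¹ ∈ C := fun z => inv_cent hγV (hn z)
  set R := (P : Subgroup G) ⊓ C
  let f : Function.End R := fun r => ⟨g⁻¹ * γ (g * r), (P : Subgroup G).mul_mem ((P : Subgroup G).inv_mem hgP)
    (hγP _ (mul_mem hgP r.2.1)), by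
    have h1 := inv_mem (hγC g⁻¹)
    have h3 := mul_mem (hγC r) r.2.2
    have := mul_mem h1 h3
    simpa [mul_assoc] using this⟩
  have hf : ∀ (n : ℕ) (r : R), ((f ^ n) r : G) = g⁻¹ * (γ ^ n) (g * r) := fun n => by
    induction n with
    | zero => intro r; simp; rfl
    | succ n ih =>
      intro r
      rw [pow_succ', pow_succ', MulAut.mul_apply]
      show g⁻¹ * γ (g * (f ^ n) r) = _
      rw [ih, mul_inv_cancel_left]
  classical
  have := Fintype.ofFinite R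
  have h3 := Equiv.Perm.card_fixedPoints_modEq (f := f) (p := 2) (n := l) (by
    funext r
    apply Subtype.ext
    rw [hf, hl]; simp; rfl)
  obtain ⟨j, hj⟩ := IsPGroup.iff_card.1 (P.isPGroup'.to_le (inf_le_left : R ≤ P))
  have h4 : Nonempty f.fixedPoints := by
    rw [← Fintype.card_pos_iff, Nat.pos_iff_ne_zero]
    intro hh
    rw [hh, ← Nat.card_eq_fintype_card, hj] at h3
    exact h2 ((Nat.prime_dvd_prime_iff_eq Nat.prime_two hp).1
      (Nat.prime_two.dvd_of_dvd_pow ((Nat.modEq_zero_iff_dvd).1 h3))).symm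
  obtain ⟨r, hr⟩ := h4
  have h5 : γ (g * r) = g * r := by
    have : g⁻¹ * γ (g * r) = r := congrArg Subtype.val hr
    nth_rewrite 2 [← this]; rw [mul_inv_cancel_left]
  have h6 : g * r = 1 := by
    by_contra hh
    obtain ⟨i, hi⟩ := pow_of_isPGroup P.isPGroup' (mul_mem hgP r.2.1)
    obtain ⟨n, hn1, hn2⟩ := exists_last (V := ⊥) (by simpa using hh) hi
    rw [mem_bot] at hn1 hn2
    have h7 := hγV _ (hall _ hn2)
    rw [map_pow, h5, eq_inv_iff_mul_eq_one, ← pow_two] at h7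
    exact hn1 (mem_bot.1 (mem_of_pow_mem (V := ⊥) hp hn2 h7 fun hd =>
      h2 ((Nat.prime_dvd_prime_iff_eq hp Nat.prime_two).1 hd)))
  rw [eq_inv_of_mul_eq_one_left h6]
  exact inv_mem r.2.2

theorem Tr.pow {W : Subgroup G} {u t g : G} (h : Tr W u t g) (ht : t ∈ W) (n : ℕ) :
    Tr W u (t ^ n) (g ^ n) := by
  induction n with
  | zero => exact ⟨by simp, by simp⟩
  | succ n ih => rw [pow_succ, pow_succ]; exact ih.mul h ht

theorem Hm.tr_triv [Finite G] (h : Hm G) {p : ℕ} (hp : p.Prime) (h2 : p ≠ 2) {V : Subgroup G} (hV : EA p V)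
    (hall : ∀ x : G, x ^ p = 1 → x ∈ V) {W : Subgroup G} {u t g : G} (hu : u ∈ V) (ht : t ∈ W) (hW : W ≤ V)
    (hg : Tr W u t g) : t = 1 := by
  obtain ⟨m, k, hk⟩ := ppart hp g
  have h1 := (hg.pow ht (p * m + 1)).mv
  rw [mem_cent.1 (h.pel_cent hp h2 hV hall hk) u hu, pow_succ, pow_mul, hV.pow t (hW ht), one_pow,
    one_mul] at h1
  exact mul_eq_left.1 h1.symm

/-- Rank two, `p ≥ 5`. -/
theorem Hm.tr_two [Finite G] (h : Hm G) {p : ℕ} (hp : p.Prime) (h2 : p ≠ 2) {V : Subgroup G} (hV : EA p V)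
    (hc : Nat.card V ≤ p ^ 2) {g v : G} (hg : ∀ x ∈ V, g * x * g⁻¹ ∈ V) (hv : v ∈ V)
    (hgv : g * v * g⁻¹ ∉ zpowers v) : ∃ w ∈ V, w ≠ 1 ∧ ∃ x ∈ V, ∃ d, Tr (zpowers w) x (w ^ 3)⁻¹ d := by
  set w := g * v * g⁻¹ with hwdef
  have hw : w ∈ V := hg v hv
  have hw1 : w ≠ 1 := fun hh => hgv (hh ▸ one_mem _)
  have hWV : zpowers w ≤ V := zpowers_le.2 hw
  have hvw : v ∉ zpowers w := fun hh => hgv (by
    have h1 : zpowers v = zpowers w := eq_of_le_of_card_ge (zpowers_le.2 hh) (by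
      rw [hwdef, ← conj_zpowers, card_conj])
    rw [h1]; exact mem_zpowers w)
  have hn : ∀ x ∈ zpowers w, v * x * v⁻¹ ∈ zpowers w := fun x hx => by rw [hV.conj hv (hWV hx)]; exact hx
  have hH : Hyp (zpowers w) V v := ⟨hWV, hv, hvw, fun x hx => (mem_adj hn).1 (by
    rw [eq_of_le_of_card_ge (sup_le hWV (zpowers_le.2 hv)) (by
      rw [card_adj hp hvw hn (by rw [hV.pow v hv]; exact one_mem _), Nat.card_zpowers,
        hV.orderOf hp hw hw1, ← pow_two]; exact hc)]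
    exact hx)⟩
  have hv2 : v ^ 2 ∈ V := V.pow_mem hv 2
  obtain ⟨δ, d1, d2⟩ := h.ext0 hp (zpowers w) hvw hn (by rw [hV.pow v hv]; exact one_mem _) (a' := v ^ 2)
    (fun hh => hvw (mem_of_pow_mem hp (by rw [hV.pow v hv]; exact one_mem _) hh fun hd =>
      h2 ((Nat.prime_dvd_prime_iff_eq hp Nat.prime_two).1 hd)))
    (fun x hx => by rw [hV.conj hv (hWV hx), hV.conj hv2 (hWV hx)]) (by rw [hV.pow v hv, hV.pow _ hv2])
  obtain ⟨τ, t1, t2⟩ := h.trans hp hV hH (mem_zpowers w)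
  set c := g * δ g⁻¹ with hcdef
  have hca : ∀ y, c * δ y * c⁻¹ = g * δ (g⁻¹ * y * g) * g⁻¹ := fun y => by
    simp only [hcdef, map_mul, map_inv]; group
  have hcw : c * w * c⁻¹ = w ^ 2 := by
    rw [← d1 w (mem_zpowers w), hca, show g⁻¹ * w * g = v by rw [hwdef]; group, d2, ← conj_pow,
      d1 w (mem_zpowers w)]
  obtain ⟨s, hs, i, hi⟩ := hH.gen _ (inv_conj_mem hg v hv)
  have hcv : c * v ^ 2 * c⁻¹ = v * w ^ i := by
    rw [← d2, hca, hi, map_mul, map_pow, d1 s hs, d2, ← pow_mul, two_mul, pow_add, ← mul_assoc s, ← hi,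
      ← conj_mul, ← conj_pow, ← hwdef]; group
  have hcW : ∀ x ∈ zpowers w, c * x * c⁻¹ ∈ zpowers w := by
    rintro _ ⟨k, rfl⟩
    simp only [← conj_zpow, hcw]
    exact zpow_mem (pow_mem (mem_zpowers w) 2) k
  refine ⟨w, hw, hw1, v * w ^ i, V.mul_mem hv (V.pow_mem hw i), τ c * c⁻¹, fun y hy => ?_, ?_⟩
  · rw [key, symm_fix (t1 _ (inv_conj_mem hcW y hy)), show c * (c⁻¹ * y * c) * c⁻¹ = y by group, t1 y hy]
  · have hvw' : Commute v w := hV.commute hv hw
    rw [key, ← hcv, show c⁻¹ * (c * v ^ 2 * c⁻¹) * c = v ^ 2 by group, map_pow,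
      symm_trans (t1 w (mem_zpowers w)) t2, hvw'.inv_right.mul_pow, ← conj_mul, hcv, ← conj_pow,
      ← conj_inv (b := c), hcw]
    simp only [map_mul, map_pow, map_inv, t2, t1 w (mem_zpowers w)]
    group

theorem small_fix [Finite G] {V : Subgroup G} (hc : Nat.card V = 4 ∨ Nat.card V = 9) {g : G}
    (hg : ∀ x ∈ V, g * x * g⁻¹ ∈ V) {l : ℕ} (hl : l.Prime) (h2 : l ≠ 2) (h3 : l ≠ 3)
    (hgl : g ^ l ∈ centralizer (V : Set G)) : g ∈ centralizer (V : Set G) := by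
  have := Fact.mk hl
  let f : Function.End V := fun v => ⟨g * v * g⁻¹, hg v v.2⟩
  have hf : ∀ (n : ℕ) (v : V), ((f ^ n) v : G) = g ^ n * v * (g ^ n)⁻¹ := fun n => by
    induction n with
    | zero => intro v; simp; rfl
    | succ n ih =>
      intro v
      rw [pow_succ', pow_succ']
      show g * (f ^ n) v * g⁻¹ = _
      rw [ih]; group
  classical
  have := Fintype.ofFinite V
  have h4 := Equiv.Perm.card_fixedPoints_modEq (f := f) (p := l) (n := 1) (by
    funext v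
    apply Subtype.ext
    rw [hf, pow_one, mem_cent.1 hgl v v.2]; rfl)
  have h5 : Fintype.card f.fixedPoints = Nat.card ↥(V ⊓ centralizer {g}) := by
    rw [← Nat.card_eq_fintype_card]
    exact Nat.card_congr ⟨fun x => ⟨x.1, x.1.2, mem_centralizer_singleton_iff.2
        (mul_inv_eq_iff_eq_mul.1 (congrArg Subtype.val x.2)).symm⟩,
      fun x => ⟨⟨x, x.2.1⟩, Subtype.ext (mul_inv_eq_iff_eq_mul.2 (mem_centralizer_singleton_iff.1 x.2.2).symm)⟩,
      fun _ => rfl, fun _ => rfl⟩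
  rw [h5, ← Nat.card_eq_fintype_card] at h4
  have h6 : Nat.card ↥(V ⊓ centralizer {g}) ∣ Nat.card V := card_dvd_of_le inf_le_left
  have h7 : V ⊓ centralizer {g} = V := eq_of_le_of_card_ge inf_le_left (by
    by_contra hh
    have h8 := (Nat.modEq_iff_dvd' (by omega)).1 h4.symm
    set d := Nat.card ↥(V ⊓ centralizer {g})
    have h9 : l ∣ 24 := h8.trans (by
      rcases hc with hc | hc <;> rw [hc] at h6 hh ⊢ <;> have := Nat.le_of_dvd (by norm_num) h6 <;>
        interval_cases d <;> omega)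
    rcases (Nat.Prime.dvd_mul hl).1 (show l ∣ 2 ^ 3 * 3 from h9) with h | h
    · exact h2 ((Nat.prime_dvd_prime_iff_eq hl Nat.prime_two).1 (hl.dvd_of_dvd_pow h))
    · exact h3 ((Nat.prime_dvd_prime_iff_eq hl Nat.prime_three).1 h))
  exact mem_cent.2 fun v hv => mul_inv_eq_iff_eq_mul.2
    (mem_centralizer_singleton_iff.1 (show v ∈ V ⊓ centralizer {g} by rwa [h7]).2).symm

theorem eq_top_of_solv [Finite G] (hG : commutator G = ⊤) (N : Subgroup G) [N.Normal]
    (h : Group.IsSolvable (G ⧸ N)) : N = ⊤ := by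
  have h3 : commutator (G ⧸ N) = ⊤ := by
    rw [commutator_def, ← map_top_of_surjective _ (QuotientGroup.mk'_surjective N), ← map_commutator,
      ← commutator_def, hG]
  by_contra hh
  have : Nontrivial (G ⧸ N) := QuotientGroup.nontrivial_iff.2 hh
  exact (Group.IsSolvable.commutator_lt_top_of_nontrivial (G ⧸ N)).ne h3

theorem small_cent [Finite G] (hG : commutator G = ⊤) {V : Subgroup G} [V.Normal]
    (hc : Nat.card V = 4 ∨ Nat.card V = 9) : centralizer (V : Set G) = ⊤ := by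
  refine eq_top_of_solv hG _ (Char.isSolvable_of_forall_prime_dvd _ 2 3 fun r hr hd => ?_)
  by_contra hh
  push Not at hh
  have := Fact.mk hr
  obtain ⟨x, hx⟩ := exists_prime_orderOf_dvd_card' r hd
  obtain ⟨g, rfl⟩ := QuotientGroup.mk_surjective x
  have h1 := small_fix hc (g := g) (fun v hv => Normal.conj_mem inferInstance v hv g) hr hh.1 hh.2
    ((QuotientGroup.eq_one_iff _).1 (by rw [QuotientGroup.mk_pow, ← hx, pow_orderOf_eq_one]))
  rw [(QuotientGroup.eq_one_iff _).2 h1, orderOf_one] at hx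
  exact hr.one_lt.ne hx

theorem scalar_cent (hG : commutator G = ⊤) {V : Subgroup G}
    (h : ∀ g, ∀ v ∈ V, g * v * g⁻¹ ∈ zpowers v) : centralizer (V : Set G) = ⊤ := by
  rw [eq_top_iff, ← hG, commutator_def, commutator_le]
  intro a _ b _
  refine mem_cent.2 fun v hv => ?_
  obtain ⟨i, hi⟩ := h a⁻¹ v hv
  obtain ⟨j, hj⟩ := h b⁻¹ v hv
  simp only [inv_inv] at hi hj
  have h1 : a⁻¹ * (b⁻¹ * v * b) * a = b⁻¹ * (a⁻¹ * v * a) * b := by
    have e1 : ∀ (c : G) (k : ℤ), c⁻¹ * v ^ k * c = (c⁻¹ * v * c) ^ k := fun c k => by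
      rw [← inv_inv c, inv_inv c⁻¹, conj_zpow]
    rw [← hi, ← hj, e1, e1, ← hi, ← hj, ← zpow_mul, ← zpow_mul, mul_comm]
  calc ⁅a, b⁆ * v * ⁅a, b⁆⁻¹ = a * b * (a⁻¹ * (b⁻¹ * v * b) * a) * (a * b)⁻¹ := by
        rw [commutatorElement_def]; group
    _ = v := by rw [h1]; group

theorem Hm.omega_cent [Finite G] (h : Hm G) (hG : commutator G = ⊤) {p : ℕ} (hp : p.Prime) {V : Subgroup G}
    (hV : EA p V) (hall : ∀ x : G, x ^ p = 1 → x ∈ V) : centralizer (V : Set G) = ⊤ := by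
  have hN : V.Normal := ⟨fun v hv z => hall _ (by rw [conj_pow, hV.pow v hv]; group)⟩
  by_contra hne
  have h1 : ¬ ∀ g, ∀ v ∈ V, g * v * g⁻¹ ∈ zpowers v := fun hh => hne (scalar_cent hG hh)
  push Not at h1
  obtain ⟨g, v, hv, hgv⟩ := h1
  have hg : ∀ x ∈ V, g * x * g⁻¹ ∈ V := fun x hx => hN.conj_mem x hx g
  have hv1 : v ≠ 1 := fun hh => hgv (by simp [hh])
  have hge : p ^ 2 ≤ Nat.card V := by
    have := card_le_of_le (sup_le (zpowers_le.2 hv) (zpowers_le.2 (hg v hv)))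
    rwa [card_adj hp hgv (fun x hx => by rw [hV.conj (hg v hv) (zpowers_le.2 hv hx)]; exact hx)
      (by rw [hV.pow _ (hg v hv)]; exact one_mem _), Nat.card_zpowers, hV.orderOf hp hv hv1, ← pow_two] at this
  rcases hge.lt_or_eq with hlt | heq
  · by_cases h2 : p = 2
    · subst h2
      exact hgv (by
        rw [h.cent_of_big ⟨hV, fun B hB => card_le_of_le fun x hx => hall x (hB.pow x hx)⟩ hlt hg v hv]
        exact mem_zpowers v)
    · obtain ⟨W, -, hW⟩ := exists_hyp hp hV bot_le hv (by simpa using hv1)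
      have h3 : 2 < Nat.card W := by
        have := hW.card hp hV
        have := hp.two_le
        by_contra hh
        nlinarith
      obtain ⟨t, ht, -, -, ht1, -⟩ := exists_two h3
      obtain ⟨d, hd⟩ := h.tv_three hp hV (three_of_card hp hV hlt) hg hv hgv W v hW t ht
      exact ht1 (h.tr_triv hp h2 hV hall hv ht hW.le hd)
  · by_cases h2 : p = 2
    · exact hne (small_cent hG (Or.inl (by rw [← heq, h2]; rfl)))
    by_cases h3 : p = 3
    · exact hne (small_cent hG (Or.inr (by rw [← heq, h3]; rfl)))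
    obtain ⟨w, hw, hw1, x, hx, d, hd⟩ := h.tr_two hp h2 hV heq.ge hg hv hgv
    have := h.tr_triv hp h2 hV hall hx (inv_mem (pow_mem (mem_zpowers w) 3)) (zpowers_le.2 hw) hd
    exact hw1 (mem_bot.1 (mem_of_pow_mem (V := ⊥) hp (hV.pow w hw) (inv_eq_one.1 this) fun hd =>
      h3 ((Nat.prime_dvd_prime_iff_eq hp Nat.prime_three).1 hd)))

end Cfsg.Lib.Hg
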