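import Cfsg.Agent.Lib.Hg.Excl2
import Cfsg.Agent.S2690

/-! Homogeneous finite groups: the two-dimensional linear groups. -/

set_option autoImplicit false

namespace Cfsg.Lib.Hg

open Subgroup Matrix

variable {F : Type*} [Field F]

/-- Projection to `PSL₂`. -/
abbrev pr (A : Matrix.SpecialLinearGroup (Fin 2) F) : ProjectiveSpecialLinearGroup (Fin 2) F :=
  QuotientGroup.mk A

theorem pr_eq {A B : Matrix.SpecialLinearGroup (Fin 2) F} (h : pr A = pr B) : tm A = tm B ∨ tm A = -tm B := by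
  obtain ⟨r, hr, h1⟩ := tm_center.1 (QuotientGroup.eq.1 h.symm)
  have h2 : tm A = r • tm B := by
    rw [show A = B * (B⁻¹ * A) by group, map_mul, h1]; simp
  rcases mul_self_eq_one_iff.1 (show r * r = 1 by rwa [← pow_two]) with rfl | rfl
  · left; simpa using h2
  · right; simpa using h2

/-- Every automorphism of `PSL₂(F)` comes from a semilinear map. -/
theorem aut_psl2 [Fintype F] (h4 : 4 ≤ Fintype.card F) (β : MulAut (ProjectiveSpecialLinearGroup (Fin 2) F)) :
    ∃ (g g' : Matrix (Fin 2) (Fin 2) F) (σ : F ≃+* F), g * g' = 1 ∧ g' * g = 1 ∧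
      ∀ A B, β (pr A) = pr B → g * (tm A).map σ * g' = tm B ∨ g * (tm A).map σ * g' = -tm B := by
  obtain ⟨p, -, f, hp, hf⟩ := FiniteField.card' F
  have := Fact.mk hp
  obtain ⟨δ, φ, γ, σ, ⟨g, hg⟩, hφ, hγ, rfl⟩ := Cfsg.Agent.S2690.result hf f.pos le_rfl (fun _ => h4) β
  have h1 : ∀ A : Matrix.SpecialLinearGroup (Fin 2) F, ∃ C, δ (φ (pr A)) = pr C ∧
      tm C = (g : Matrix (Fin 2) (Fin 2) F) * (tm A).map σ * (g⁻¹ : GL (Fin 2) F) := by
    intro A
    have hd : ((tm A).map σ).det = 1 := by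
      have := RingHom.map_det (σ : F →+* F) (tm A)
      rw [tm_det, map_one] at this
      exact this.symm
    refine ⟨⟨(g : Matrix (Fin 2) (Fin 2) F) * (tm A).map σ * (g⁻¹ : GL (Fin 2) F), by
      rw [det_mul, det_mul, hd, mul_one, ← det_mul]; simp⟩, ?_, rfl⟩
    rw [hφ A ⟨_, hd⟩ rfl]
    exact hg _ _ rfl
  rcases hγ with rfl | hγ
  · refine ⟨g, (g⁻¹ : GL (Fin 2) F), σ, by simp, by simp, fun A B h => ?_⟩
    obtain ⟨C, h2, h3⟩ := h1 A
    rw [← h3]
    exact pr_eq (h2.symm.trans h)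
  · refine ⟨(g : Matrix (Fin 2) (Fin 2) F) * !![0, 1; -1, 0],
      !![0, -1; 1, 0] * ((g⁻¹ : GL (Fin 2) F) : Matrix (Fin 2) (Fin 2) F), σ, ?_, ?_, fun A B h => ?_⟩
    · rw [mul_assoc, ← mul_assoc !![0, 1; -1, 0], show (!![0, 1; -1, 0] * !![0, -1; 1, 0] : Matrix _ _ F) = 1 by
        ext i j; fin_cases i <;> fin_cases j <;> simp]; simp
    · rw [mul_assoc, ← mul_assoc ((g⁻¹ : GL (Fin 2) F) : Matrix (Fin 2) (Fin 2) F)]
      simp only [Units.inv_mul, one_mul]
      ext i j; fin_cases i <;> fin_cases j <;> simp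
    · have hd := tm_det A
      rw [det_fin_two] at hd
      let A' : Matrix.SpecialLinearGroup (Fin 2) F :=
        ⟨!![tm A 1 1, -tm A 1 0; -tm A 0 1, tm A 0 0], by rw [det_fin_two]; simp; linear_combination hd⟩
      have h2 : γ (pr A) = pr A' := hγ A A' (by
        rw [Matrix.SpecialLinearGroup.coe_inv, adjugate_fin_two]
        ext i j; fin_cases i <;> fin_cases j <;> rfl)
      obtain ⟨C, h3, h4⟩ := h1 A'
      have h5 : (tm A').map σ = !![0, 1; -1, 0] * (tm A).map σ * !![0, -1; 1, 0] := by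
        show (!![tm A 1 1, -tm A 1 0; -tm A 0 1, tm A 0 0] : Matrix _ _ F).map σ = _
        ext i j; fin_cases i <;> fin_cases j <;> simp [mul_apply, Fin.sum_univ_two, vecMul, dotProduct]
      rw [h5] at h4
      simp only [← mul_assoc] at h4 ⊢
      rw [← h4]
      exact pr_eq (h3.symm.trans (by rw [← h2]; exact h))

theorem tr_conj {g g' M : Matrix (Fin 2) (Fin 2) F} (h : g' * g = 1) : (g * M * g').trace = M.trace := by
  rw [trace_mul_comm, ← mul_assoc, h, one_mul]

theorem tr_map (σ : F ≃+* F) (M : Matrix (Fin 2) (Fin 2) F) : (M.map σ).trace = σ M.trace := by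
  simp [trace_fin_two]

theorem aut_tr [Fintype F] (h4 : 4 ≤ Fintype.card F) (β : MulAut (ProjectiveSpecialLinearGroup (Fin 2) F)) :
    ∃ σ : F ≃+* F, ∀ A B, β (pr A) = pr B → (tm B).trace ^ 2 = σ (tm A).trace ^ 2 := by
  obtain ⟨g, g', σ, -, h2, h⟩ := aut_psl2 h4 β
  refine ⟨σ, fun A B hh => ?_⟩
  rcases h A B hh with h3 | h3 <;> have := congrArg trace h3 <;> rw [tr_conj h2, tr_map] at this <;>
    simp [this]

/-- Upper unitriangular `2 × 2` matrices. -/
def un2 : Multiplicative F →* Matrix.SpecialLinearGroup (Fin 2) F := MonoidHom.mk'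
  (fun a => ⟨!![1, a.toAdd; 0, 1], by simp [det_fin_two]⟩) fun a b => tm_inj (by
    show !![1, a.toAdd + b.toAdd; 0, 1] = !![1, a.toAdd; 0, 1] * !![1, b.toAdd; 0, 1]
    ext i j; fin_cases i <;> fin_cases j <;> simp [add_comm])

theorem tm_un2 (a : Multiplicative F) : tm (un2 a) = !![1, a.toAdd; 0, 1] := rfl

theorem un2_inj : Function.Injective ((QuotientGroup.mk' (center _)).comp (un2 (F := F))) :=
  (injective_iff_map_eq_one _).2 fun a ha => by
    obtain ⟨r, -, hr⟩ := tm_center.1 ((QuotientGroup.eq_one_iff _).1 ha)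
    have := congrFun (congrFun hr 0) 1
    simpa [tm_un2] using this

theorem un2_inj' : Function.Injective (un2 (F := F)) :=
  Function.Injective.of_comp (f := QuotientGroup.mk' (center _)) un2_inj

/-- The consequences of homogeneity that are used for `PSL₂(F)`. -/
structure PH (F : Type*) [Field F] : Prop where
  cyc : ∀ (A : Matrix.SpecialLinearGroup (Fin 2) F) (j : ℕ), (orderOf A).Coprime j →
    ∃ β : MulAut (ProjectiveSpecialLinearGroup (Fin 2) F), β (pr A) = pr (A ^ j)
  uni : ∀ θ : Multiplicative F →* Multiplicative F, Function.Injective θ →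
    ∃ β : MulAut (ProjectiveSpecialLinearGroup (Fin 2) F), ∀ a, β (pr (un2 a)) = pr (un2 (θ a))

theorem PH.prime [Fintype F] (h : PH F) (h4 : 4 ≤ Fintype.card F) {p : ℕ} [Fact p.Prime] [CharP F p]
    (h2 : p ≠ 2) (b : F) : ∃ k : ZMod p, b = ZMod.castHom (dvd_refl p) F k := by
  by_contra hb
  push Not at hb
  let _ : Algebra (ZMod p) F := ZMod.algebra F p
  have hc : ∀ k : ZMod p, ZMod.castHom (dvd_refl p) F k = algebraMap (ZMod p) F k := fun _ => rfl
  obtain ⟨l, hl1, hl2⟩ := Submodule.exists_dual_map_eq_bot_of_notMem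
    (p := Submodule.span (ZMod p) {(1 : F)}) (x := b) (fun hh => by
      obtain ⟨k, hk⟩ := Submodule.mem_span_singleton.1 hh
      exact hb k (by rw [← hk, hc, Algebra.algebraMap_eq_smul_one])) inferInstance
  have hl : ∀ k : ZMod p, l (algebraMap (ZMod p) F k) = 0 := fun k => by
    have : l (algebraMap (ZMod p) F k) ∈ (Submodule.span (ZMod p) {(1 : F)}).map l :=
      ⟨_, Submodule.mem_span_singleton.2 ⟨k, (Algebra.algebraMap_eq_smul_one k).symm⟩, rfl⟩
    rwa [hl2, Submodule.mem_bot] at this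
  let θ : Multiplicative F →* Multiplicative F := MonoidHom.mk'
    (fun a => Multiplicative.ofAdd (a.toAdd + algebraMap (ZMod p) F (l a.toAdd))) fun a b => by
      rw [← ofAdd_add, toAdd_mul, l.map_add, (algebraMap (ZMod p) F).map_add]; congr 1; ring
  obtain ⟨β, hβ⟩ := h.uni θ ((injective_iff_map_eq_one _).2 fun a ha => by
    have h1 : a.toAdd + algebraMap (ZMod p) F (l a.toAdd) = 0 := ha
    have h3 := congrArg l h1
    rw [map_add, hl, add_zero, map_zero] at h3
    rw [h3, map_zero, add_zero] at h1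
    exact h1)
  obtain ⟨g, g', σ, h1, h1', h3⟩ := aut_psl2 h4 β
  have h20 : (2 : F) ≠ 0 := fun hh => h2 ((Nat.prime_dvd_prime_iff_eq Fact.out Nat.prime_two).1
    ((CharP.cast_eq_zero_iff F p 2).1 (by simpa using hh)))
  have h5 : ∀ a : F, σ a • (g * !![0, 1; 0, 0] * g') =
      (a + algebraMap (ZMod p) F (l a)) • (!![0, 1; 0, 0] : Matrix (Fin 2) (Fin 2) F) := by
    intro a
    have e1 : (tm (un2 (Multiplicative.ofAdd a))).map σ = 1 + σ a • !![0, 1; 0, 0] := by
      rw [tm_un2]; ext i j; fin_cases i <;> fin_cases j <;> simp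
    have e2 : tm (un2 (θ (Multiplicative.ofAdd a))) =
        1 + (a + algebraMap (ZMod p) F (l a)) • !![0, 1; 0, 0] := by
      rw [tm_un2]; ext i j; fin_cases i <;> fin_cases j <;> simp [θ]
    rcases h3 _ _ (hβ (Multiplicative.ofAdd a)) with h6 | h6
    · rw [e1, e2, mul_add, add_mul, mul_one, h1, add_left_cancel_iff, Matrix.mul_smul, Matrix.smul_mul] at h6
      exact h6
    · have := congrArg trace h6
      rw [tr_conj h1', tr_map, tm_un2, tm_un2] at this
      simp [trace_fin_two] at this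
      exact absurd (by linear_combination this : (2 : F) * 2 = 0) (mul_ne_zero h20 h20)
  have h6 := h5 1
  rw [map_one, one_smul, ← map_one (algebraMap (ZMod p) F), hl, map_zero, add_zero, map_one, one_smul] at h6
  have h7 : ∀ a : F, σ a = a + algebraMap (ZMod p) F (l a) := fun a => by
    have := congrFun (congrFun (h5 a) 0) 1
    rw [h6] at this
    simpa using this
  have h8 := h7 (b * b)
  rw [map_mul, h7 b] at h8
  have h2' : (2 : ZMod p) ≠ 0 := fun hh => h20 (by
    rw [← map_ofNat (algebraMap (ZMod p) F) 2, hh, map_zero])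
  refine hb ((l (b * b) - l b ^ 2) / (2 * l b)) ?_
  have h9 : algebraMap (ZMod p) F (l b) ≠ 0 := by simpa using hl1
  rw [hc, map_div₀, map_sub, map_pow, (algebraMap (ZMod p) F).map_mul, map_ofNat,
    eq_div_iff (mul_ne_zero h20 h9)]
  linear_combination h8

end Cfsg.Lib.Hg
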