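import Cfsg.Agent.Lib.Hg.Psl2

/-! Homogeneous finite groups: only `q = 5, 7` survive for the two-dimensional linear groups. -/

set_option autoImplicit false

namespace Cfsg.Lib.Hg

open Subgroup Matrix

variable {F : Type*} [Field F]

theorem PH.card_eq [Fintype F] (h : PH F) (h4 : 4 ≤ Fintype.card F) {p : ℕ} [Fact p.Prime] [CharP F p]
    (h2 : p ≠ 2) : Fintype.card F = p := by
  rw [← ZMod.card p]
  exact (Fintype.card_of_bijective ⟨(ZMod.castHom (dvd_refl p) F).injective,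
    fun b => (h.prime h4 h2 b).imp fun _ hk => hk.symm⟩).symm

theorem PH.fix [Fintype F] (h : PH F) (h4 : 4 ≤ Fintype.card F) {p : ℕ} [Fact p.Prime] [CharP F p]
    (h2 : p ≠ 2) (σ : F ≃+* F) (b : F) : σ b = b := by
  obtain ⟨k, rfl⟩ := h.prime h4 h2 b
  rw [ZMod.castHom_apply, ZMod.cast_eq_val, map_natCast]

theorem sl2_sq (B : Matrix.SpecialLinearGroup (Fin 2) F) : tm B * tm B = (tm B).trace • tm B - 1 := by
  have hd := tm_det B
  rw [det_fin_two] at hd
  ext i j; fin_cases i <;> fin_cases j <;> simp [mul_apply, Fin.sum_univ_two, trace_fin_two]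
  · linear_combination -hd
  · ring
  · ring
  · linear_combination -hd

theorem sl2_five {B : Matrix.SpecialLinearGroup (Fin 2) F} (h5 : B ^ 5 = 1) (h1 : B ≠ 1) :
    (tm B).trace ^ 4 - 3 * (tm B).trace ^ 2 + 1 = 0 := by
  by_contra hne
  set τ := (tm B).trace
  have h2 : tm B ^ 2 = τ • tm B - 1 := by rw [pow_two, sl2_sq]
  have h3 : tm B ^ 3 = (τ ^ 2 - 1) • tm B - τ • 1 := by
    rw [pow_succ, h2, sub_mul, smul_mul_assoc, sl2_sq, one_mul]; module
  have h4 : tm B ^ 4 = (τ ^ 3 - 2 * τ) • tm B - (τ ^ 2 - 1) • 1 := by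
    rw [pow_succ, h3, sub_mul, smul_mul_assoc, sl2_sq, smul_mul_assoc, one_mul]; module
  have h6 : tm B ^ 5 = (τ ^ 4 - 3 * τ ^ 2 + 1) • tm B - (τ ^ 3 - 2 * τ) • 1 := by
    rw [pow_succ, h4, sub_mul, smul_mul_assoc, sl2_sq, smul_mul_assoc, one_mul]; module
  rw [← map_pow, h5, map_one] at h6
  have h7 : tm B = ((τ ^ 4 - 3 * τ ^ 2 + 1)⁻¹ * (τ ^ 3 - 2 * τ + 1)) • (1 : Matrix (Fin 2) (Fin 2) F) := by
    rw [mul_smul, eq_inv_smul_iff₀ hne, add_smul (τ ^ 3 - 2 * τ), one_smul]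
    exact eq_add_of_sub_eq' h6.symm
  set r := (τ ^ 4 - 3 * τ ^ 2 + 1)⁻¹ * (τ ^ 3 - 2 * τ + 1)
  have h8 : r ^ 2 = 1 := by have := tm_det B; rw [h7] at this; simpa using this
  have h9 : B ^ 2 = 1 := tm_inj (by rw [map_pow, h7, _root_.smul_pow, h8]; simp)
  apply h1
  rw [show 5 = 2 * 2 + 1 by norm_num, pow_succ, pow_mul, h9] at h5
  simpa using h5

/-- An element of trace three. -/
def a3 (F : Type*) [Field F] : Matrix.SpecialLinearGroup (Fin 2) F :=
  ⟨!![2, 1; 1, 1], by simp [det_fin_two]; norm_num⟩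

theorem tm_a3 : tm (a3 F) = !![2, 1; 1, 1] := rfl

theorem PH.card [Fintype F] (h : PH F) (h4 : 4 ≤ Fintype.card F) (hF : Odd (Fintype.card F)) :
    Fintype.card F = 5 ∨ Fintype.card F = 7 := by
  obtain ⟨p, hch⟩ := CharP.exists F
  have hp := CharP.char_is_prime F p
  have := Fact.mk hp
  have h2 : p ≠ 2 := ne_two_of_odd hF
  have hc := h.card_eq h4 h2
  have hdv : ∀ n : ℕ, (n : F) = 0 → p ∣ n := fun n hn => (CharP.cast_eq_zero_iff F p n).1 hn
  by_cases h5 : 5 ∣ orderOf (a3 F)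
  · left
    have ho := orderOf_pow_orderOf_div (orderOf_pos (a3 F)).ne' h5
    set B := a3 F ^ (orderOf (a3 F) / 5)
    obtain ⟨β, hβ⟩ := h.cyc B 2 (by rw [ho]; norm_num)
    obtain ⟨σ, hσ⟩ := aut_tr h4 β
    have h6 := hσ _ _ hβ
    rw [h.fix h4 h2, map_pow, pow_two (tm B), sl2_sq, trace_sub, trace_smul, trace_one] at h6
    have h7 := sl2_five (B := B) (by rw [← ho, pow_orderOf_eq_one]) (fun hh => by simp [hh] at ho)
    simp only [smul_eq_mul, Fintype.card_fin, Nat.cast_ofNat] at h6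
    rw [hc]
    refine (Nat.prime_dvd_prime_iff_eq hp Nat.prime_five).1 (hdv 5 ?_)
    set τ := (tm B).trace
    push_cast
    linear_combination (2 * τ ^ 2 - 3) * (h7 - h6) - 4 * h7
  · obtain ⟨β, hβ⟩ := h.cyc (a3 F) 5 ((Nat.Prime.coprime_iff_not_dvd Nat.prime_five).2 h5).symm
    obtain ⟨σ, hσ⟩ := aut_tr h4 β
    have h6 := hσ _ _ hβ
    rw [h.fix h4 h2, map_pow, tm_a3] at h6
    simp [pow_succ, trace_fin_two] at h6
    have h7 := hdv 15120 (by push_cast; linear_combination h6)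
    rw [show 15120 = 2 ^ 4 * 3 ^ 3 * 5 * 7 by norm_num] at h7
    rw [hc] at h4 ⊢
    rcases (Nat.Prime.dvd_mul hp).1 h7 with h8 | h8
    · rcases (Nat.Prime.dvd_mul hp).1 h8 with h9 | h9
      · rcases (Nat.Prime.dvd_mul hp).1 h9 with h10 | h10
        · have := Nat.le_of_dvd two_pos (hp.dvd_of_dvd_pow h10); omega
        · have := Nat.le_of_dvd three_pos (hp.dvd_of_dvd_pow h10); omega
      · exact Or.inl ((Nat.prime_dvd_prime_iff_eq hp Nat.prime_five).1 h9)
    · exact Or.inr ((Nat.prime_dvd_prime_iff_eq hp (by norm_num)).1 h8)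

theorem ph_of_psl [Finite F] (h : Hm (ProjectiveSpecialLinearGroup (Fin 2) F)) : PH F where
  cyc A j hj := h.of_order (by
    rw [show pr (A ^ j) = pr A ^ j from rfl]
    exact (Nat.Coprime.orderOf_pow (hj.coprime_dvd_left
      (orderOf_map_dvd (QuotientGroup.mk' (center _)) A))).symm)
  uni θ hθ := h.of_homs _ (((QuotientGroup.mk' (center _)).comp un2).comp θ) un2_inj (un2_inj.comp hθ)

theorem induce {G : Type*} [Group G] (N : Subgroup G) [N.Characteristic] (φ : G ≃* G) :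
    ∃ ψ : G ⧸ N ≃* G ⧸ N, ∀ g : G, ψ (g : G ⧸ N) = (φ g : G) :=
  ⟨QuotientGroup.congr N N φ (characteristic_iff_map_eq.1 inferInstance φ), fun _ => rfl⟩

theorem ph_of_sl [Finite F] (h : Hm (Matrix.SpecialLinearGroup (Fin 2) F)) : PH F where
  cyc A j hj := by
    obtain ⟨φ, hφ⟩ := h.of_order (Nat.Coprime.orderOf_pow hj).symm
    obtain ⟨ψ, hψ⟩ := induce (center _) φ
    exact ⟨ψ, by rw [hψ, hφ]⟩
  uni θ hθ := by
    obtain ⟨φ, hφ⟩ := h.of_homs _ (un2.comp θ) un2_inj' (un2_inj'.comp hθ)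
    obtain ⟨ψ, hψ⟩ := induce (center _) φ
    exact ⟨ψ, fun a => by rw [hψ, hφ]; rfl⟩

/-- An automorphism of `SL₂(F)` acts on elements of odd order exactly by a semilinear map. -/
theorem aut_sl2 [Fintype F] (h4 : 4 ≤ Fintype.card F) (hF : Odd (Fintype.card F))
    (φ : Matrix.SpecialLinearGroup (Fin 2) F ≃* Matrix.SpecialLinearGroup (Fin 2) F) :
    ∃ (g g' : Matrix (Fin 2) (Fin 2) F) (σ : F ≃+* F), g * g' = 1 ∧ g' * g = 1 ∧
      ∀ A, Odd (orderOf A) → g * (tm A).map σ * g' = tm (φ A) := by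
  obtain ⟨ψ, hψ⟩ := induce (center _) φ
  obtain ⟨g, g', σ, h1, h2, h3⟩ := aut_psl2 h4 ψ
  refine ⟨g, g', σ, h1, h2, fun A hA => (h3 A _ (hψ A)).resolve_right fun hh => ?_⟩
  have h5 : ∀ n : ℕ, (g * (tm A).map σ * g') ^ n = g * (tm (A ^ n)).map σ * g' := by
    intro n
    induction n with
    | zero => simp [h1]
    | succ n ih =>
      rw [pow_succ, ih, pow_succ, map_mul, Matrix.map_mul]
      simp only [mul_assoc]
      rw [← mul_assoc g' g, h2, one_mul]
  have h6 := h5 (orderOf A)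
  rw [hh, hA.neg_pow, ← map_pow, ← map_pow, pow_orderOf_eq_one] at h6
  simp only [map_one, Matrix.map_one _ (map_zero σ) (map_one σ), mul_one, h1] at h6
  obtain ⟨p, hch⟩ := CharP.exists F
  have hp := CharP.char_is_prime F p
  have := Fact.mk hp
  refine ne_two_of_odd hF ((Nat.prime_dvd_prime_iff_eq hp Nat.prime_two).1
    ((CharP.cast_eq_zero_iff F p 2).1 ?_))
  have := congrFun (congrFun h6 0) 0
  simp at this
  push_cast; linear_combination -this

theorem not_sl27 [Fintype F] (h7 : Fintype.card F = 7) (h : Hm (Matrix.SpecialLinearGroup (Fin 2) F)) :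
    False := by
  have h0 : (7 : F) = 0 := by simpa [h7] using FiniteField.cast_card_eq_zero F
  have h1 : (1 : F) ≠ 0 := one_ne_zero
  have h8 : a3 F ^ 8 = 1 := tm_inj (by
    rw [map_pow, tm_a3, map_one]
    ext i j; fin_cases i <;> fin_cases j <;> simp [pow_succ]
    · linear_combination 228 * h0
    · linear_combination 141 * h0
    · linear_combination 141 * h0
    · linear_combination 87 * h0)
  obtain ⟨φ, hφ⟩ := h.of_order (x := a3 F) (y := a3 F ^ 3) (Nat.Coprime.orderOf_pow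
    (Nat.Coprime.coprime_dvd_left (orderOf_dvd_of_pow_eq_one h8) (by norm_num))).symm
  obtain ⟨g, g', σ, h2, h3, h4⟩ := aut_sl2 (by omega) (by rw [h7]; decide) φ
  let u : Matrix.SpecialLinearGroup (Fin 2) F := ⟨!![1, 1; 0, 1], by simp [det_fin_two]⟩
  let v : Matrix.SpecialLinearGroup (Fin 2) F := ⟨!![1, 0; 1, 1], by simp [det_fin_two]⟩
  have hu : tm u = !![1, 1; 0, 1] := rfl
  have hv : tm v = !![1, 0; 1, 1] := rfl
  have hodd : ∀ x : Matrix.SpecialLinearGroup (Fin 2) F, x ^ 7 = 1 → Odd (orderOf x) := fun x hx =>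
    Odd.of_dvd_nat (by decide) (orderOf_dvd_of_pow_eq_one hx)
  have h5 := h4 u (hodd u (tm_inj (by
    rw [map_pow, hu, map_one]
    ext i j; fin_cases i <;> fin_cases j <;> simp [pow_succ]
    linear_combination h0)))
  have h6 := h4 v (hodd v (tm_inj (by
    rw [map_pow, hv, map_one]
    ext i j; fin_cases i <;> fin_cases j <;> simp [pow_succ]
    linear_combination h0)))
  have huv : a3 F = u * v := tm_inj (by
    rw [map_mul, hu, hv, tm_a3]
    ext i j; fin_cases i <;> fin_cases j <;> simp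
    norm_num)
  have h9 : g * (tm (a3 F)).map σ * g' = tm (a3 F ^ 3) := by
    rw [← hφ, huv, map_mul, map_mul, map_mul, ← h5, ← h6, Matrix.map_mul]
    simp only [mul_assoc]
    rw [← mul_assoc g' g, h3, one_mul]
  have := congrArg trace h9
  rw [tr_conj h3, tr_map, map_pow, tm_a3] at this
  simp [pow_succ, trace_fin_two, map_ofNat] at this
  exact h1 (by linear_combination -this - 2 * h0)

end Cfsg.Lib.Hg
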