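import Cfsg.Agent.Lib.Hg.Two6
import Cfsg.Agent.S0215
import Cfsg.Prelude.Def_CaseTheorems

/-! A homogeneous finite simple group has 2-rank at most two. -/

set_option autoImplicit false

namespace Cfsg.Lib.Hg

open Subgroup Cfsg.Lib.Transfer

variable {G : Type*} [Group G]

theorem exists_mx [Finite G] : ∃ V : Subgroup G, Mx V := by
  obtain ⟨V, hV, hmax⟩ := Set.exists_max_image {B : Subgroup G | EA 2 B} (fun B => Nat.card B)
    (Set.toFinite _) ⟨⊥, by simp +contextual, by simp +contextual⟩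
  exact ⟨V, hV, hmax⟩

theorem Hm.prank [Finite G] [IsSimpleGroup G] (h : Hm G) (hn : ¬ IsMulCommutative G) :
    PRankLE 2 2 G := by
  intro A hA hA2
  by_contra hlt
  have := Fact.mk Nat.prime_two
  obtain ⟨V, hV⟩ := exists_mx (G := G)
  have hE := hV.ea
  have h8 : 4 < Nat.card V := by
    have := hV.max A ⟨fun x hx y hy => setLike_mul_comm (s := A) hx hy, hA2⟩
    omega
  have hc := fun g => h.cent_of_big hV h8 (g := g)
  obtain ⟨S, hS⟩ := hE.isPGroup.exists_le_sylow
  have hSN : (S : Subgroup G) ≤ normalizer (V : Set G) := by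
    by_contra hh
    have hlt : (S : Subgroup G) ⊓ normalizer (V : Set G) < S :=
      lt_of_le_not_ge inf_le_left fun h1 => hh (h1.trans inf_le_right)
    obtain ⟨y, hy, hy'⟩ := SetLike.exists_of_lt (lt_inf_normalizer_of_lt S.isPGroup' hlt)
    refine hy' ⟨hy.1, mem_norm fun v hv => hV.f1 (by rw [conj_pow, hE.pow v hv]; simp) ?_⟩
    exact hc _ (norm_conj (norm_conj hy.2 v ⟨hS hv, le_normalizer hv⟩).2)
  have hSV : ∀ x ∈ S, x ^ 2 = 1 → x ∈ V := fun x hx hx2 => hV.f1 hx2 (hc x (norm_conj (hSN hx)))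
  obtain ⟨u, hu, -, -, hu1, -⟩ := exists_two (W := V) (by omega)
  obtain ⟨N, hN, hNo, hNu⟩ := Cfsg.Agent.S0215.result S u (hE.orderOf Nat.prime_two hu hu1) (hS hu) (by
    intro g hg
    have hu' := hSV _ hg (by rw [conj_pow, hE.pow u hu]; simp)
    have hSC : (S : Subgroup G) ≤ centralizer {g * u * g⁻¹} := fun x hx =>
      mem_centralizer_singleton_iff.2 (mul_inv_eq_iff_eq_mul.1 (hc x (norm_conj (hSN hx)) _ hu'))
    obtain ⟨c, hc1, hc2⟩ := exists_conj_le_of_not_dvd_relIndex S.isPGroup' (sylow_not_dvd_relIndex S hSC)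
      (isPGroup_conj hE.isPGroup g) (conj_le_iff.2 fun x hx => mem_centralizer_singleton_iff.2 (by
        rw [conj_mul, conj_mul, hE.comm x hx u hu]))
    rw [conj_conj, conj_le_iff] at hc2
    have h1 := hc (c * g) (fun v hv => hSV _ (hc2 v hv) (by rw [conj_pow, hE.pow v hv]; simp)) u hu
    rw [show c * g * u * (c * g)⁻¹ = c * (g * u * g⁻¹) * c⁻¹ by group,
      mem_centralizer_singleton_iff.1 hc1, mul_inv_cancel_right] at h1
    exact h1)
  rcases hN.eq_bot_or_eq_top with rfl | rfl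
  · have hz : u ∈ center G := mem_center_iff.2 fun g => by
      have := mem_bot.1 (hNu g)
      rw [mul_inv_eq_one, mul_inv_eq_iff_eq_mul] at this
      exact this.symm
    rcases (inferInstance : (center G).Normal).eq_bot_or_eq_top with h1 | h1
    · exact hu1 (by rwa [h1, mem_bot] at hz)
    · exact hn ⟨⟨fun a b => mem_center_iff.1 (h1 ▸ mem_top b) a⟩⟩
  · rw [card_top] at hNo
    have := orderOf_dvd_natCard u
    rw [hE.orderOf Nat.prime_two hu hu1] at this
    exact (Nat.not_even_iff_odd.2 hNo) (even_iff_two_dvd.2 this)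

end Cfsg.Lib.Hg
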