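import Cfsg.Agent.Lib.Hg.Two1
import Cfsg.Agent.S3776

/-! Homogeneous finite groups with central involutions. -/

set_option autoImplicit false

namespace Cfsg.Lib.Hg

open Subgroup Cfsg.Lib.Transfer
open scoped commutatorElement

variable {G : Type*} [Group G]

theorem EA.equiv_field [Finite G] {V : Subgroup G} (hV : EA 2 V) (hne : 1 < Nat.card V) :
    ∃ n, n ≠ 0 ∧ Nonempty (Multiplicative (GaloisField 2 n) ≃* V) := by
  let _ : CommGroup V := { (inferInstance : Group V) with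
    mul_comm := fun a b => Subtype.ext (hV.comm a a.2 b b.2) }
  let _ : Module (ZMod 2) (Additive V) := AddCommGroup.zmodModule fun x =>
    Additive.toMul.injective (Subtype.ext (hV.pow _ (Additive.toMul x).2))
  have hc : Nat.card V = 2 ^ Module.finrank (ZMod 2) (Additive V) := by
    have := Module.natCard_eq_pow_finrank (K := ZMod 2) (V := Additive V)
    rwa [Nat.card_zmod] at this
  have hn : Module.finrank (ZMod 2) (Additive V) ≠ 0 := fun hh => by rw [hh] at hc; omega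
  refine ⟨_, hn, ⟨?_⟩⟩
  exact AddEquiv.toMultiplicativeLeft
    (LinearEquiv.ofFinrankEq _ _ (GaloisField.finrank 2 hn)).toAddEquiv

theorem Hm.singer [Finite G] (h : Hm G) {V : Subgroup G} (hV : EA 2 V) (hne : 1 < Nat.card V) :
    ∃ α : MulAut G, ∀ x ∈ V, x ≠ 1 → ∀ y ∈ V, y ≠ 1 → ∃ k : ℕ, (α ^ k) x = y := by
  obtain ⟨n, hn, ⟨e⟩⟩ := hV.equiv_field hne
  obtain ⟨ω, hω⟩ := IsCyclic.exists_monoid_generator (α := (GaloisField 2 n)ˣ)
  let f : Multiplicative (GaloisField 2 n) →* G := V.subtype.comp e.toMonoidHom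
  have hf : Function.Injective f := V.subtype_injective.comp e.injective
  let θ : Multiplicative (GaloisField 2 n) →* Multiplicative (GaloisField 2 n) :=
    AddMonoidHom.toMultiplicative (AddMonoidHom.mulLeft (ω : GaloisField 2 n))
  obtain ⟨α, hα⟩ := h.of_homs f (f.comp θ) hf (hf.comp fun a b hab =>
    Multiplicative.toAdd.injective
      (mul_left_cancel₀ ω.ne_zero (show (ω : GaloisField 2 n) * a.toAdd = ω * b.toAdd from hab)))
  let β : MulAut G := α
  have hk : ∀ (k : ℕ) (a : GaloisField 2 n), (β ^ k) (f (Multiplicative.ofAdd a)) =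
      f (Multiplicative.ofAdd ((ω : GaloisField 2 n) ^ k * a)) := by
    intro k a
    induction k with
    | zero => simp
    | succ k ih =>
      rw [pow_succ', MulAut.mul_apply, ih, pow_succ', mul_assoc]
      exact hα _
  refine ⟨β, fun x hx hx1 y hy hy1 => ?_⟩
  obtain ⟨a, ha⟩ := e.surjective ⟨x, hx⟩
  obtain ⟨b, hb⟩ := e.surjective ⟨y, hy⟩
  have ha' : f a = x := congrArg Subtype.val ha
  have hb' : f b = y := congrArg Subtype.val hb
  have ha0 : a.toAdd ≠ 0 := fun hh => hx1 (by rw [← ha', show a = 1 from hh, map_one])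
  have hb0 : b.toAdd ≠ 0 := fun hh => hy1 (by rw [← hb', show b = 1 from hh, map_one])
  obtain ⟨k, hk'⟩ := hω (Units.mk0 (b.toAdd / a.toAdd) (div_ne_zero hb0 ha0))
  refine ⟨k, ?_⟩
  have h1 : (ω : GaloisField 2 n) ^ k = b.toAdd / a.toAdd := by
    simpa using congrArg Units.val hk'
  rw [← ha', ← hb', ← ofAdd_toAdd a, hk, h1, div_mul_cancel₀ _ ha0, ofAdd_toAdd]

/-- If the involutions are central and there are at least two of them, then commutators in a
Sylow 2-subgroup have order at most two. -/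
theorem Hm.syl_comm [Finite G] (h : Hm G) (hZ : ∀ x : G, x ^ 2 = 1 → x ∈ center G) {v w : G} (hv : v ^ 2 = 1)
    (hw : w ^ 2 = 1) (hv1 : v ≠ 1) (hw1 : w ≠ 1) (hvw : v ≠ w) (S : Sylow 2 G) :
    ∀ x ∈ S, ∀ y ∈ S, (x * y * x⁻¹ * y⁻¹) ^ 2 = 1 := by
  have := Fact.mk Nat.prime_two
  by_cases hab : IsMulCommutative (S : Subgroup G)
  · intro x hx y hy
    rw [setLike_mul_comm (s := (S : Subgroup G)) hx hy]; simp
  let V : Subgroup G := mkSub {x | x ^ 2 = 1} (by simp) fun x hx y hy => by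
    have : Commute x y := mem_center_iff.1 (hZ y hy) x
    show (x * y) ^ 2 = 1
    rw [this.mul_pow, hx, hy, one_mul]
  have hV : EA 2 V := ⟨fun x _ y hy => mem_center_iff.1 (hZ y hy) x, fun x hx => hx⟩
  have : V.Normal := ⟨fun x hx g => by
    show (g * x * g⁻¹) ^ 2 = 1
    rw [conj_pow, show x ^ 2 = 1 from hx]; simp⟩
  have hVS : V ≤ S := hV.isPGroup.le_sylow_of_normal S
  obtain ⟨α, hα⟩ := h.singer hV (Finite.one_lt_card_iff_nontrivial.2
    ⟨⟨v, hv⟩, ⟨w, hw⟩, fun hh => hvw (congrArg Subtype.val hh)⟩)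
  obtain ⟨g, hg⟩ := exists_conj_le_sylow S (S.isPGroup'.map (α : G ≃* G).toMonoidHom)
  let β : MulAut G := MulAut.conj g * α
  have hβ : ∀ x ∈ (S : Subgroup G), β x ∈ (S : Subgroup G) := fun x hx => conj_le_iff.1 hg _ ⟨x, hx, rfl⟩
  let γ : MulAut (S : Subgroup G) := resAut β S hβ (symm_mem_of_mem hβ)
  have hγ : ∀ (k : ℕ) (x : (S : Subgroup G)), (x : G) ∈ V → ((γ ^ k) x : G) = (α ^ k) x := by
    intro k x hx
    induction k with
    | zero => rfl
    | succ k ih =>
      rw [pow_succ', pow_succ', MulAut.mul_apply, MulAut.mul_apply, ← ih]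
      show g * α _ * g⁻¹ = _
      rw [mem_center_iff.1 (hZ _ (by rw [ih, ← map_pow, ← map_pow, show (x : G) ^ 2 = 1 from hx]; simp)) g]
      group
  obtain ⟨h1, h2, h3⟩ := Cfsg.Agent.S3776.result S.isPGroup' hab
    ⟨⟨v, hVS hv⟩, ⟨w, hVS hw⟩, fun hh => hvw (congrArg Subtype.val hh), fun hh => hv1 (congrArg Subtype.val hh),
      Subtype.ext hv, fun hh => hw1 (congrArg Subtype.val hh), Subtype.ext hw⟩
    ⟨zpowers γ, inferInstance, fun x y hx1 hx hy1 hy => by
      obtain ⟨k, hk⟩ := hα x (congrArg Subtype.val hx) (fun hh => hx1 (Subtype.ext hh)) y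
        (congrArg Subtype.val hy) (fun hh => hy1 (Subtype.ext hh))
      exact ⟨γ ^ k, pow_mem (mem_zpowers γ) k, Subtype.ext ((hγ k x (congrArg Subtype.val hx)).trans hk)⟩⟩
  intro x hx y hy
  have h4 : ⁅(⟨x, hx⟩ : (S : Subgroup G)), ⟨y, hy⟩⁆ ∈ commutator (S : Subgroup G) :=
    commutator_mem_commutator (mem_top _) (mem_top _)
  rw [h1, h2, h3] at h4
  exact congrArg Subtype.val h4

end Cfsg.Lib.Hg
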