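import Cfsg.Agent.Lib.Hg.Basic

/-! Homogeneous finite groups: elementary abelian subgroups and transvections. -/

set_option autoImplicit false

namespace Cfsg.Lib.Hg

open Subgroup Cfsg.Lib.Transfer

variable {G : Type*} [Group G]

/-- Elementary abelian `p`-subgroup. -/
structure EA (p : ℕ) (V : Subgroup G) : Prop where
  comm : ∀ x ∈ V, ∀ y ∈ V, x * y = y * x
  pow : ∀ x ∈ V, x ^ p = 1

theorem EA.mono {p : ℕ} {V W : Subgroup G} (h : EA p V) (hW : W ≤ V) : EA p W :=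
  ⟨fun x hx y hy => h.comm x (hW hx) y (hW hy), fun x hx => h.pow x (hW hx)⟩

theorem EA.conj {p : ℕ} {V : Subgroup G} (h : EA p V) {x y : G} (hx : x ∈ V) (hy : y ∈ V) :
    x * y * x⁻¹ = y := by rw [h.comm x hx y hy]; group

theorem EA.isPGroup {p : ℕ} {V : Subgroup G} (h : EA p V) : IsPGroup p V :=
  fun x => ⟨1, Subtype.ext (by simpa using h.pow x x.2)⟩

theorem EA.commute {p : ℕ} {V : Subgroup G} (h : EA p V) {x y : G} (hx : x ∈ V) (hy : y ∈ V) :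
    Commute x y := h.comm x hx y hy

/-- `W` is a hyperplane of `V`, with `u` outside. -/
structure Hyp (W V : Subgroup G) (u : G) : Prop where
  le : W ≤ V
  mem : u ∈ V
  not_mem : u ∉ W
  gen : ∀ v ∈ V, ∃ w ∈ W, ∃ i : ℕ, v = w * u ^ i

theorem exists_hyp [Finite G] {p : ℕ} (hp : p.Prime) {V X : Subgroup G} (hV : EA p V) (hX : X ≤ V)
    {u : G} (hu : u ∈ V) (huX : u ∉ X) : ∃ W, X ≤ W ∧ Hyp W V u := by
  obtain ⟨W, ⟨h1, h2, h3⟩, hmax⟩ := (Set.toFinite {W : Subgroup G | X ≤ W ∧ W ≤ V ∧ u ∉ W}).exists_maximal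
    ⟨X, le_rfl, hX, huX⟩
  refine ⟨W, h1, h2, hu, h3, fun v hv => ?_⟩
  by_cases hvW : v ∈ W
  · exact ⟨v, hvW, 0, by simp⟩
  have hn : ∀ w ∈ W, v * w * v⁻¹ ∈ W := fun w hw => by rw [hV.conj hv (h2 hw)]; exact hw
  have hu' : u ∈ W ⊔ zpowers v := by
    by_contra hh
    exact hvW (hmax ⟨h1.trans le_sup_left, sup_le h2 (zpowers_le.2 hv), hh⟩ le_sup_left
      (mem_sup_right (mem_zpowers v)))
  obtain ⟨w, hw, i, hi⟩ := (mem_adj hn).1 hu'
  have hn' : ∀ w ∈ W, u * w * u⁻¹ ∈ W := fun w hw => by rw [hV.conj hu (h2 hw)]; exact hw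
  refine (mem_adj hn').1 (mem_of_pow_mem hp (i := i) (by rw [hV.pow v hv]; exact one_mem _) ?_ ?_)
  · have : v ^ i = w⁻¹ * u := by rw [hi]; group
    rw [this]; exact mul_mem (mem_sup_left (inv_mem hw)) (mem_sup_right (mem_zpowers u))
  · rintro ⟨j, rfl⟩
    apply h3; rw [hi, pow_mul, hV.pow v hv]; simpa using hw

theorem card_adj [Finite G] {p : ℕ} (hp : p.Prime) {V : Subgroup G} {a : G} (ha : a ∉ V)
    (haN : ∀ v ∈ V, a * v * a⁻¹ ∈ V) (hap : a ^ p ∈ V) :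
    Nat.card ↥(V ⊔ zpowers a) = Nat.card V * p := by
  have e : V × Fin p ≃ ↥(V ⊔ zpowers a) := Equiv.ofBijective
    (fun x => ⟨x.1 * a ^ (x.2 : ℕ), (mem_adj haN).2 ⟨x.1, x.1.2, x.2, rfl⟩⟩) ⟨by
      rintro ⟨v, i⟩ ⟨w, j⟩ hh
      have h1 : (v : G) * a ^ (i : ℕ) = w * a ^ (j : ℕ) := congrArg Subtype.val hh
      have key : ∀ (v w : V) (i j : Fin p), (i : ℕ) ≤ j → (v : G) * a ^ (i : ℕ) = w * a ^ (j : ℕ) →
          i = j := by
        intro v w i j hij h1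
        obtain ⟨d, hd⟩ := Nat.exists_eq_add_of_le' hij
        have h2 : a ^ d = (w : G)⁻¹ * v := by
          rw [hd, pow_add, ← mul_assoc] at h1
          rw [mul_right_cancel h1]; group
        have h3 : a ^ d ∈ V := h2 ▸ V.mul_mem (V.inv_mem w.2) v.2
        have h4 : p ∣ d := by by_contra hh; exact ha (mem_of_pow_mem hp hap h3 hh)
        have h5 : d = 0 := Nat.eq_zero_of_dvd_of_lt h4 (by have := j.2; omega)
        exact Fin.ext (by omega)
      have hij : i = j := by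
        rcases le_total (i : ℕ) j with h | h
        · exact key v w i j h h1
        · exact (key w v j i h h1.symm).symm
      subst hij
      exact Prod.ext (Subtype.ext (mul_right_cancel h1)) rfl, by
      rintro ⟨x, hx⟩
      obtain ⟨v, hv, i, rfl⟩ := (mem_adj haN).1 hx
      refine ⟨(⟨v * (a ^ p) ^ (i / p), V.mul_mem hv (V.pow_mem hap _)⟩, ⟨i % p, Nat.mod_lt _ hp.pos⟩),
        Subtype.ext ?_⟩
      show v * (a ^ p) ^ (i / p) * a ^ (i % p) = v * a ^ i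
      rw [← pow_mul, mul_assoc, ← pow_add, Nat.div_add_mod]⟩
  rw [← Nat.card_congr e]; simp

theorem Hyp.eq [Finite G] {p : ℕ} {W V : Subgroup G} {u : G} (h : Hyp W V u) (hV : EA p V) :
    V = W ⊔ zpowers u := by
  have hn : ∀ w ∈ W, u * w * u⁻¹ ∈ W := fun w hw => by rw [hV.conj h.mem (h.le hw)]; exact hw
  exact le_antisymm (fun v hv => (mem_adj hn).2 (h.gen v hv)) (sup_le h.le (zpowers_le.2 h.mem))

theorem Hyp.card [Finite G] {p : ℕ} (hp : p.Prime) {W V : Subgroup G} {u : G} (h : Hyp W V u)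
    (hV : EA p V) : Nat.card V = Nat.card W * p := by
  have hn : ∀ w ∈ W, u * w * u⁻¹ ∈ W := fun w hw => by rw [hV.conj h.mem (h.le hw)]; exact hw
  rw [← card_adj hp h.not_mem hn (by rw [hV.pow u h.mem]; exact one_mem _), ← h.eq hV]

theorem exists_not_mem_map [Finite G] (α : G ≃* G) {X W : Subgroup G} (h : Nat.card X < Nat.card W) :
    ∃ a ∈ W, α.symm a ∉ X := by
  by_contra hh
  push Not at hh
  have := Nat.card_le_card_of_injective (fun w : W => (⟨α.symm w, hh w w.2⟩ : X))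
    (fun a b hab => Subtype.ext (α.symm.injective (congrArg Subtype.val hab)))
  omega

/-- Extension of an automorphism on a subgroup of an elementary abelian group. -/
theorem Hm.extEA [Finite G] (h : Hm G) {p : ℕ} (hp : p.Prime) {W W' : Subgroup G} (hW : EA p W)
    (hW' : EA p W') (hc : Nat.card W = Nat.card W') (n : ℕ) :
    ∀ (X : Subgroup G) (α0 : G ≃* G), X ≤ W → (∀ x ∈ X, α0 x ∈ W') → Nat.card W - Nat.card X = n →
      ∃ α : G ≃* G, (∀ x ∈ X, α x = α0 x) ∧ ∀ w ∈ W, α w ∈ W' := by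
  induction n using Nat.strong_induction_on with
  | _ n ih =>
    intro X α0 hX hα hn
    by_cases hXW : W ≤ X
    · exact ⟨α0, fun _ _ => rfl, fun w hw => hα w (hXW hw)⟩
    obtain ⟨a, haW, haX⟩ := SetLike.not_le_iff_exists.1 hXW
    have hlt : Nat.card X < Nat.card W := card_lt_of_lt (lt_of_le_not_ge hX hXW)
    obtain ⟨a', ha'W, ha'⟩ := exists_not_mem_map α0 (hc ▸ hlt : Nat.card X < Nat.card W')
    have hn' : ∀ v ∈ X, a * v * a⁻¹ ∈ X := fun v hv => by rw [hW.conj haW (hX hv)]; exact hv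
    obtain ⟨α1, h1, h2⟩ := h.ext hp α0 X haX hn' (by rw [hW.pow a haW]; exact one_mem _) ha'
      (fun v hv => by rw [hW.conj haW (hX hv), hW'.conj ha'W (hα v hv)])
      (by rw [hW.pow a haW, hW'.pow a' ha'W, map_one])
    have hlt2 : Nat.card X < Nat.card ↥(X ⊔ zpowers a) :=
      card_lt_of_lt (lt_of_le_not_ge le_sup_left fun hh => haX (hh (mem_sup_right (mem_zpowers a))))
    have hle : X ⊔ zpowers a ≤ W := sup_le hX (zpowers_le.2 haW)
    obtain ⟨α, h3, h4⟩ := ih _ (by have := card_le_of_le hle; omega) (X ⊔ zpowers a) α1 hle (by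
      intro x hx
      obtain ⟨v, hv, i, rfl⟩ := (mem_adj hn').1 hx
      rw [map_mul, map_pow, h1 v hv, h2]
      exact W'.mul_mem (hα v hv) (W'.pow_mem ha'W i)) rfl
    exact ⟨α, fun x hx => by rw [h3 x (mem_sup_left hx), h1 x hx], h4⟩

theorem EA.orderOf {p : ℕ} (hp : p.Prime) {V : Subgroup G} (h : EA p V) {x : G} (hx : x ∈ V)
    (h1 : x ≠ 1) : orderOf x = p := by
  have := Fact.mk hp
  exact orderOf_eq_prime (h.pow x hx) h1

/-- One element to another, carrying `W` to `W'`. -/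
theorem Hm.extEA1 [Finite G] (h : Hm G) {p : ℕ} (hp : p.Prime) {W W' : Subgroup G} (hW : EA p W)
    (hW' : EA p W') (hc : Nat.card W = Nat.card W') {t t' : G} (ht : t ∈ W) (ht1 : t ≠ 1) (ht' : t' ∈ W')
    (ht1' : t' ≠ 1) : ∃ α : G ≃* G, α t = t' ∧ ∀ w ∈ W, α w ∈ W' := by
  obtain ⟨α0, h0⟩ := h.of_order ((hW.orderOf hp ht ht1).trans (hW'.orderOf hp ht' ht1').symm)
  obtain ⟨α, h1, h2⟩ := h.extEA hp hW hW' hc _ (zpowers t) α0 (zpowers_le.2 ht) (by
    rintro _ ⟨k, rfl⟩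
    simp only [map_zpow, h0]; exact W'.zpow_mem ht' k) rfl
  exact ⟨α, by rw [h1 t (mem_zpowers t), h0], h2⟩

/-- `g` induces the transvection with axis `W` sending `u` to `u t`. -/
structure Tr (W : Subgroup G) (u t g : G) : Prop where
  fix : ∀ w ∈ W, g * w * g⁻¹ = w
  mv : g * u * g⁻¹ = u * t

/-- Automorphism inducing a transvection. -/
theorem Hm.trans [Finite G] (h : Hm G) {p : ℕ} (hp : p.Prime) {W V : Subgroup G} {u : G} (hV : EA p V)
    (hW : Hyp W V u) {t : G} (ht : t ∈ W) : ∃ α : G ≃* G, (∀ w ∈ W, α w = w) ∧ α u = u * t := by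
  have hut : u * t ∈ V := V.mul_mem hW.mem (hW.le ht)
  exact h.ext0 hp W hW.not_mem (fun v hv => by rw [hV.conj hW.mem (hW.le hv)]; exact hv)
    (by rw [hV.pow u hW.mem]; exact one_mem _) (fun hh => hW.not_mem (by
      simpa using W.mul_mem hh (W.inv_mem ht)))
    (fun v hv => by rw [hV.conj hW.mem (hW.le hv), hV.conj hut (hW.le hv)])
    (by rw [hV.pow u hW.mem, hV.pow _ hut])

theorem symm_trans {α : G ≃* G} {u t : G} (ht : α t = t) (hu : α u = u * t) : α.symm u = u * t⁻¹ := by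
  rw [MulEquiv.symm_apply_eq, map_mul, map_inv, ht, hu]; group

/-- All transvections are induced in the group. -/
def Tv (V : Subgroup G) : Prop := ∀ W u, Hyp W V u → ∀ t ∈ W, ∃ g, Tr W u t g

theorem Hm.tv_of_one [Finite G] (h : Hm G) {p : ℕ} (hp : p.Prime) {V H : Subgroup G} (hV : EA p V)
    {z t0 d : G} (hH : Hyp H V z) (ht0 : t0 ∈ H) (h01 : t0 ≠ 1) (hd : Tr H z t0 d) : Tv V := by
  intro W u hW t ht
  by_cases ht1 : t = 1
  · exact ⟨1, fun w _ => by simp, by simp [ht1]⟩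
  have hc : Nat.card H = Nat.card W := by
    have := (hH.card hp hV).symm.trans (hW.card hp hV)
    exact Nat.eq_of_mul_eq_mul_right hp.pos this
  obtain ⟨α, h1, h2⟩ := h.extEA1 hp (hV.mono hH.le) (hV.mono hW.le) hc ht0 h01 ht ht1
  obtain ⟨γ, h3, h4⟩ := h.ext hp α H hH.not_mem (fun v hv => by rw [hV.conj hH.mem (hH.le hv)]; exact hv)
    (by rw [hV.pow z hH.mem]; exact one_mem _) (a' := u) (fun hh => hW.not_mem (by simpa using h2 _ hh))
    (fun v hv => by rw [hV.conj hH.mem (hH.le hv), hV.conj hW.mem (hW.le (h2 v hv))])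
    (by rw [hV.pow z hH.mem, hV.pow u hW.mem, map_one])
  have hsurj : ∀ w ∈ W, ∃ x ∈ H, α x = w := by
    have hinj : Function.Injective (fun v : H => (⟨α v, h2 v v.2⟩ : W)) := fun a b hab =>
      Subtype.ext (α.injective (congrArg Subtype.val hab))
    have hb := hinj.bijective_of_nat_card_le hc.ge
    intro w hw
    obtain ⟨x, hx⟩ := hb.2 ⟨w, hw⟩
    exact ⟨x, x.2, congrArg Subtype.val hx⟩
  refine ⟨γ d, fun w hw => ?_, ?_⟩
  · obtain ⟨x, hx, rfl⟩ := hsurj w hw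
    rw [← h3 x hx, ← map_inv, ← map_mul, ← map_mul, hd.fix x hx]
  · rw [← h4, ← h1, ← h3 t0 ht0, ← map_inv, ← map_mul, ← map_mul, hd.mv, map_mul]

theorem trans_mod {p : ℕ} {W V : Subgroup G} {u t : G} (hV : EA p V) (hW : Hyp W V u) (ht : t ∈ W)
    {α : G ≃* G} (h1 : ∀ w ∈ W, α w = w) (h2 : α u = u * t) {x : G} (hx : x ∈ V) :
    ∃ k : ℕ, α x = x * t ^ k := by
  obtain ⟨w, hw, i, rfl⟩ := hW.gen x hx
  exact ⟨i, by rw [map_mul, map_pow, h1 w hw, h2, (hV.commute hW.mem (hW.le ht)).mul_pow, mul_assoc]⟩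

/-- A non-scalar element gives a transvection when the rank is at least three. -/
theorem Hm.tv_three [Finite G] (h : Hm G) {p : ℕ} (hp : p.Prime) {V : Subgroup G} (hV : EA p V)
    (h3 : ∀ x ∈ V, ∀ y ∈ V, ∃ z ∈ V, z ∉ zpowers x ⊔ zpowers y) {g v : G}
    (hg : ∀ x ∈ V, g * x * g⁻¹ ∈ V) (hv : v ∈ V) (hgv : g * v * g⁻¹ ∉ zpowers v) : Tv V := by
  set w := g * v * g⁻¹ with hwdef
  have hw : w ∈ V := hg v hv
  obtain ⟨z, hz, hz'⟩ := h3 v hv w hw
  obtain ⟨H, hXH, hH⟩ := exists_hyp hp hV (sup_le (zpowers_le.2 hv) (zpowers_le.2 hw)) hz hz'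
  have hvH : v ∈ H := hXH (mem_sup_left (mem_zpowers v))
  have hwH : w ∈ H := hXH (mem_sup_right (mem_zpowers w))
  obtain ⟨α, a1, a2⟩ := h.trans hp hV hH hvH
  have hvi : v⁻¹ ∈ H := H.inv_mem hvH
  set c := α g * g⁻¹ with hc
  have hcy : ∀ y ∈ V, ∀ k : ℕ, α.symm (g⁻¹ * y * g) = g⁻¹ * y * g * v⁻¹ ^ k →
      ∃ l : ℕ, c * y * c⁻¹ = y * w⁻¹ ^ k * v ^ l := by
    intro y hy k hk
    have e1 : g * (g⁻¹ * y * g * v⁻¹ ^ k) * g⁻¹ = y * w⁻¹ ^ k := by
      rw [hwdef, conj_inv, conj_pow]; group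
    rw [hc, key, hk, e1]
    exact trans_mod hV hH hvH a1 a2 (V.mul_mem hy (V.pow_mem (V.inv_mem hw) k))
  have hcH : ∀ y ∈ V, ∃ s ∈ H, c * y * c⁻¹ = y * s := by
    intro y hy
    obtain ⟨k, hk⟩ := trans_mod hV hH hvi (fun x hx => symm_fix (a1 x hx)) (symm_trans (a1 v hvH) a2)
      (inv_conj_mem hg y hy)
    obtain ⟨l, hl⟩ := hcy y hy k hk
    exact ⟨w⁻¹ ^ k * v ^ l, H.mul_mem (H.pow_mem (H.inv_mem hwH) k) (H.pow_mem hvH l), by
      rw [hl, mul_assoc]⟩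
  have hcne : ∃ y ∈ V, c * y * c⁻¹ ≠ y := by
    refine ⟨g * z * g⁻¹, hg z hz, fun hh => ?_⟩
    obtain ⟨l, hl⟩ := hcy _ (hg z hz) 1 (by
      rw [show g⁻¹ * (g * z * g⁻¹) * g = z by group, symm_trans (a1 v hvH) a2, pow_one])
    rw [hh, pow_one, mul_assoc (g * z * g⁻¹), eq_comm, mul_eq_left, inv_mul_eq_one] at hl
    exact hgv (hl ▸ pow_mem (mem_zpowers v) l)
  by_cases hcH' : ∀ x ∈ H, c * x * c⁻¹ = x
  · obtain ⟨s, hs, hs'⟩ := hcH z hz
    refine h.tv_of_one hp hV hH hs (fun hh => ?_) ⟨hcH', hs'⟩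
    obtain ⟨y, hy, hy'⟩ := hcne
    obtain ⟨x, hx, i, rfl⟩ := hH.gen y hy
    apply hy'
    rw [hh, mul_one] at hs'
    rw [← conj_mul, hcH' x hx, ← conj_pow, hs']
  push Not at hcH'
  obtain ⟨x, hx, hx'⟩ := hcH'
  obtain ⟨β, b1, b2⟩ := h.trans hp hV hH hx
  have hcN : ∀ y ∈ H, c * y * c⁻¹ ∈ H := fun y hy => by
    obtain ⟨s, hs, hs'⟩ := hcH y (hH.le hy)
    rw [hs']; exact H.mul_mem hy hs
  refine h.tv_of_one hp hV hH (d := β c * c⁻¹) (t0 := x * (c * x * c⁻¹)⁻¹)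
    (H.mul_mem hx (H.inv_mem (hcN x hx))) (fun hh => hx' (mul_inv_eq_one.1 hh).symm) ⟨fun y hy => ?_, ?_⟩
  · rw [key, symm_fix (b1 _ (inv_conj_mem hcN y hy)), show c * (c⁻¹ * y * c) * c⁻¹ = y by group, b1 y hy]
  · obtain ⟨s, hs, hs'⟩ := hcH z hz
    have e1 : c⁻¹ * z * c = z * (c⁻¹ * s⁻¹ * c) := by
      have : z = c⁻¹ * (z * s) * c := by rw [← hs']; group
      calc c⁻¹ * z * c = c⁻¹ * (z * s) * c * (c⁻¹ * s⁻¹ * c) := by group
        _ = _ := by rw [← this]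
    have hs2 : c⁻¹ * s⁻¹ * c ∈ H := inv_conj_mem hcN _ (H.inv_mem hs)
    rw [key, e1, map_mul β.symm, symm_trans (b1 x hx) b2, symm_fix (b1 _ hs2), mul_assoc z,
      hV.comm _ (hH.le (H.inv_mem hx)) _ (hH.le hs2), ← mul_assoc z, ← e1,
      show c * (c⁻¹ * z * c * x⁻¹) * c⁻¹ = z * (c * x * c⁻¹)⁻¹ by group, map_mul, b2,
      b1 _ (H.inv_mem (hcN x hx)), mul_assoc]

theorem three_of_card [Finite G] {p : ℕ} (hp : p.Prime) {V : Subgroup G} (hV : EA p V)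
    (hc : p ^ 2 < Nat.card V) : ∀ x ∈ V, ∀ y ∈ V, ∃ z ∈ V, z ∉ zpowers x ⊔ zpowers y := by
  intro x hx y hy
  by_contra hh
  push Not at hh
  have h1 : Nat.card V ≤ Nat.card ↥(zpowers x ⊔ zpowers y) := card_le_of_le hh
  have hx' : Nat.card (zpowers x) ≤ p := by
    rw [Nat.card_zpowers]; exact Nat.le_of_dvd hp.pos (orderOf_dvd_of_pow_eq_one (hV.pow x hx))
  by_cases hyx : y ∈ zpowers x
  · rw [sup_eq_left.2 (zpowers_le.2 hyx)] at h1
    nlinarith [hp.two_le]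
  · rw [card_adj hp hyx (fun v hv => by rw [hV.conj hy (zpowers_le.2 hx hv)]; exact hv)
      (by rw [hV.pow y hy]; exact one_mem _)] at h1
    nlinarith [hp.two_le]

end Cfsg.Lib.Hg
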