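import Cfsg.Agent.Lib.Hg.TV
import Cfsg.Agent.Lib.PGroup.Basic

/-! Homogeneous finite groups: elementary abelian 2-subgroups of largest order, step one. -/

set_option autoImplicit false

namespace Cfsg.Lib.Hg

open Subgroup Cfsg.Lib.Transfer

variable {G : Type*} [Group G]

theorem central [Finite G] {p : ℕ} [Fact p.Prime] {P V R : Subgroup G} (hP : IsPGroup p P) (hRP : R ≤ P)
    (hV : ∀ g ∈ P, ∀ v ∈ V, g * v * g⁻¹ ∈ V) (hR : ∀ g ∈ P, ∀ v ∈ R, g * v * g⁻¹ ∈ R) (hne : ¬ R ≤ V) :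
    ∃ a ∈ R, a ∉ V ∧ a ^ p ∈ V ∧ ∀ g ∈ P, ∃ s ∈ V, g⁻¹ * a * g = a * s := by
  have hN : (V.subgroupOf P).Normal := ⟨fun n hn g => hV g g.2 _ hn⟩
  have hN' : (R.subgroupOf P).Normal := ⟨fun n hn g => hR g g.2 _ hn⟩
  let π := QuotientGroup.mk' (V.subgroupOf P)
  have hπ : ∀ x : P, π x = 1 ↔ (x : G) ∈ V := fun x => QuotientGroup.eq_one_iff x
  have hN2 : ((R.subgroupOf P).map π).Normal := hN'.map π (QuotientGroup.mk'_surjective _)
  obtain ⟨x, ⟨a, ha, rfl⟩, hc, ho⟩ := Cfsg.Lib.PGroup.exists_mem_center_orderOf_eq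
    (hP.to_quotient (V.subgroupOf P)) ((R.subgroupOf P).map π) (by
      intro hh
      apply hne
      intro r hr
      have : π ⟨r, hRP hr⟩ ∈ (R.subgroupOf P).map π := ⟨_, hr, rfl⟩
      rw [hh, mem_bot] at this
      exact (hπ _).1 this)
  refine ⟨a, ha, fun hh => ?_, ?_, fun g hg => ?_⟩
  · have : π a = 1 := (hπ _).2 hh
    rw [this, orderOf_one] at ho
    exact (Fact.out : p.Prime).one_lt.ne ho
  · have : π (a ^ p) = 1 := by rw [map_pow, ← ho, pow_orderOf_eq_one]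
    exact (hπ _).1 this
  · have h1 := mem_center_iff.1 hc (π ⟨g, hg⟩)
    have : π (a⁻¹ * ((⟨g, hg⟩ : P)⁻¹ * a * ⟨g, hg⟩)) = 1 := by
      simp only [map_mul, map_inv]
      rw [mul_assoc (π _)⁻¹, ← h1]; group
    exact ⟨_, (hπ _).1 this, by simp⟩

theorem mem_syl_of_norm [Finite G] {p : ℕ} [Fact p.Prime] {P Y : Subgroup G} (hP : IsPGroup p P)
    (hPY : P ≤ Y) (hi : ¬ p ∣ P.relIndex Y) {x : G} (hx : x ∈ Y) {k : ℕ} (hk : x ^ p ^ k = 1)
    (hn : ∀ v ∈ P, x * v * x⁻¹ ∈ P) : x ∈ P := by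
  have h1 : IsPGroup p ↥(zpowers x ⊔ P) :=
    IsPGroup.to_sup_of_normal_right' (isPGroup_zpowers hk) hP (zpowers_le.2 (mem_norm hn))
  rw [eq_of_not_dvd_relIndex_of_le hi h1 (sup_le (zpowers_le.2 hx) hPY) le_sup_right]
  exact mem_sup_left (mem_zpowers x)

theorem key2 [Finite G] {α : G ≃* G} {X : Subgroup G} {a e g s : G} (h1 : ∀ x ∈ X, α x = x) (he : e ∈ X)
    (h2 : α a = a * e) (hg : ∀ x ∈ X, g * x * g⁻¹ ∈ X) (hs : s ∈ X) (hga : g⁻¹ * a * g = a * s)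
    (hes : e * s = s * e) : Tr X a (e * (g * e * g⁻¹)⁻¹) (α g * g⁻¹) := by
  refine ⟨fun y hy => ?_, ?_⟩
  · rw [key, symm_fix (h1 _ (inv_conj_mem hg y hy)), show g * (g⁻¹ * y * g) * g⁻¹ = y by group, h1 y hy]
  · have : e⁻¹ * s = s * e⁻¹ := (Commute.inv_left hes)
    rw [key, hga, map_mul α.symm, symm_trans (h1 e he) h2, symm_fix (h1 _ hs), mul_assoc a, this,
      ← mul_assoc a, ← hga, show g * (g⁻¹ * a * g * e⁻¹) * g⁻¹ = a * (g * e * g⁻¹)⁻¹ by group, map_mul,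
      h2, h1 _ (X.inv_mem (hg e he)), mul_assoc]

theorem Hm.shift [Finite G] (h : Hm G) {X : Subgroup G} {a e : G} (ha : a ∉ X)
    (haN : ∀ v ∈ X, a * v * a⁻¹ ∈ X) (ha2 : a ^ 2 ∈ X) (he : e ∈ X) (he2 : e ^ 2 = 1)
    (hec : ∀ x ∈ X, e * x = x * e) (hae : a * e = e * a) :
    ∃ α : G ≃* G, (∀ x ∈ X, α x = x) ∧ α a = a * e :=
  h.ext0 Nat.prime_two X ha haN ha2 (fun hh => ha (by simpa using X.mul_mem hh (X.inv_mem he)))
    (fun v hv => by rw [show a * e * v * (a * e)⁻¹ = a * (e * v * e⁻¹) * a⁻¹ by group, hec v hv]; group)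
    (by rw [(show Commute a e from hae).mul_pow, he2, mul_one])

theorem Hm.key3 [Finite G] (h : Hm G) {X : Subgroup G} {a e g s : G} (ha : a ∉ X)
    (haN : ∀ v ∈ X, a * v * a⁻¹ ∈ X) (ha2 : a ^ 2 ∈ X) (he : e ∈ X) (he2 : e ^ 2 = 1)
    (hec : ∀ x ∈ X, e * x = x * e) (hae : a * e = e * a) (hg : ∀ x ∈ X, g * x * g⁻¹ ∈ X) (hs : s ∈ X)
    (hga : g⁻¹ * a * g = a * s) : ∃ c, Tr X a (e * (g * e * g⁻¹)⁻¹) c := by
  obtain ⟨α, h1, h2⟩ := h.shift ha haN ha2 he he2 hec hae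
  exact ⟨_, key2 h1 he h2 hg hs hga (hec s hs)⟩

theorem EA.inv {V : Subgroup G} (h : EA 2 V) {x : G} (hx : x ∈ V) : x⁻¹ = x := by
  rw [inv_eq_iff_mul_eq_one, ← pow_two, h.pow x hx]

theorem EA.sq {V : Subgroup G} (h : EA 2 V) {x : G} (hx : x ∈ V) : x * x = 1 := by
  rw [← pow_two, h.pow x hx]

theorem mem_cent {V : Subgroup G} {g : G} : g ∈ centralizer (V : Set G) ↔ ∀ v ∈ V, g * v * g⁻¹ = v := by
  rw [mem_centralizer_iff]
  exact ⟨fun h v hv => by rw [← h v hv]; group, fun h v hv => by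
    have := h v hv; rw [mul_inv_eq_iff_eq_mul] at this; exact this.symm⟩

theorem lift_act [Finite G] {C W P : Subgroup G} (hW : EA 2 W) (hC : C ≤ centralizer (W : Set G))
    (hPC : P ≤ C) (hP : ¬ 2 ∣ P.relIndex C) {a : G} (hPa : ∀ r ∈ P, ∃ v ∈ W, r * a * r⁻¹ = a * v)
    {c v : G} (hc : c ∈ C) (hv : v ∈ W) (hca : c * a * c⁻¹ = a * v) : ∃ r ∈ P, r * a * r⁻¹ = a * v := by
  let Y : Subgroup G := mkSub {y | y ∈ C ∧ ∃ v ∈ W, y * a * y⁻¹ = a * v} ⟨C.one_mem, 1, W.one_mem, by simp⟩ (by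
    rintro x ⟨hx, v, hv, hxa⟩ y ⟨hy, w, hw, hya⟩
    refine ⟨C.mul_mem hx hy, v * w, W.mul_mem hv hw, ?_⟩
    rw [show x * y * a * (x * y)⁻¹ = x * (y * a * y⁻¹) * x⁻¹ by group, hya, ← conj_mul, hxa,
      mem_cent.1 (hC hx) w hw, mul_assoc])
  have hYC : Y ≤ C := fun y hy => hy.1
  have hPY : P ≤ Y := fun r hr => ⟨hPC hr, hPa r hr⟩
  have hi : ¬ 2 ∣ P.relIndex Y := fun hh => hP (hh.trans (by
    rw [← relIndex_mul_relIndex P Y C hPY hYC]; exact dvd_mul_right _ _))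
  have := Fact.mk Nat.prime_two
  obtain ⟨x, hx, m, hm, rfl⟩ := lift (M := C ⊓ centralizer {a}) hPY hi (fun y hy => mem_norm (by
      rintro m ⟨hm1, hm2⟩
      refine ⟨C.mul_mem (C.mul_mem hy.1 hm1) (C.inv_mem hy.1), ?_⟩
      obtain ⟨-, w, hw, hya⟩ := Y.inv_mem hy
      rw [inv_inv] at hya
      have h2 : m * a * m⁻¹ = a := by rw [mem_centralizer_singleton_iff.1 hm2]; group
      have h3 : y * m * y⁻¹ * a * (y * m * y⁻¹)⁻¹ = a := by
        rw [show y * m * y⁻¹ * a * (y * m * y⁻¹)⁻¹ = y * (m * (y⁻¹ * a * y) * m⁻¹) * y⁻¹ by group, hya,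
          ← conj_mul (b := m), h2, mem_cent.1 (hC hm1) w hw, ← hya]; group
      exact mem_centralizer_singleton_iff.2 (mul_inv_eq_iff_eq_mul.1 h3)))
    (fun y hy => ⟨1, C.pow_mem hy.1 _, by
      obtain ⟨hy1, w, hw, hya⟩ := hy
      have h3 : y ^ 2 ^ 1 * a * (y ^ 2 ^ 1)⁻¹ = a := by
        rw [show y ^ 2 ^ 1 * a * (y ^ 2 ^ 1)⁻¹ = y * (y * a * y⁻¹) * y⁻¹ by
          rw [pow_one, pow_two]; group, hya, ← conj_mul, hya, mem_cent.1 (hC hy1) w hw, mul_assoc,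
          hW.sq hw, mul_one]
      exact mem_centralizer_singleton_iff.2 (mul_inv_eq_iff_eq_mul.1 h3)⟩) (show c ∈ Y from ⟨hc, v, hv, hca⟩)
  refine ⟨x, hx, ?_⟩
  have h2 : m * a * m⁻¹ = a := by rw [mem_centralizer_singleton_iff.1 hm.2]; group
  rw [← hca, show x * m * a * (x * m)⁻¹ = x * (m * a * m⁻¹) * x⁻¹ by group, h2]

/-- Elementary abelian 2-subgroup of largest order. -/
structure Mx (V : Subgroup G) : Prop where
  ea : EA 2 V
  max : ∀ B : Subgroup G, EA 2 B → Nat.card B ≤ Nat.card V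

theorem EA.adj [Finite G] {p : ℕ} {V : Subgroup G} (hV : EA p V) {x : G} (hx : x ^ p = 1)
    (hc : ∀ v ∈ V, x * v * x⁻¹ = v) : EA p (V ⊔ zpowers x) := by
  have hn : ∀ v ∈ V, x * v * x⁻¹ ∈ V := fun v hv => by rw [hc v hv]; exact hv
  have hc' : ∀ v ∈ V, Commute v x := fun v hv => (mul_inv_eq_iff_eq_mul.1 (hc v hv)).symm
  refine ⟨fun a ha b hb => ?_, fun a ha => ?_⟩
  · obtain ⟨v, hv, i, rfl⟩ := (mem_adj hn).1 ha
    obtain ⟨w, hw, j, rfl⟩ := (mem_adj hn).1 hb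
    exact ((hV.commute hv hw).mul_right ((hc' v hv).pow_right j)).mul_left
      (((hc' w hw).symm.pow_left i).mul_right ((Commute.refl x).pow_pow i j))
  · obtain ⟨v, hv, i, rfl⟩ := (mem_adj hn).1 ha
    rw [((hc' v hv).pow_right i).mul_pow, hV.pow v hv, ← pow_mul, mul_comm, pow_mul, hx]; simp

theorem Mx.f1 [Finite G] {V : Subgroup G} (hV : Mx V) {x : G} (hx : x ^ 2 = 1)
    (hc : ∀ v ∈ V, x * v * x⁻¹ = v) : x ∈ V := by
  by_contra hh
  have h1 := hV.max _ (hV.ea.adj hx hc)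
  rw [card_adj Nat.prime_two hh (fun v hv => by rw [hc v hv]; exact hv) (by rw [hx]; exact one_mem _)] at h1
  have := Nat.card_pos (α := V)
  omega

theorem Hyp.two {W V : Subgroup G} {u : G} (h : Hyp W V u) (hV : EA 2 V) {v : G} (hv : v ∈ V) :
    v ∈ W ∨ ∃ w ∈ W, v = u * w := by
  obtain ⟨w, hw, i, rfl⟩ := h.gen v hv
  rcases Nat.even_or_odd' i with ⟨j, rfl | rfl⟩
  · left; rw [pow_mul, hV.pow u h.mem]; simpa using hw
  · right
    exact ⟨w, hw, by rw [pow_succ, pow_mul, hV.pow u h.mem, one_pow, one_mul, hV.comm w (h.le hw) u h.mem]⟩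

theorem Tr.mul {W : Subgroup G} {u t t' g g' : G} (h : Tr W u t g) (h' : Tr W u t' g') (ht' : t' ∈ W) :
    Tr W u (t * t') (g * g') :=
  ⟨fun w hw => by rw [show g * g' * w * (g * g')⁻¹ = g * (g' * w * g'⁻¹) * g⁻¹ by group, h'.fix w hw,
    h.fix w hw], by
    rw [show g * g' * u * (g * g')⁻¹ = g * (g' * u * g'⁻¹) * g⁻¹ by group, h'.mv, ← conj_mul, h.mv,
      h.fix _ ht', mul_assoc]⟩

theorem Tr.inv {W : Subgroup G} {u t g : G} (h : Tr W u t g) (ht : t ∈ W) : Tr W u t⁻¹ g⁻¹ :=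
  ⟨fun w hw => by nth_rewrite 1 [← h.fix w hw]; group, by
    have h1 : g * (u * t⁻¹) * g⁻¹ = u := by rw [← conj_mul, h.mv, h.fix _ (W.inv_mem ht)]; group
    nth_rewrite 1 [← h1]; group⟩

theorem Tr.odd {W : Subgroup G} {u t g : G} (h : Tr W u t g) (ht : t ∈ W) (ht2 : t * t = 1) (m : ℕ) :
    Tr W u t (g ^ (2 * m + 1)) := by
  induction m with
  | zero => simpa using h
  | succ m ih =>
    have := (ih.mul h ht).mul h ht
    rwa [mul_assoc t, ht2, mul_one, ← pow_succ, ← pow_succ] at this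

theorem Tr.uniq {W : Subgroup G} {u t t' g : G} (h : Tr W u t g) (h' : Tr W u t' g) : t = t' :=
  mul_left_cancel (h.mv.symm.trans h'.mv)

theorem Tr.act {W V : Subgroup G} {u t g : G} (h : Tr W u t g) (hW : Hyp W V u) (hV : EA 2 V)
    (ht : t ∈ W) {v : G} (hv : v ∈ V) :
    (v ∈ W ∧ g * v * g⁻¹ = v) ∨ (v ∉ W ∧ g * v * g⁻¹ = v * t) := by
  rcases hW.two hV hv with h1 | ⟨w, hw, rfl⟩
  · exact Or.inl ⟨h1, h.fix v h1⟩
  · refine Or.inr ⟨fun hh => hW.not_mem (by simpa using W.mul_mem hh (W.inv_mem hw)), ?_⟩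
    rw [← conj_mul, h.mv, h.fix w hw, mul_assoc, hV.comm t (hW.le ht) w (hW.le hw), mul_assoc]

theorem Tr.norm {W V : Subgroup G} {u t g : G} (h : Tr W u t g) (hW : Hyp W V u) (hV : EA 2 V)
    (ht : t ∈ W) : ∀ v ∈ V, g * v * g⁻¹ ∈ V := fun v hv => by
  rcases h.act hW hV ht hv with ⟨-, h1⟩ | ⟨-, h1⟩ <;> rw [h1]
  · exact hv
  · exact V.mul_mem hv (hW.le ht)

theorem Tr.cent {W V : Subgroup G} {u g : G} (h : Tr W u 1 g) (hW : Hyp W V u) (hV : EA 2 V) :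
    ∀ v ∈ V, g * v * g⁻¹ = v := fun v hv => by
  rcases h.act hW hV W.one_mem hv with ⟨-, h1⟩ | ⟨-, h1⟩ <;> simpa using h1

theorem Tr.of_cent {W V : Subgroup G} {u g : G} (hW : Hyp W V u) (h : ∀ v ∈ V, g * v * g⁻¹ = v) :
    Tr W u 1 g := ⟨fun w hw => h w (hW.le hw), by rw [h u hW.mem, mul_one]⟩

/-- The group centralizing `W` and normalizing `V`. -/
abbrev Gm (W V : Subgroup G) : Subgroup G := centralizer (W : Set G) ⊓ normalizer (V : Set G)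

theorem Tr.mem [Finite G] {W V : Subgroup G} {u t g : G} (h : Tr W u t g) (hW : Hyp W V u) (hV : EA 2 V)
    (ht : t ∈ W) : g ∈ Gm W V := ⟨mem_cent.2 h.fix, mem_norm (h.norm hW hV ht)⟩

theorem tr_of_mem {W V : Subgroup G} {u g : G} (hW : Hyp W V u) (hV : EA 2 V) (hg : g ∈ Gm W V) :
    ∃ t ∈ W, Tr W u t g := by
  rcases hW.two hV (norm_conj hg.2 u hW.mem) with h1 | ⟨w, hw, h1⟩
  · have := mem_cent.1 ((centralizer (W : Set G)).inv_mem hg.1) _ h1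
    exact absurd (by rw [← this] at h1; simpa [mul_assoc] using h1) hW.not_mem
  · exact ⟨w, hw, mem_cent.1 hg.1, h1⟩

theorem cent_le_gm {W V : Subgroup G} (h : W ≤ V) : centralizer (V : Set G) ≤ Gm W V :=
  le_inf (centralizer_le h) (centralizer_le_normalizer _)

theorem EA.le_cent {p : ℕ} {V : Subgroup G} (hV : EA p V) : V ≤ centralizer (V : Set G) :=
  fun _ hx => mem_cent.2 fun _ hy => hV.conj hx hy

theorem gm_norm_cent {W V : Subgroup G} :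
    Gm W V ≤ normalizer ((centralizer (V : Set G) : Subgroup G) : Set G) :=
  inf_le_right.trans (normalizer_le_normalizer_centralizer' V)

theorem gm_lift [Finite G] {W V P : Subgroup G} {u : G} (hW : Hyp W V u) (hV : EA 2 V) (hP : P ≤ Gm W V)
    (hi : ¬ 2 ∣ P.relIndex (Gm W V)) {y : G} (hy : y ∈ Gm W V) :
    ∃ x ∈ P, ∃ m ∈ centralizer (V : Set G), y = x * m := by
  have := Fact.mk Nat.prime_two
  refine lift hP hi gm_norm_cent (fun z hz => ⟨1, ?_⟩) hy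
  obtain ⟨t, ht, h1⟩ := tr_of_mem hW hV hz
  have := h1.mul h1 ht
  rw [hV.sq (hW.le ht)] at this
  rw [pow_one, pow_two]
  exact mem_cent.2 (this.cent hW hV)

theorem syl_tr [Finite G] {W V P : Subgroup G} {u : G} (hW : Hyp W V u) (hV : EA 2 V) (hT : Tv V)
    (hP : P ≤ Gm W V) (hi : ¬ 2 ∣ P.relIndex (Gm W V)) {t : G} (ht : t ∈ W) : ∃ g ∈ P, Tr W u t g := by
  obtain ⟨y, hy⟩ := hT W u hW t ht
  obtain ⟨x, hx, m, hm, rfl⟩ := gm_lift hW hV hP hi (hy.mem hW hV ht)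
  have := hy.mul (Tr.of_cent hW (mem_cent.1 (inv_mem hm))) W.one_mem
  exact ⟨x, hx, by simpa using this⟩

theorem exists_two [Finite G] {W : Subgroup G} (h : 2 < Nat.card W) :
    ∃ a ∈ W, ∃ b ∈ W, a ≠ 1 ∧ b ≠ 1 ∧ a ≠ b := by
  have := Fintype.ofFinite W
  rw [Nat.card_eq_fintype_card] at h
  obtain ⟨x, y, z, h1, h2, h3⟩ := Fintype.two_lt_card_iff.1 h
  exact ⟨_, (x⁻¹ * y).2, _, (x⁻¹ * z).2, fun hh => h1 (inv_mul_eq_one.1 (Subtype.ext hh)),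
    fun hh => h2 (inv_mul_eq_one.1 (Subtype.ext hh)),
    fun hh => h3 (mul_left_cancel (Subtype.ext hh : x⁻¹ * y = x⁻¹ * z))⟩

end Cfsg.Lib.Hg
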