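import Cfsg.Agent.Lib.Hg.Two1

/-! Homogeneous finite groups: a largest elementary abelian 2-subgroup is Sylow in its centralizer. -/

set_option autoImplicit false

namespace Cfsg.Lib.Hg

open Subgroup Cfsg.Lib.Transfer

variable {G : Type*} [Group G]

theorem pg_adj [Finite G] {p : ℕ} {P : Subgroup G} (hP : IsPGroup p P) {x : G} {k : ℕ}
    (hk : x ^ p ^ k = 1) (hn : ∀ v ∈ P, x * v * x⁻¹ ∈ P) : IsPGroup p ↥(P ⊔ zpowers x) := by
  rw [sup_comm]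
  exact IsPGroup.to_sup_of_normal_right' (isPGroup_zpowers hk) hP (zpowers_le.2 (mem_norm hn))

theorem exists_last {V : Subgroup G} {p : ℕ} {x : G} (hx : x ∉ V) {k : ℕ} (hk : x ^ p ^ k = 1) :
    ∃ j : ℕ, x ^ j ∉ V ∧ (x ^ j) ^ p ∈ V := by
  induction k generalizing x with
  | zero => rw [pow_zero, pow_one] at hk; exact absurd (hk ▸ V.one_mem) hx
  | succ k ih =>
    by_cases h : x ^ p ∈ V
    · exact ⟨1, by simpa using hx, by simpa using h⟩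
    · obtain ⟨j, h1, h2⟩ := ih h (by rw [← pow_mul, ← pow_succ', hk])
      exact ⟨p * j, by rwa [pow_mul], by rwa [pow_mul]⟩

theorem exists_top [Finite G] {p : ℕ} [Fact p.Prime] {P V R : Subgroup G} (hP : IsPGroup p P) (hRP : R ≤ P)
    (hVR : V ≤ R) (hV : ∀ g ∈ P, ∀ v ∈ V, g * v * g⁻¹ ∈ V) (hR : ∀ g ∈ P, ∀ v ∈ R, g * v * g⁻¹ ∈ R)
    (hne : ¬ R ≤ V) : ∃ R0 y, V ≤ R0 ∧ Hyp R0 R y ∧ (∀ g ∈ P, ∀ v ∈ R0, g * v * g⁻¹ ∈ R0) ∧ y ^ p ∈ R0 ∧
      ∀ g ∈ P, ∃ s ∈ R0, g⁻¹ * y * g = y * s := by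
  obtain ⟨R0, ⟨h1, h2, h3, h4⟩, hmax⟩ := (Set.toFinite {X : Subgroup G | V ≤ X ∧ X ≤ R ∧ ¬ R ≤ X ∧
    ∀ g ∈ P, ∀ v ∈ X, g * v * g⁻¹ ∈ X}).exists_maximal ⟨V, le_rfl, hVR, hne, hV⟩
  obtain ⟨y, hy, hy0, hyp, hyc⟩ := central hP hRP h4 hR h3
  have hn := h4 y (hRP hy)
  refine ⟨R0, y, h1, ⟨h2, hy, hy0, fun v hv => (mem_adj hn).1 ?_⟩, h4, hyp, hyc⟩
  by_contra hh
  refine hy0 (hmax (y := R0 ⊔ zpowers y) ⟨h1.trans le_sup_left, sup_le h2 (zpowers_le.2 hy),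
    fun h5 => hh (h5 hv), fun g hg x hx => ?_⟩ le_sup_left (mem_sup_right (mem_zpowers y)))
  obtain ⟨w, hw, i, rfl⟩ := (mem_adj hn).1 hx
  obtain ⟨s, hs, hs'⟩ := hyc g⁻¹ (P.inv_mem hg)
  rw [inv_inv] at hs'
  rw [← conj_mul, ← conj_pow, hs']
  exact mul_mem (mem_sup_left (h4 g hg w hw))
    (pow_mem (mul_mem (mem_sup_right (mem_zpowers y)) (mem_sup_left hs)) i)

theorem step1 [Finite G] (h : Hm G) {V W : Subgroup G} {u : G} (hV : Mx V) (hT : Tv V) (hW : Hyp W V u)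
    (h4 : 2 < Nat.card W) {g0 : G} {k : ℕ} (hk : g0 ^ 2 ^ k = 1) (hg0 : g0 ∈ centralizer (V : Set G)) :
    g0 ∈ V := by
  by_contra hg0V
  have := Fact.mk Nat.prime_two
  have hE := hV.ea
  have hn0 : ∀ v ∈ V, g0 * v * g0⁻¹ ∈ V := fun v hv => by rw [mem_cent.1 hg0 v hv]; exact hv
  obtain ⟨P, hQP, hPH, hP, hPi⟩ := exists_sylowIn_ge (pg_adj hE.isPGroup hk hn0)
    ((sup_le hE.le_cent (zpowers_le.2 hg0)).trans (cent_le_gm hW.le))
  set C := centralizer (V : Set G) with hC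
  set R := P ⊓ C with hR
  have hRi : ¬ 2 ∣ R.relIndex C := by
    rw [hR, inf_relIndex_right]
    exact not_dvd_relIndex_of_le_normalizer hPi (cent_le_gm hW.le) gm_norm_cent
  have hVR : V ≤ R := le_inf (le_sup_left.trans hQP) hE.le_cent
  have hne : ¬ R ≤ V := fun hh => hg0V (hh ⟨hQP (mem_sup_right (mem_zpowers g0)), hg0⟩)
  have hPV : ∀ g ∈ P, ∀ v ∈ V, g * v * g⁻¹ ∈ V := fun g hg => norm_conj (hPH hg).2
  have hPR : ∀ g ∈ P, ∀ v ∈ R, g * v * g⁻¹ ∈ R := fun g hg v hv =>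
    ⟨P.mul_mem (P.mul_mem hg hv.1) (P.inv_mem hg), norm_conj (gm_norm_cent (hPH hg)) v hv.2⟩
  have hcom : ∀ x ∈ C, ∀ v ∈ V, v * x = x * v := fun x hx v hv => mem_centralizer_iff.1 hx v hv
  have htr : ∀ {t g : G}, t ∈ W → Tr W u t g → u * (g * u * g⁻¹)⁻¹ = t := fun {t g} ht hg => by
    rw [hg.mv, mul_inv_rev, hE.comm _ (V.inv_mem (hW.le ht)) _ (V.inv_mem hW.mem), hE.inv (hW.le ht)]
    group
  -- (i), (ii)
  obtain ⟨a, haR, haV, ha2, hac⟩ := central hP inf_le_left hPV hPR hne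
  have hii : ∀ t ∈ W, ∃ c, Tr V a t c := by
    intro t ht
    obtain ⟨g, hg, hgt⟩ := syl_tr hW hE hT hPH hPi ht
    obtain ⟨s, hs, hs'⟩ := hac g hg
    obtain ⟨c, hc⟩ := h.key3 haV (fun v hv => by rw [mem_cent.1 haR.2 v hv]; exact hv) ha2 hW.mem
      (hE.pow u hW.mem) (hE.comm u hW.mem) (hcom a haR.2 u hW.mem).symm (hPV g hg) hs hs'
    exact ⟨c, htr ht hgt ▸ hc⟩
  -- (iii)
  obtain ⟨w1, hw1, w2, hw2, h11, h21, h12⟩ := exists_two h4
  obtain ⟨R0, y, hV0, hy, hP0, hy2, hyc⟩ := exists_top hP inf_le_left hVR hPV hPR hne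
  obtain ⟨g, hg, hgt⟩ := syl_tr hW hE hT hPH hPi hw1
  obtain ⟨s, hs, hs'⟩ := hyc g hg
  obtain ⟨c, hc⟩ := h.key3 hy.not_mem (hP0 y hy.mem.1) hy2 (hV0 hW.mem) (hE.pow u hW.mem)
    (fun x hx => hcom x (hy.le hx).2 u hW.mem) (hcom y hy.mem.2 u hW.mem).symm (hP0 g hg) hs hs'
  rw [htr hw1 hgt] at hc
  obtain ⟨m, l, hl⟩ := ppart Nat.prime_two c
  have hx := hc.odd (hV0 (hW.le hw1)) (hE.sq (hW.le hw1)) m
  set x := c ^ (2 * m + 1)
  have hxC : x ∈ C := mem_cent.2 fun v hv => hx.fix v (hV0 hv)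
  have hw1V := hW.le hw1
  have hxa : ∀ j : ℕ, ∀ r ∈ R, x ^ j * r * (x ^ j)⁻¹ = r ∨ x ^ j * r * (x ^ j)⁻¹ = r * w1 := by
    have h1 : ∀ r ∈ R, x * r * x⁻¹ = r ∨ x * r * x⁻¹ = r * w1 := by
      intro r hr
      obtain ⟨w, hw, i, rfl⟩ := hy.gen r hr
      rw [← conj_mul, ← conj_pow, hx.fix w hw, hx.mv,
        (show Commute y w1 from (hcom y hy.mem.2 w1 hw1V).symm).mul_pow, ← mul_assoc]
      rcases Nat.even_or_odd' i with ⟨j, rfl | rfl⟩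
      · left; rw [pow_mul w1, hE.pow w1 hw1V]; simp
      · right; rw [pow_succ w1, pow_mul w1, hE.pow w1 hw1V]; simp
    intro j
    induction j with
    | zero => simp
    | succ j ih =>
      intro r hr
      rw [show x ^ (j + 1) * r * (x ^ (j + 1))⁻¹ = x * (x ^ j * r * (x ^ j)⁻¹) * x⁻¹ by
        rw [pow_succ']; group]
      rcases ih r hr with h2 | h2 <;> rw [h2]
      · exact h1 r hr
      · rw [← conj_mul, mem_cent.1 hxC w1 hw1V]
        rcases h1 r hr with h3 | h3 <;> rw [h3]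
        · exact Or.inr rfl
        · left; rw [mul_assoc, hE.sq hw1V, mul_one]
  have hxR : x ∈ R := mem_syl_of_norm (hP.to_le inf_le_left) inf_le_right hRi hxC hl (fun r hr => by
    have := hxa 1 r hr
    rw [pow_one] at this
    rcases this with h1 | h1 <;> rw [h1]
    · exact hr
    · exact R.mul_mem hr (hVR hw1V))
  have hxV : x ∉ V := fun hh => h11 (by
    have := hx.mv
    rw [hcom y hy.mem.2 x hh, mul_inv_cancel_right] at this
    exact (mul_eq_left.1 this.symm))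
  obtain ⟨j, hb, hb2⟩ := exists_last hxV hl
  set b := x ^ j
  have hbR : b ∈ R := R.pow_mem hxR j
  have hrb : ∀ r ∈ R, r * b * r⁻¹ = b ∨ r * b * r⁻¹ = b * w1 := by
    intro r hr
    rcases hxa j r⁻¹ (R.inv_mem hr) with h1 | h1
    · left
      calc r * b * r⁻¹ = r * (b * r⁻¹ * b⁻¹) * b := by group
        _ = b := by rw [h1]; group
    · right
      calc r * b * r⁻¹ = r * (b * r⁻¹ * b⁻¹) * b := by group
        _ = w1 * b := by rw [h1]; group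
        _ = _ := hcom b hbR.2 w1 hw1V
  have hiv : ∀ c v, v ∈ V → Tr V b v c → v = 1 ∨ v = w1 := by
    intro c v hv hc
    obtain ⟨r, hr, hr'⟩ := lift_act hE le_rfl (inf_le_right : R ≤ C) hRi (fun r hr => by
      rcases hrb r hr with h1 | h1
      · exact ⟨1, V.one_mem, by simpa using h1⟩
      · exact ⟨w1, hw1V, h1⟩) (mem_cent.2 hc.fix) hv hc.mv
    rcases hrb r hr with h1 | h1 <;> rw [h1] at hr'
    · exact Or.inl (mul_eq_left.1 hr'.symm)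
    · exact Or.inr (mul_left_cancel hr').symm
  -- (v)
  obtain ⟨γ0, g1, g2⟩ := h.extEA1 Nat.prime_two hE hE rfl ha2
    (fun hh => haV (hV.f1 hh (mem_cent.1 haR.2))) hb2 (fun hh => hb (hV.f1 hh (mem_cent.1 hbR.2)))
  obtain ⟨γ, g3, g4⟩ := h.ext Nat.prime_two γ0 V haV (fun v hv => by rw [mem_cent.1 haR.2 v hv]; exact hv)
    ha2 (a' := b) (fun hh => hb (by simpa using g2 _ hh))
    (fun v hv => by rw [mem_cent.1 haR.2 v hv, mem_cent.1 hbR.2 _ (g2 v hv)]) g1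
  have hγV : ∀ v ∈ V, γ v ∈ V := fun v hv => g3 v hv ▸ g2 v hv
  have hfin : ∀ t ∈ W, t ≠ 1 → γ t = w1 := by
    intro t ht ht1
    obtain ⟨c, hc⟩ := hii t ht
    refine (hiv (γ c) (γ t) (hγV t (hW.le ht)) ⟨fun v hv => ?_, ?_⟩).resolve_left
      (fun hh => ht1 (by simpa using hh))
    · have := congrArg γ (hc.fix _ (symm_mem_of_mem hγV v hv))
      simpa using this
    · have := congrArg γ hc.mv
      simpa [g4] using this
  exact h12 (γ.injective ((hfin w1 hw1 h11).trans (hfin w2 hw2 h21).symm))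

end Cfsg.Lib.Hg
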