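import Cfsg.Agent.Lib.Hg.Two2

/-! Homogeneous finite groups: squares of lifts of transvections, and the homocyclic group `T`. -/

set_option autoImplicit false

namespace Cfsg.Lib.Hg

open Subgroup Cfsg.Lib.Transfer

variable {G : Type*} [Group G]

theorem Hyp.swap [Finite G] {W0 W V : Subgroup G} {u w : G} (hV : EA 2 V) (hW : Hyp W V u)
    (h0 : Hyp W0 W w) : Hyp (W0 ⊔ zpowers u) V w := by
  have hn : ∀ x ∈ W0, u * x * u⁻¹ ∈ W0 := fun x hx => by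
    rw [hV.conj hW.mem (hW.le (h0.le hx))]; exact hx
  refine ⟨sup_le (h0.le.trans hW.le) (zpowers_le.2 hW.mem), hW.le h0.mem, fun hh => ?_, fun v hv => ?_⟩
  · obtain ⟨x, hx, i, hi⟩ := (mem_adj hn).1 hh
    by_cases h2 : 2 ∣ i
    · obtain ⟨j, rfl⟩ := h2
      rw [pow_mul, hV.pow u hW.mem, one_pow, mul_one] at hi
      exact h0.not_mem (hi ▸ hx)
    · refine hW.not_mem (mem_of_pow_mem Nat.prime_two (by rw [hV.pow u hW.mem]; exact W.one_mem) ?_ h2)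
      rw [show u ^ i = x⁻¹ * w by rw [hi]; group]
      exact W.mul_mem (W.inv_mem (h0.le hx)) h0.mem
  · obtain ⟨x, hx, i, rfl⟩ := hW.gen v hv
    obtain ⟨y, hy, j, rfl⟩ := h0.gen x hx
    refine ⟨y * u ^ i, (mem_adj hn).2 ⟨y, hy, i, rfl⟩, j, ?_⟩
    rw [mul_assoc, mul_assoc, hV.comm _ (V.pow_mem (hW.le h0.mem) j) _ (V.pow_mem hW.mem i)]

theorem Hyp.card_eq [Finite G] {p : ℕ} (hp : p.Prime) {W W' V : Subgroup G} {u u' : G} (hV : EA p V)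
    (h : Hyp W V u) (h' : Hyp W' V u') : Nat.card W = Nat.card W' :=
  Nat.eq_of_mul_eq_mul_right hp.pos ((h.card hp hV).symm.trans (h'.card hp hV))

theorem Tr.congr {W V : Subgroup G} {u t g g' : G} (h : Tr W u t g) (hW : Hyp W V u)
    (hg : ∀ v ∈ V, g' * v * g'⁻¹ = g * v * g⁻¹) : Tr W u t g' :=
  ⟨fun w hw => by rw [hg w (hW.le hw), h.fix w hw], by rw [hg u hW.mem, h.mv]⟩

theorem Tr.conj [Finite G] {W : Subgroup G} {u t g n : G} (h : Tr W u t g) (hn : ∀ w ∈ W, n * w * n⁻¹ ∈ W)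
    (hu : n * u * n⁻¹ = u) : Tr W u (n * t * n⁻¹) (n * g * n⁻¹) := by
  refine ⟨fun w hw => ?_, ?_⟩
  · rw [show n * g * n⁻¹ * w * (n * g * n⁻¹)⁻¹ = n * (g * (n⁻¹ * w * n) * g⁻¹) * n⁻¹ by group,
      h.fix _ (inv_conj_mem hn w hw)]; group
  · have hu' : n⁻¹ * u * n = u := by nth_rewrite 1 [← hu]; group
    rw [show n * g * n⁻¹ * u * (n * g * n⁻¹)⁻¹ = n * (g * (n⁻¹ * u * n) * g⁻¹) * n⁻¹ by group, hu', h.mv,
      ← conj_mul, hu]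

/-- The standing situation: `P` is a Sylow 2-subgroup of the group of lifts of transvections. -/
structure Sit (V W P : Subgroup G) (u : G) : Prop where
  hm : Hm G
  mx : Mx V
  tv : Tv V
  hyp : Hyp W V u
  big : 2 < Nat.card W
  le : P ≤ Gm W V
  pg : IsPGroup 2 P
  idx : ¬ 2 ∣ P.relIndex (Gm W V)
  vle : V ≤ P

theorem exists_sit [Finite G] (h : Hm G) {V W : Subgroup G} {u : G} (hV : Mx V) (hT : Tv V)
    (hW : Hyp W V u) (h4 : 2 < Nat.card W) {g : G} {k : ℕ} (hk : g ^ 2 ^ k = 1) (hg : g ∈ Gm W V) :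
    ∃ P, g ∈ P ∧ Sit V W P u := by
  have := Fact.mk Nat.prime_two
  obtain ⟨P, hQP, hPH, hP, hPi⟩ := exists_sylowIn_ge (pg_adj hV.ea.isPGroup hk (norm_conj hg.2))
    (sup_le (hV.ea.le_cent.trans (cent_le_gm hW.le)) (zpowers_le.2 hg))
  exact ⟨P, hQP (mem_sup_right (mem_zpowers g)), h, hV, hT, hW, h4, hPH, hP, hPi, le_sup_left.trans hQP⟩

namespace Sit

variable [Finite G] {V W P : Subgroup G} {u : G} (S : Sit V W P u)
include S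

theorem eaW : EA 2 W := S.mx.ea.mono S.hyp.le

theorem memV {g : G} (hg : g ∈ P) (h1 : Tr W u 1 g) : g ∈ V := by
  obtain ⟨k, hk⟩ := pow_of_isPGroup S.pg hg
  exact step1 S.hm S.mx S.tv S.hyp S.big hk (mem_cent.2 (h1.cent S.hyp S.mx.ea))

theorem exN {W0 : Subgroup G} {w t : G} (h0 : Hyp W0 W w) (ht : t ∈ W0) :
    ∃ n, (∀ g ∈ P, n * g * n⁻¹ ∈ P) ∧ (∃ k, n ^ 2 ^ k = 1) ∧ Tr (W0 ⊔ zpowers u) w t n := by
  have := Fact.mk Nat.prime_two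
  have hE := S.mx.ea
  have h1 := Hyp.swap hE S.hyp h0
  have ht' : t ∈ W0 ⊔ zpowers u := mem_sup_left ht
  obtain ⟨n0, hn0⟩ := S.tv _ _ h1 t ht'
  have hV0 := hn0.norm h1 hE ht'
  have hW0 : ∀ x ∈ W, n0 * x * n0⁻¹ ∈ W := fun x hx => by
    rcases hn0.act h1 hE ht' (S.hyp.le hx) with ⟨-, h2⟩ | ⟨-, h2⟩ <;> rw [h2]
    · exact hx
    · exact W.mul_mem hx (h0.le ht)
  have hN : n0 ∈ normalizer ((Gm W V : Subgroup G) : Set G) := by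
    rw [← conj_eq_self_iff, conj_inf, conj_centralizer, conj_normalizer,
      conj_eq_self_iff.2 (mem_norm hV0), conj_eq_self_iff.2 (mem_norm hW0)]
  obtain ⟨y, hy, hyn⟩ := frattini_argument S.le S.pg S.idx le_rfl hN
  obtain ⟨x, hx, m, hm, rfl⟩ := gm_lift S.hyp hE S.le S.idx hy
  have h2 : m * n0 ∈ normalizer (P : Set G) := by
    have := mul_mem (le_normalizer (P.inv_mem hx)) hyn
    simpa [mul_assoc] using this
  have h3 : Tr (W0 ⊔ zpowers u) w t (m * n0) := hn0.congr h1 fun v hv => by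
    rw [show m * n0 * v * (m * n0)⁻¹ = m * (n0 * v * n0⁻¹) * m⁻¹ by group, mem_cent.1 hm _ (hV0 v hv)]
  obtain ⟨j, k, hk⟩ := ppart Nat.prime_two (m * n0)
  exact ⟨_, norm_conj (pow_mem h2 _), ⟨k, hk⟩, h3.odd ht' (hE.sq (h1.le ht')) j⟩

end Sit

theorem Tr.normW {W0 W : Subgroup G} {u w t n : G} (hn : Tr (W0 ⊔ zpowers u) w t n) (hW : EA 2 W)
    (h0 : Hyp W0 W w) (ht : t ∈ W0) {x : G} (hx : x ∈ W) :
    (x ∈ W0 ∧ n * x * n⁻¹ = x) ∨ (x ∉ W0 ∧ n * x * n⁻¹ = x * t) :=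
  Tr.act ⟨fun y hy => hn.fix y (mem_sup_left hy), hn.mv⟩ h0 hW ht hx

theorem Tr.normW' {W0 W : Subgroup G} {u w t n : G} (hn : Tr (W0 ⊔ zpowers u) w t n) (hW : EA 2 W)
    (h0 : Hyp W0 W w) (ht : t ∈ W0) : ∀ x ∈ W, n * x * n⁻¹ ∈ W :=
  Tr.norm ⟨fun y hy => hn.fix y (mem_sup_left hy), hn.mv⟩ h0 hW ht

theorem not_mem_zpowers {t w : G} (ht : t ^ 2 = 1) (h1 : w ≠ 1) (h2 : w ≠ t) [Finite G] :
    w ∉ zpowers t := by
  intro hh
  obtain ⟨i, rfl⟩ := mem_powers_iff_mem_zpowers.2 hh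
  rcases Nat.even_or_odd' i with ⟨j, rfl | rfl⟩
  · exact h1 (by simp [pow_mul, ht])
  · exact h2 (by simp [pow_succ, pow_mul, ht])

theorem sq_mul_of_tr {W V : Subgroup G} {u t g v : G} (h : Tr W u t g) (hW : Hyp W V u) (hV : EA 2 V)
    (ht : t ∈ W) (hv : v ∈ V) :
    (v ∈ W ∧ (g * v) ^ 2 = g ^ 2) ∨ (v ∉ W ∧ (g * v) ^ 2 = g ^ 2 * t) := by
  have h1 := (h.inv ht).act hW hV (W.inv_mem ht) hv
  rw [inv_inv, hV.inv (hW.le ht)] at h1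
  have h2 : (g * v) ^ 2 = g ^ 2 * (g⁻¹ * v * g * v) := by simp only [pow_two]; group
  rcases h1 with ⟨h3, h4⟩ | ⟨h3, h4⟩
  · exact Or.inl ⟨h3, by rw [h2, h4, hV.sq hv, mul_one]⟩
  · exact Or.inr ⟨h3, by rw [h2, h4, hV.comm v hv t (hW.le ht), mul_assoc, hV.sq hv, mul_one]⟩

theorem Sit.sq_mem [Finite G] {V W P : Subgroup G} {u : G} (S : Sit V W P u) {g : G} (hg : g ∈ P) :
    g ^ 2 ∈ W := by
  have hE := S.mx.ea
  obtain ⟨t, ht, h1⟩ := tr_of_mem S.hyp hE (S.le hg)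
  have h2 := h1.mul h1 ht
  rw [S.eaW.sq ht, ← pow_two] at h2
  have h3 := S.memV (P.pow_mem hg 2) h2
  rcases h1.act S.hyp hE ht h3 with ⟨h4, -⟩ | ⟨-, h4⟩
  · exact h4
  · rw [show g * g ^ 2 * g⁻¹ = g ^ 2 by group, eq_comm, mul_eq_left] at h4
    subst h4
    rw [hE.pow g (S.memV hg h1)]; exact W.one_mem

theorem two_a [Finite G] (h : Hm G) {V W : Subgroup G} {u : G} (hV : Mx V) (hT : Tv V)
    (hW : Hyp W V u) (h4 : 2 < Nat.card W) {g t : G} {k : ℕ} (hk : g ^ 2 ^ k = 1) (ht : t ∈ W)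
    (hg : Tr W u t g) : g ^ 2 = 1 ∨ g ^ 2 = t := by
  have hE := hV.ea
  obtain ⟨P, hgP, S⟩ := exists_sit h hV hT hW h4 hk (hg.mem hW hE ht)
  have hEW := S.eaW
  by_contra hh
  push Not at hh
  have hw := S.sq_mem hgP
  set w := g ^ 2 with hwdef
  obtain ⟨W0, hX, h0⟩ := exists_hyp Nat.prime_two hEW (zpowers_le.2 ht) hw
    (not_mem_zpowers (hEW.pow t ht) hh.1 hh.2)
  have ht0 : t ∈ W0 := hX (mem_zpowers t)
  have ht1 : t ≠ 1 := by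
    rintro rfl
    exact hh.1 (hE.pow g (S.memV hgP hg))
  obtain ⟨n, hnP, ⟨l, hl⟩, hn⟩ := S.exN h0 ht0
  have h1 := Hyp.swap hE hW h0
  have hn2 : n ^ 2 ∈ V := by
    have h2 := hn.mul hn (mem_sup_left ht0)
    rw [hEW.sq ht, ← pow_two] at h2
    exact step1 h hV hT hW h4 (k := l) (by rw [← pow_mul, mul_comm, pow_mul, hl, one_pow])
      (mem_cent.2 (h2.cent h1 hE))
  obtain ⟨g2, hg2P, hg2⟩ := syl_tr hW hE hT S.le S.idx hw
  have hnW := hn.normW' hEW h0 ht0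
  have hg3 := hg2.conj hnW (hn.fix u (mem_sup_right (mem_zpowers u)))
  rw [hn.mv] at hg3
  set g3 := n * g2 * n⁻¹ with hg3def
  have hg3P : g3 ∈ P := hnP g2 hg2P
  have hx := hg2.mul hg3 (W.mul_mem hw ht)
  rw [← mul_assoc, hEW.sq hw, one_mul] at hx
  have hv : g⁻¹ * (g2 * g3) ∈ V := S.memV (P.mul_mem (P.inv_mem hgP) (P.mul_mem hg2P hg3P)) (by
    have := (hg.inv ht).mul hx ht
    rwa [inv_mul_cancel] at this)
  have hx2 : (g2 * g3) ^ 2 ∈ W ∧ (g2 * g3) ^ 2 ∉ W0 := by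
    have := sq_mul_of_tr hg hW hE ht hv
    rw [mul_inv_cancel_left] at this
    rcases this with ⟨-, h2⟩ | ⟨-, h2⟩ <;> rw [h2]
    · exact ⟨hw, h0.not_mem⟩
    · exact ⟨W.mul_mem hw ht, fun h3 => h0.not_mem (by simpa using W0.mul_mem h3 (W0.inv_mem ht0))⟩
  obtain ⟨s, hs, hs'⟩ : ∃ s ∈ W, n ^ 2 * g2 * (n ^ 2)⁻¹ = g2 * s := by
    have h2 := (hg2.inv hw).act hW hE (W.inv_mem hw) hn2
    rw [inv_inv] at h2
    have h3 : n ^ 2 * g2 * (n ^ 2)⁻¹ = g2 * (g2⁻¹ * n ^ 2 * g2 * (n ^ 2)⁻¹) := by group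
    rcases h2 with ⟨-, h2⟩ | ⟨-, h2⟩
    · exact ⟨1, W.one_mem, by rw [h3, h2, mul_inv_cancel]⟩
    · exact ⟨w⁻¹, W.inv_mem hw, by rw [h3, h2, hE.conj hn2 (hW.le (W.inv_mem hw))]⟩
  have h5 : n * (g2 * g3) ^ 2 * n⁻¹ = (g2 * g3) ^ 2 := by
    have e1 : n * (g2 * g3) * n⁻¹ = g3 * g2 * s := by
      rw [mul_assoc g3, ← hs', hg3def]; simp only [pow_two]; group
    have hy := hg3.mul hg2 hw
    have e2 : (g3 * g2 * s) ^ 2 = (g3 * g2) ^ 2 :=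
      ((sq_mul_of_tr hy hW hE (W.mul_mem (W.mul_mem hw ht) hw) (hW.le hs)).resolve_right
        (fun h => h.1 hs)).2
    have e3 := (hg2.inv hw).fix _ hx2.1
    rw [← conj_pow, e1, e2, ← e3]; simp only [pow_two]; group
  rcases hn.normW hEW h0 ht0 hx2.1 with ⟨h6, -⟩ | ⟨-, h6⟩
  · exact hx2.2 h6
  · exact ht1 (mul_eq_left.1 (h6.symm.trans h5))

end Cfsg.Lib.Hg
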