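import Cfsg.Agent.Lib.Hg.Two3

/-! Homogeneous finite groups: the homocyclic group `T`. -/

set_option autoImplicit false

namespace Cfsg.Lib.Hg

open Subgroup Cfsg.Lib.Transfer

variable {G : Type*} [Group G]

theorem Mx.adj [Finite G] {V W : Subgroup G} {u i : G} (hV : Mx V) (hW : Hyp W V u) (hi : i ^ 2 = 1)
    (hiW : i ∉ W) (hc : ∀ w ∈ W, i * w * i⁻¹ = w) : Mx (W ⊔ zpowers i) ∧ Hyp W (W ⊔ zpowers i) i := by
  have hn : ∀ w ∈ W, i * w * i⁻¹ ∈ W := fun w hw => by rw [hc w hw]; exact hw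
  refine ⟨⟨(hV.ea.mono hW.le).adj hi hc, fun B hB => ?_⟩,
    le_sup_left, mem_sup_right (mem_zpowers i), hiW, fun v hv => (mem_adj hn).1 hv⟩
  rw [card_adj Nat.prime_two hiW hn (by rw [hi]; exact W.one_mem), ← hW.card Nat.prime_two hV.ea]
  exact hV.max B hB

namespace Sit

variable [Finite G] {V W P : Subgroup G} {u : G} (S : Sit V W P u)
include S

theorem tr_sq {g : G} (hg : g ∈ P) (h1 : g ^ 2 ≠ 1) : Tr W u (g ^ 2) g := by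
  obtain ⟨t, ht, h2⟩ := tr_of_mem S.hyp S.mx.ea (S.le hg)
  obtain ⟨k, hk⟩ := pow_of_isPGroup S.pg hg
  rwa [(two_a S.hm S.mx S.tv S.hyp S.big hk ht h2).resolve_left h1]

theorem sq_u {g t : G} (ht : t ∈ W) (h : Tr W u t g) : (g * u) ^ 2 = g ^ 2 * t :=
  ((sq_mul_of_tr h S.hyp S.mx.ea ht S.hyp.mem).resolve_left fun h => S.hyp.not_mem h.1).2

theorem tr_u : Tr W u 1 u := Tr.of_cent S.hyp fun _ hv => S.mx.ea.conj S.hyp.mem hv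

theorem mul_mem_T {x y : G} (hx : x ∈ P) (hy : y ∈ P) (hx2 : x ^ 2 ≠ 1) (hy2 : y ^ 2 ≠ 1) :
    x * y ∈ W ∨ (x * y) ^ 2 ≠ 1 := by
  have hE := S.mx.ea
  have hEW := S.eaW
  have h1 := S.tr_sq hx hx2
  have h2 := S.tr_sq hy hy2
  have hxW := S.sq_mem hx
  have hyW := S.sq_mem hy
  by_cases hxy : x ^ 2 = y ^ 2
  · left
    have h3 := h1.mul h2 hyW
    rw [hxy, hEW.sq hyW] at h3
    have h4 := S.memV (P.mul_mem hx hy) h3
    have h5 := sq_mul_of_tr (h1.inv hxW) S.hyp hE (W.inv_mem hxW) h4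
    rw [inv_mul_cancel_left, inv_pow, hEW.inv hxW] at h5
    exact (h5.resolve_right fun h6 => hy2 (by rw [h6.2, hEW.sq hxW])).1
  right
  intro h3
  have hi : (x * u) ^ 2 = 1 := by rw [S.sq_u hxW h1, hEW.sq hxW]
  have hj : (y * u) ^ 2 = 1 := by rw [S.sq_u hyW h2, hEW.sq hyW]
  have h1' := h1.mul S.tr_u W.one_mem
  have h2' := h2.mul S.tr_u W.one_mem
  rw [mul_one] at h1' h2'
  have hiW : x * u ∉ W := fun hh => hx2 (h1'.uniq (Tr.of_cent S.hyp fun _ hv => hE.conj (S.hyp.le hh) hv))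
  obtain ⟨hM, hH⟩ := S.mx.adj S.hyp hi hiW h1'.fix
  have hij : (x * u * (y * u)) ^ 2 = 1 := by
    have e1 : x * u * (y * u) = x * y * (y ^ 2)⁻¹ := by
      have := (h2.inv hyW).mv
      rw [inv_inv] at this
      calc x * u * (y * u) = x * y * ((y⁻¹ * u * y) * u) := by group
        _ = _ := by rw [this, hE.comm u S.hyp.mem _ (S.hyp.le (W.inv_mem hyW)), mul_assoc _ u u,
              hE.sq S.hyp.mem, mul_one]
    rw [e1, ((sq_mul_of_tr (h1.mul h2 hyW) S.hyp hE (W.mul_mem hxW hyW)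
      (S.hyp.le (W.inv_mem hyW))).resolve_right fun h => h.1 (W.inv_mem hyW)).2, h3]
  have hc : y * u * (x * u) * (y * u)⁻¹ = x * u := by
    set i := x * u
    set j := y * u
    have ei : i⁻¹ = i := by rw [inv_eq_iff_mul_eq_one, ← pow_two, hi]
    have ej : j⁻¹ = j := by rw [inv_eq_iff_mul_eq_one, ← pow_two, hj]
    have : i * (j * i * j) = 1 := by rw [← hij, pow_two]; group
    rw [ej, ← ei]; nth_rewrite 1 [ei]; exact eq_inv_of_mul_eq_one_right this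
  have hjm : y * u ∈ W ⊔ zpowers (x * u) := hM.f1 hj fun v hv => by
    rcases hH.two hM.ea hv with h5 | ⟨w, hw, rfl⟩
    · exact h2'.fix v h5
    · rw [← conj_mul, hc, h2'.fix w hw]
  rcases hH.two hM.ea hjm with h5 | ⟨w, hw, h5⟩
  · exact hy2 (h2'.uniq (Tr.of_cent S.hyp fun _ hv => hE.conj (S.hyp.le h5) hv))
  · have h6 := h1'.mul (Tr.of_cent S.hyp fun _ hv => hE.conj (S.hyp.le hw) hv) W.one_mem
    rw [← h5, mul_one] at h6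
    exact hxy (h6.uniq h2')

theorem le_P : W ≤ P := S.hyp.le.trans S.vle

theorem sq_W {g w : G} (hg : g ∈ P) (hw : w ∈ W) : (g * w) ^ 2 = g ^ 2 := by
  obtain ⟨t, ht, h2⟩ := tr_of_mem S.hyp S.mx.ea (S.le hg)
  exact ((sq_mul_of_tr h2 S.hyp S.mx.ea ht (S.hyp.le hw)).resolve_right fun h => h.1 hw).2

theorem comm_W {g w : G} (hg : g ∈ P) (hw : w ∈ W) : w * g = g * w :=
  mem_centralizer_iff.1 (S.le hg).1 w hw

/-- The elements of `P` inverted by `u`. -/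
def T : Subgroup G := mkSub {g | g ∈ P ∧ (g ∈ W ∨ g ^ 2 ≠ 1)} ⟨P.one_mem, Or.inl W.one_mem⟩ (by
  rintro x ⟨hx, hx'⟩ y ⟨hy, hy'⟩
  refine ⟨P.mul_mem hx hy, ?_⟩
  rcases hy' with hy' | hy'
  · rw [S.sq_W hx hy']
    exact hx'.imp (fun h => W.mul_mem h hy') id
  rcases hx' with hx' | hx'
  · rw [S.comm_W hy hx', S.sq_W hy hx']; exact Or.inr hy'
  · exact S.mul_mem_T hx hy hx' hy')

theorem mem_T {g : G} : g ∈ S.T ↔ g ∈ P ∧ (g ∈ W ∨ g ^ 2 ≠ 1) := Iff.rfl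

theorem W_le : W ≤ S.T := fun _ hw => ⟨S.le_P hw, Or.inl hw⟩

theorem T_le : S.T ≤ P := fun _ hw => hw.1

theorem T_sq {s : G} (hs : s ∈ S.T) : s ^ 2 ∈ W := S.sq_mem hs.1

theorem T_om {s : G} (hs : s ∈ S.T) (h : s ^ 2 = 1) : s ∈ W := hs.2.resolve_right fun h' => h' h

theorem T_tr {s : G} (hs : s ∈ S.T) : Tr W u (s ^ 2) s := by
  rcases hs.2 with h | h
  · rw [S.eaW.pow s h]; exact Tr.of_cent S.hyp fun _ hv => S.mx.ea.conj (S.hyp.le h) hv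
  · exact S.tr_sq hs.1 h

theorem T_surj {t : G} (ht : t ∈ W) : ∃ s ∈ S.T, s ^ 2 = t := by
  by_cases h1 : t = 1
  · exact ⟨1, one_mem _, by simp [h1]⟩
  obtain ⟨g, hg, h2⟩ := syl_tr S.hyp S.mx.ea S.tv S.le S.idx ht
  by_cases h3 : g ^ 2 = 1
  · have h4 : (g * u) ^ 2 = t := by rw [S.sq_u ht h2, h3, one_mul]
    exact ⟨g * u, ⟨P.mul_mem hg (S.vle S.hyp.mem), Or.inr (h4 ▸ h1)⟩, h4⟩
  · exact ⟨g, ⟨hg, Or.inr h3⟩, (S.tr_sq hg h3).uniq h2⟩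

theorem T_inv {s : G} (hs : s ∈ S.T) : s⁻¹ = s * s ^ 2 := by
  rw [inv_eq_iff_mul_eq_one, ← mul_assoc, ← pow_two, S.eaW.sq (S.T_sq hs)]

theorem u_inv {s : G} (hs : s ∈ S.T) : u * s * u⁻¹ = s⁻¹ := by
  have h1 := (S.T_tr hs).mv
  have hE := S.mx.ea
  have h2 : u * s * u⁻¹ = u * (s * u * s⁻¹) * s := by rw [hE.inv S.hyp.mem]; group
  rw [h2, h1, ← mul_assoc, hE.sq S.hyp.mem, one_mul, S.T_inv hs]; group

theorem T_comm {x y : G} (hx : x ∈ S.T) (hy : y ∈ S.T) : x * y = y * x := by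
  have h1 := S.u_inv (S.T.mul_mem hx hy)
  rw [← conj_mul, S.u_inv hx, S.u_inv hy, ← mul_inv_rev, inv_inj] at h1
  exact h1.symm

theorem T_norm {n : G} (hP : ∀ g ∈ P, n * g * n⁻¹ ∈ P) (hW : ∀ g ∈ W, n * g * n⁻¹ ∈ W) :
    ∀ s ∈ S.T, n * s * n⁻¹ ∈ S.T := fun s hs =>
  ⟨hP s hs.1, hs.2.imp (hW s) fun h hh => h (by rwa [conj_pow, conj_eq_one_iff] at hh)⟩

theorem T_act {y : G} (hy : ∀ s ∈ S.T, y * s * y⁻¹ ∈ S.T) (hW : ∀ w ∈ W, y * w * y⁻¹ = w) {s : G}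
    (hs : s ∈ S.T) : ∃ e ∈ W, y * s * y⁻¹ = s * e := by
  refine ⟨s⁻¹ * (y * s * y⁻¹), S.T_om (S.T.mul_mem (S.T.inv_mem hs) (hy s hs)) ?_, by group⟩
  rw [(show Commute s⁻¹ (y * s * y⁻¹) from S.T_comm (S.T.inv_mem hs) (hy s hs)).mul_pow, conj_pow,
    hW _ (S.T_sq hs), inv_pow, inv_mul_cancel]

/-- The elements of `T` with square in `W0`. -/
def T0 (W0 : Subgroup G) : Subgroup G := mkSub {g | g ∈ S.T ∧ g ^ 2 ∈ W0}
  ⟨S.T.one_mem, by simp⟩ (by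
    rintro x ⟨hx, hx'⟩ y ⟨hy, hy'⟩
    exact ⟨S.T.mul_mem hx hy, by
      rw [(show Commute x y from S.T_comm hx hy).mul_pow]; exact W0.mul_mem hx' hy'⟩)

theorem rl0 {W0 : Subgroup G} {w t : G} (h0 : Hyp W0 W w) (ht : t ∈ W0) :
    ∃ c, ∀ s ∈ S.T, (s ^ 2 ∈ W0 → c * s * c⁻¹ = s) ∧ (s ^ 2 ∉ W0 → c * s * c⁻¹ = s * t) := by
  have hEW := S.eaW
  obtain ⟨n, hnP, -, hn⟩ := S.exN h0 ht
  have hnW := hn.normW' hEW h0 ht
  have hnT := S.T_norm hnP hnW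
  obtain ⟨s1, hs1, hs1'⟩ := S.T_surj h0.mem
  have hWT : W ≤ S.T0 W0 := fun x hx => ⟨S.W_le hx, by rw [hEW.pow x hx]; exact W0.one_mem⟩
  have hdec : ∀ s ∈ S.T, s ^ 2 ∉ W0 → s1⁻¹ * s ∈ S.T0 W0 := by
    intro s hs hs0
    refine ⟨S.T.mul_mem (S.T.inv_mem hs1) hs, ?_⟩
    obtain ⟨x, hx, hx'⟩ := (h0.two hEW (S.T_sq hs)).resolve_left hs0
    rw [(show Commute s1⁻¹ s from S.T_comm (S.T.inv_mem hs1) hs).mul_pow, inv_pow, hs1', hx']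
    simpa using hx
  have hn0 : ∀ s ∈ S.T0 W0, n * s * n⁻¹ ∈ S.T0 W0 := fun s hs =>
    ⟨hnT s hs.1, by rw [conj_pow, hn.fix _ (mem_sup_left hs.2)]; exact hs.2⟩
  have hs10 : s1 ∉ S.T0 W0 := fun hh => h0.not_mem (hs1' ▸ hh.2)
  obtain ⟨c, hc⟩ := S.hm.key3 (X := S.T0 W0) (a := s1) (e := w) (g := n) (s := s1⁻¹ * (n⁻¹ * s1 * n)) hs10
    (fun v hv => by rw [S.T_comm hs1 hv.1]; simpa using hv) (hWT (S.T_sq hs1)) (hWT h0.mem)
    (hEW.pow w h0.mem) (fun x hx => S.T_comm (S.W_le h0.mem) hx.1) (S.T_comm hs1 (S.W_le h0.mem)) hn0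
    (hdec _ (inv_conj_mem hnT s1 hs1) fun hh => hs10 (by
      have := hn0 _ ⟨inv_conj_mem hnT s1 hs1, hh⟩
      simpa [mul_assoc] using this)) (by group)
  rw [hn.mv, mul_inv_rev, hEW.comm _ (W.inv_mem (h0.le ht)) _ (W.inv_mem h0.mem), mul_inv_cancel_left,
    hEW.inv (h0.le ht)] at hc
  refine ⟨c, fun s hs => ⟨fun h => hc.fix s ⟨hs, h⟩, fun h => ?_⟩⟩
  have h1 := hdec s hs h
  calc c * s * c⁻¹ = c * s1 * c⁻¹ * (c * (s1⁻¹ * s) * c⁻¹) := by group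
    _ = _ := by
      rw [hc.mv, hc.fix _ h1, mul_assoc, S.T_comm (S.W_le (h0.le ht)) h1.1]; group

end Sit

end Cfsg.Lib.Hg
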