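import Cfsg.Agent.Lib.Hg.Two4

/-! Homogeneous finite groups: the contradiction for 2-rank at least three. -/

set_option autoImplicit false

namespace Cfsg.Lib.Hg

open Subgroup Cfsg.Lib.Transfer

variable {G : Type*} [Group G]

theorem card_le_fib [Finite G] {Q V : Subgroup G} {u : G} (I : Set G) (h1 : ∀ y ∈ Q, y * u * y⁻¹ * u⁻¹ ∈ I)
    (h2 : ∀ y ∈ Q, y * u * y⁻¹ = u → y ∈ V) : Nat.card Q ≤ Nat.card I * Nat.card V := by
  classical
  let f : Q → I := fun y => ⟨_, h1 y y.2⟩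
  let r : I → Q := Function.invFun f
  have hr : ∀ y, f (r (f y)) = f y := fun y => Function.invFun_eq ⟨y, rfl⟩
  have hm : ∀ y : Q, ((r (f y) : G)⁻¹ * y) ∈ V := fun y => h2 _ (Q.mul_mem (Q.inv_mem (r (f y)).2) y.2) (by
    have h3 : (r (f y) : G) * u * (r (f y) : G)⁻¹ * u⁻¹ = y * u * (y : G)⁻¹ * u⁻¹ :=
      congrArg Subtype.val (hr y)
    rw [show (r (f y) : G)⁻¹ * y * u * ((r (f y) : G)⁻¹ * y)⁻¹ =
      (r (f y) : G)⁻¹ * (y * u * (y : G)⁻¹) * r (f y) by group, ← mul_right_cancel h3]; group)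
  rw [← Nat.card_prod]
  refine Nat.card_le_card_of_injective (fun y : Q => ((f y, ⟨_, hm y⟩) : I × V)) fun a b hab => ?_
  have h3 : f a = f b := congrArg Prod.fst hab
  have h4 : (r (f a) : G)⁻¹ * a = (r (f b) : G)⁻¹ * b := congrArg (fun x : I × V => (x.2 : G)) hab
  rw [h3] at h4
  exact Subtype.ext (mul_left_cancel h4)

theorem card_ge_three [Finite G] {Q W C : Subgroup G} {s1 s2 : G} (F : Set G) (hC : C ≤ Q)
    (hC1 : ∀ c ∈ C, c * s1 * c⁻¹ = s1) (hC2 : ∀ c ∈ C, c * s2 * c⁻¹ = s2)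
    (h1 : ∀ e ∈ W, ∃ x ∈ Q, x * s1 * x⁻¹ = s1 * e)
    (h2 : ∀ f ∈ F, ∃ k ∈ Q, k * s1 * k⁻¹ = s1 ∧ k * s2 * k⁻¹ = s2 * f) :
    Nat.card W * Nat.card F * Nat.card C ≤ Nat.card Q := by
  choose! x hx hx' using h1
  choose! k hk hk1 hk2 using h2
  rw [← Nat.card_prod, ← Nat.card_prod]
  refine Nat.card_le_card_of_injective (fun a : (W × F) × C =>
    (⟨x a.1.1 * k a.1.2 * a.2, Q.mul_mem (Q.mul_mem (hx _ a.1.1.2) (hk _ a.1.2.2)) (hC a.2.2)⟩ : Q)) ?_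
  rintro ⟨⟨e, f⟩, c⟩ ⟨⟨e', f'⟩, c'⟩ hab
  have h3 : x e * k f * c = x e' * k f' * c' := congrArg Subtype.val hab
  have h4 : ∀ (e : W) (f : F) (c : C), x e * k f * c * s1 * (x e * k f * c)⁻¹ = s1 * e := fun e f c => by
    rw [show x e * k f * c * s1 * (x e * k f * c)⁻¹ = x e * (k f * (c * s1 * (c : G)⁻¹) * (k f)⁻¹) * (x e)⁻¹
      by group, hC1 c c.2, hk1 f f.2, hx' e e.2]
  have he : e = e' := Subtype.ext (mul_left_cancel ((h4 e f c).symm.trans (h3 ▸ h4 e' f' c')))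
  subst he
  rw [mul_assoc, mul_assoc, mul_left_cancel_iff] at h3
  have h5 : ∀ (f : F) (c : C), k f * c * s2 * (k f * c)⁻¹ = s2 * f := fun f c => by
    rw [show k f * c * s2 * (k f * c)⁻¹ = k f * (c * s2 * (c : G)⁻¹) * (k f)⁻¹ by group, hC2 c c.2,
      hk2 f f.2]
  have hf : f = f' := Subtype.ext (mul_left_cancel ((h5 f c).symm.trans (h3 ▸ h5 f' c')))
  subst hf
  rw [Subtype.ext (mul_left_cancel h3 : (c : G) = c')]

namespace Sit

variable [Finite G] {V W P : Subgroup G} {u : G} (S : Sit V W P u)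
include S

theorem exSigma {W0 : Subgroup G} {w t : G} (h0 : Hyp W0 W w) (ht : t ∈ W0) :
    ∃ n, (∀ g ∈ P, n * g * n⁻¹ ∈ P) ∧ n ^ 2 = 1 ∧ Tr (W0 ⊔ zpowers u) w t n := by
  obtain ⟨n, hnP, ⟨k, hk⟩, hn⟩ := S.exN h0 ht
  have hE := S.mx.ea
  have h1 := Hyp.swap hE S.hyp h0
  have ht' : t ∈ W0 ⊔ zpowers u := mem_sup_left ht
  rcases two_a S.hm S.mx S.tv h1 (h1.card_eq Nat.prime_two hE S.hyp ▸ S.big) hk ht' hn with h2 | h2
  · exact ⟨n, hnP, h2, hn⟩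
  have hw := S.le_P h0.mem
  refine ⟨n * w, fun g hg => ?_, ?_, ?_⟩
  · rw [show n * w * g * (n * w)⁻¹ = n * (w * g * w⁻¹) * n⁻¹ by group]
    exact hnP _ (P.mul_mem (P.mul_mem hw hg) (P.inv_mem hw))
  · rw [((sq_mul_of_tr hn h1 hE ht' h1.mem).resolve_left fun h => h1.not_mem h.1).2, h2, hE.sq (h1.le ht')]
  · simpa using hn.mul (Tr.of_cent h1 fun _ hv => hE.conj h1.mem hv) (one_mem _)

/-- Normalizer of `T` and `W`. -/
abbrev Nn : Subgroup G := normalizer (S.T : Set G) ⊓ normalizer (W : Set G)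

theorem act_comm {y z : G} (hy : y ∈ S.Nn) (hy' : y ∈ centralizer (W : Set G)) (hz : z ∈ S.Nn)
    (hz' : z ∈ centralizer (W : Set G)) {s : G} (hs : s ∈ S.T) :
    ∃ e ∈ W, ∃ f ∈ W, y * s * y⁻¹ = s * e ∧ z * s * z⁻¹ = s * f ∧ y * z * s * (y * z)⁻¹ = s * e * f := by
  obtain ⟨e, he, he'⟩ := S.T_act (norm_conj hy.1) (mem_cent.1 hy') hs
  obtain ⟨f, hf, hf'⟩ := S.T_act (norm_conj hz.1) (mem_cent.1 hz') hs
  refine ⟨e, he, f, hf, he', hf', ?_⟩
  rw [show y * z * s * (y * z)⁻¹ = y * (z * s * z⁻¹) * y⁻¹ by group, hf', ← conj_mul, he',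
    mem_cent.1 hy' f hf]

theorem sq_cent {y : G} (hy : y ∈ S.Nn) (hy' : y ∈ centralizer (W : Set G)) :
    y ^ 2 ∈ centralizer (S.T : Set G) := mem_cent.2 fun s hs => by
  obtain ⟨e, he, f, -, h1, h2, h3⟩ := S.act_comm hy hy' hy hy' hs
  rw [pow_two, h3, ← mul_left_cancel (h1.symm.trans h2), mul_assoc, S.eaW.sq he, mul_one]

theorem cT_le : centralizer (S.T : Set G) ≤ S.Nn ⊓ centralizer (W : Set G) :=
  le_inf (le_inf (centralizer_le_normalizer _) ((centralizer_le S.W_le).trans (centralizer_le_normalizer _)))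
    (centralizer_le S.W_le)

theorem rl {Q : Subgroup G} (hQi : ¬ 2 ∣ Q.relIndex S.Nn) {W0 : Subgroup G} {w t : G} (h0 : Hyp W0 W w)
    (ht : t ∈ W0) : ∃ x ∈ Q ⊓ (S.Nn ⊓ centralizer (W : Set G)),
      ∀ s ∈ S.T, (s ^ 2 ∈ W0 → x * s * x⁻¹ = s) ∧ (s ^ 2 ∉ W0 → x * s * x⁻¹ = s * t) := by
  have := Fact.mk Nat.prime_two
  obtain ⟨c, hc⟩ := S.rl0 h0 ht
  have hcW : c ∈ centralizer (W : Set G) := mem_cent.2 fun x hx =>
    (hc x (S.W_le hx)).1 (by rw [S.eaW.pow x hx]; exact W0.one_mem)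
  have hcN : c ∈ S.Nn := ⟨mem_norm fun s hs => by
    by_cases h : s ^ 2 ∈ W0
    · rw [(hc s hs).1 h]; exact hs
    · rw [(hc s hs).2 h]; exact S.T.mul_mem hs (S.W_le (h0.le ht)), centralizer_le_normalizer _ hcW⟩
  have hi : ¬ 2 ∣ (Q ⊓ (S.Nn ⊓ centralizer (W : Set G))).relIndex (S.Nn ⊓ centralizer (W : Set G)) := by
    rw [inf_relIndex_right]
    refine not_dvd_relIndex_of_le_normalizer hQi inf_le_left fun y hy => mem_norm fun z hz =>
      ⟨S.Nn.mul_mem (S.Nn.mul_mem hy hz.1) (S.Nn.inv_mem hy),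
        norm_conj (normalizer_le_normalizer_centralizer' W hy.2) z hz.2⟩
  obtain ⟨x, hx, m, hm, rfl⟩ := lift (M := centralizer (S.T : Set G)) inf_le_right hi
    (fun y hy => normalizer_le_normalizer_centralizer' _ hy.1.1)
    (fun y hy => ⟨1, by rw [pow_one]; exact S.sq_cent hy.1 hy.2⟩) (y := c) ⟨hcN, hcW⟩
  refine ⟨x, hx, fun s hs => ?_⟩
  have := hc s hs
  rwa [show x * m * s * (x * m)⁻¹ = x * (m * s * m⁻¹) * x⁻¹ by group, mem_cent.1 hm s hs] at this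

theorem u_mem : u ∈ S.Nn ⊓ centralizer (W : Set G) := by
  have h1 : u ∈ centralizer (W : Set G) := mem_cent.2 S.tr_u.fix
  exact ⟨⟨mem_norm fun s hs => by rw [S.u_inv hs]; exact S.T.inv_mem hs, centralizer_le_normalizer _ h1⟩, h1⟩

theorem count {Q : Subgroup G} (hQ : IsPGroup 2 Q) (hQi : ¬ 2 ∣ Q.relIndex S.Nn) (huQ : u ∈ Q)
    {t w : G} (ht : t ∈ W) (hw : w ∈ W) (ht1 : t ≠ 1) (hw1 : w ≠ 1) (htw : w ≠ t) :
    W ≤ zpowers t ⊔ zpowers w ∧ ∀ c ∈ Q ⊓ centralizer (S.T : Set G), u * c * u⁻¹ = c⁻¹ := by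
  have hE := S.mx.ea
  have hEW := S.eaW
  set C := Q ⊓ centralizer (S.T : Set G) with hC
  set Q' := Q ⊓ (S.Nn ⊓ centralizer (W : Set G)) with hQ'
  let I : Set G := {c | c ∈ C ∧ u * c * u⁻¹ = c⁻¹}
  have hu := S.u_mem
  have hup : Nat.card Q' ≤ Nat.card I * Nat.card V := card_le_fib I (fun y hy => ⟨⟨
      Q.mul_mem (Q.mul_mem (Q.mul_mem hy.1 huQ) (Q.inv_mem hy.1)) (Q.inv_mem huQ), mem_cent.2 fun s hs => by
        have h7 := inv_conj_mem (norm_conj (mul_mem hu.1 hy.2.1).1) s hs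
        obtain ⟨e2, he2, f2, hf2, h1, h2, h3⟩ := S.act_comm hy.2.1 hy.2.2 hu.1 hu.2 h7
        obtain ⟨f', -, e', -, h4, h5, h6⟩ := S.act_comm hu.1 hu.2 hy.2.1 hy.2.2 h7
        rw [← mul_left_cancel (h1.symm.trans h5), ← mul_left_cancel (h2.symm.trans h4), mul_assoc _ f2,
          hEW.comm f2 hf2 e2 he2, ← mul_assoc _ e2, ← h3] at h6
        calc _ = y * u * ((u * y)⁻¹ * s * (u * y)) * (y * u)⁻¹ := by group
          _ = s := by rw [← h6]; group⟩, by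
        have := hE.inv S.hyp.mem
        calc u * (y * u * y⁻¹ * u⁻¹) * u⁻¹ = u * y * u * y⁻¹ * (u * u)⁻¹ := by group
          _ = _ := by rw [hE.sq S.hyp.mem]; nth_rewrite 2 [← this]; group⟩)
    (fun y hy hyu => by
      obtain ⟨k, hk⟩ := pow_of_isPGroup hQ hy.1
      exact step1 S.hm S.mx S.tv S.hyp S.big hk (mem_cent.2
        (Tr.cent ⟨mem_cent.1 hy.2.2, by rw [hyu, mul_one]⟩ S.hyp hE)))
  obtain ⟨s1, hs1, hs1'⟩ := S.T_surj ht
  obtain ⟨s2, hs2, hs2'⟩ := S.T_surj hw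
  let F : Set G := {f | ∃ k ∈ Q', k * s1 * k⁻¹ = s1 ∧ k * s2 * k⁻¹ = s2 * f}
  have hlo : Nat.card W * Nat.card F * Nat.card C ≤ Nat.card Q' := card_ge_three F
    (le_inf inf_le_left (inf_le_right.trans S.cT_le)) (fun c hc => mem_cent.1 hc.2 s1 hs1)
    (fun c hc => mem_cent.1 hc.2 s2 hs2) (fun e he => by
      by_cases het : t = e
      · exact ⟨u, ⟨huQ, hu⟩, by rw [S.u_inv hs1, S.T_inv hs1, hs1', het]⟩
      obtain ⟨W1, hX, h1⟩ := exists_hyp Nat.prime_two hEW (zpowers_le.2 he) ht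
        (not_mem_zpowers (hEW.pow e he) ht1 het)
      obtain ⟨x, hx, hx'⟩ := S.rl hQi h1 (hX (mem_zpowers e))
      exact ⟨x, hx, (hx' s1 hs1).2 (hs1' ▸ h1.not_mem)⟩) (fun f hf => hf)
  have hF : ∀ f ∈ W, w ∉ zpowers t ⊔ zpowers f → f ∈ F := fun f hf hwf => by
    obtain ⟨W1, hX, h1⟩ := exists_hyp Nat.prime_two hEW (sup_le (zpowers_le.2 ht) (zpowers_le.2 hf)) hw hwf
    obtain ⟨x, hx, hx'⟩ := S.rl hQi h1 (hX (mem_sup_right (mem_zpowers f)))
    exact ⟨x, hx, (hx' s1 hs1).1 (hs1' ▸ hX (mem_sup_left (mem_zpowers t))),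
      (hx' s2 hs2).2 (hs2' ▸ h1.not_mem)⟩
  have hwt := not_mem_zpowers (hEW.pow t ht) hw1 htw
  have hF1 : (1 : G) ∈ F := ⟨1, Q'.one_mem, by simp, by simp⟩
  have hFt : t ∈ F := hF t ht (by rwa [sup_idem])
  have hIC : Nat.card I ≤ Nat.card C := Nat.card_le_card_of_injective
    (fun x : I => (⟨x, x.2.1⟩ : C)) fun a b hab => Subtype.ext (congrArg (fun x : C => (x : G)) hab)
  have hmain : Nat.card F * Nat.card C ≤ 2 * Nat.card I := by
    have := hlo.trans hup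
    rw [S.hyp.card Nat.prime_two hE] at this
    refine Nat.le_of_mul_le_mul_left (c := Nat.card W) ?_ Nat.card_pos
    calc _ = Nat.card W * Nat.card F * Nat.card C := by ring
      _ ≤ _ := this
      _ = _ := by ring
  have hCp := Nat.card_pos (α := C)
  constructor
  · intro f hf
    by_contra hh
    have hf1 : f ≠ 1 := fun h => hh (h ▸ one_mem _)
    have hft : f ≠ t := fun h => hh (by rw [h]; exact mem_sup_left (mem_zpowers t))
    have hfF : f ∈ F := hF f hf fun h => by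
      have hn : ∀ v ∈ zpowers t, f * v * f⁻¹ ∈ zpowers t := fun v hv => by
        rw [hEW.conj hf (zpowers_le.2 ht hv)]; exact hv
      obtain ⟨v, hv, i, hi⟩ := (mem_adj hn).1 h
      by_cases h2 : 2 ∣ i
      · obtain ⟨j, rfl⟩ := h2
        rw [pow_mul, hEW.pow f hf, one_pow, mul_one] at hi
        exact hwt (hi ▸ hv)
      · refine hh (mem_of_pow_mem Nat.prime_two (by rw [hEW.pow f hf]; exact one_mem _) ?_ h2)
        rw [show f ^ i = v⁻¹ * w by rw [hi]; group]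
        exact mul_mem (mem_sup_left (inv_mem hv)) (mem_sup_right (mem_zpowers w))
    have h3 : 2 < Nat.card F := by
      rw [Nat.card_coe_set_eq]
      exact (Set.two_lt_ncard (Set.toFinite F)).2 ⟨1, hF1, t, hFt, f, hfF, ht1.symm, hf1.symm, hft.symm⟩
    nlinarith
  · have h2 : 1 < Nat.card F := by
      rw [Nat.card_coe_set_eq]
      exact (Set.one_lt_ncard (Set.toFinite F)).2 ⟨1, hF1, t, hFt, ht1.symm⟩
    have h3 : Nat.card C ≤ Nat.card I := by nlinarith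
    have h4 : I = C := Set.eq_of_subset_of_ncard_le (fun x hx => hx.1) (by
      rw [← Nat.card_coe_set_eq, ← Nat.card_coe_set_eq]; exact h3) (Set.toFinite _)
    intro c hc
    have : c ∈ I := h4 ▸ hc
    exact this.2

end Sit

end Cfsg.Lib.Hg
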