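import Cfsg.Agent.Lib.Hg.Two5

/-! Homogeneous finite groups: a largest elementary abelian 2-subgroup of rank at least three
is central in its normalizer. -/

set_option autoImplicit false

namespace Cfsg.Lib.Hg

open Subgroup Cfsg.Lib.Transfer

variable {G : Type*} [Group G]

theorem Sit.false [Finite G] {V W P : Subgroup G} {u : G} (S : Sit V W P u) : False := by
  have := Fact.mk Nat.prime_two
  have hE := S.mx.ea
  have hEW := S.eaW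
  obtain ⟨w, hw, t, ht, hw1, ht1, hwt⟩ := exists_two S.big
  have hwz := not_mem_zpowers (hEW.pow t ht) hw1 hwt
  obtain ⟨W0, hX, h0⟩ := exists_hyp Nat.prime_two hEW (zpowers_le.2 ht) hw hwz
  have ht0 : t ∈ W0 := hX (mem_zpowers t)
  obtain ⟨σ, hσP, hσ2, hσ⟩ := S.exSigma h0 ht0
  have hσW := hσ.normW' hEW h0 ht0
  have hσT := S.T_norm hσP hσW
  have hσi : σ⁻¹ = σ := by rw [inv_eq_iff_mul_eq_one, ← pow_two, hσ2]
  have hPN : P ≤ S.Nn := fun g hg => ⟨mem_norm (S.T_norm (fun x hx => P.mul_mem (P.mul_mem hg hx) (P.inv_mem hg))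
    fun x hx => by rw [mem_cent.1 (S.le hg).1 x hx]; exact hx), centralizer_le_normalizer _ (S.le hg).1⟩
  obtain ⟨Q, hAQ, hQN, hQ, hQi⟩ := exists_sylowIn_ge (pg_adj S.pg (k := 1) (by simpa using hσ2) hσP)
    (sup_le hPN (zpowers_le.2 (show σ ∈ S.Nn from ⟨mem_norm hσT, mem_norm hσW⟩)))
  have hσQ : σ ∈ Q := hAQ (mem_sup_right (mem_zpowers σ))
  have hPQ : P ≤ Q := le_sup_left.trans hAQ
  have huQ : u ∈ Q := hPQ (S.vle S.hyp.mem)
  obtain ⟨hWle, hinv⟩ := S.count hQ hQi huQ ht hw ht1 hw1 hwt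
  set C := Q ⊓ centralizer (S.T : Set G) with hC
  have hTC : S.T ≤ C := le_inf (S.T_le.trans hPQ) fun x hx => mem_cent.2 fun y hy => by
    rw [S.T_comm hx hy]; group
  have hCcomm : ∀ x ∈ C, ∀ y ∈ C, x * y = y * x := fun x hx y hy => by
    have h1 := hinv _ (C.mul_mem hx hy)
    rw [← conj_mul, hinv x hx, hinv y hy, ← mul_inv_rev, inv_inj] at h1
    exact h1.symm
  have hCT : C ≤ S.T := by
    by_contra hne
    obtain ⟨a, haC, haT, ha2, hac⟩ := central hQ (inf_le_left : C ≤ Q) (fun g hg => norm_conj (hQN hg).1)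
      (fun g hg v hv => ⟨Q.mul_mem (Q.mul_mem hg hv.1) (Q.inv_mem hg),
        norm_conj (normalizer_le_normalizer_centralizer' _ (hQN hg).1) v hv.2⟩) hne
    obtain ⟨s, hs, hs'⟩ := hac σ hσQ
    obtain ⟨c, hc⟩ := S.hm.key3 haT (fun v hv => by rw [mem_cent.1 haC.2 v hv]; exact hv) ha2 (S.W_le hw)
      (hEW.pow w hw) (fun x hx => S.T_comm (S.W_le hw) hx) (hCcomm a haC w (hTC (S.W_le hw))) hσT hs hs'
    rw [hσ.mv, mul_inv_rev, hEW.comm _ (W.inv_mem ht) _ (W.inv_mem hw), mul_inv_cancel_left,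
      hEW.inv ht] at hc
    have hCi : ¬ 2 ∣ C.relIndex (centralizer (S.T : Set G)) := by
      rw [hC, inf_relIndex_right]
      exact not_dvd_relIndex_of_le_normalizer hQi (S.cT_le.trans inf_le_left)
        fun y hy => normalizer_le_normalizer_centralizer' _ hy.1
    obtain ⟨r, hr, hr'⟩ := lift_act hEW (centralizer_le S.W_le) (inf_le_right : C ≤ _) hCi
      (fun r hr => ⟨1, W.one_mem, by rw [hCcomm r hr a haC]; group⟩) (mem_cent.2 hc.fix) ht hc.mv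
    rw [hCcomm r hr a haC, mul_inv_cancel_right] at hr'
    exact ht1 (mul_eq_left.1 hr'.symm)
  obtain ⟨x, hx, hx'⟩ := S.rl hQi h0 ht0
  have hu := S.u_mem
  set y := x * u with hydef
  have hyQ : y ∈ Q := Q.mul_mem hx.1 huQ
  have hyN : y ∈ S.Nn ⊓ centralizer (W : Set G) := mul_mem hx.2 hu
  have hy : ∀ s ∈ S.T, (s ^ 2 ∈ W0 → y * s * y⁻¹ = s⁻¹) ∧ (s ^ 2 ∉ W0 → y * s * y⁻¹ = s⁻¹ * t) := by
    intro s hs
    rw [show y * s * y⁻¹ = x * (u * s * u⁻¹) * x⁻¹ by rw [hydef]; group, S.u_inv hs]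
    have := hx' _ (S.T.inv_mem hs)
    rwa [inv_pow, inv_mem_iff] at this
  have hy2 : y ^ 2 ∈ W := by
    have h1 : y ^ 2 ∈ S.T := hCT ⟨Q.pow_mem hyQ 2, S.sq_cent hyN.1 hyN.2⟩
    have h2 := hy _ h1
    rw [show y * y ^ 2 * y⁻¹ = y ^ 2 by group] at h2
    by_cases h3 : (y ^ 2) ^ 2 ∈ W0
    · refine S.T_om h1 ?_
      rw [pow_two (y ^ 2)]; nth_rewrite 1 [h2.1 h3]; rw [inv_mul_cancel]
    · exact absurd (by rw [pow_two (y ^ 2)]; nth_rewrite 2 [h2.2 h3]; simpa using ht0) h3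
  have hσ0 : ∀ s ∈ S.T, ((σ * s * σ⁻¹) ^ 2 ∈ W0 ↔ s ^ 2 ∈ W0) := by
    intro s hs
    rw [conj_pow]
    rcases hσ.normW hEW h0 ht0 (S.T_sq hs) with ⟨h1, h2⟩ | ⟨h1, h2⟩ <;> rw [h2]
    exact ⟨fun h => absurd (by simpa using W0.mul_mem h (W0.inv_mem ht0)) h1, fun h => absurd h h1⟩
  have hσt : σ * t * σ⁻¹ = t := hσ.fix t (mem_sup_left ht0)
  set e := y⁻¹ * (σ * y * σ⁻¹) with he
  have heT : e ∈ S.T := hCT ⟨Q.mul_mem (Q.inv_mem hyQ) (Q.mul_mem (Q.mul_mem hσQ hyQ) (Q.inv_mem hσQ)),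
    mem_cent.2 fun s hs => by
      have h1 : σ * y * σ⁻¹ * s * (σ * y * σ⁻¹)⁻¹ = y * s * y⁻¹ := by
        have h2 := hσT s hs
        have h3 : σ * y * σ⁻¹ * s * (σ * y * σ⁻¹)⁻¹ = σ * (y * (σ * s * σ⁻¹) * y⁻¹) * σ⁻¹ := by
          nth_rewrite 2 [hσi]; nth_rewrite 6 [← hσi]; group
        have h4 : σ * (σ * s * σ⁻¹)⁻¹ * σ⁻¹ = s⁻¹ := by
          rw [show σ * (σ * s * σ⁻¹)⁻¹ * σ⁻¹ = σ ^ 2 * s⁻¹ * (σ ^ 2)⁻¹ by simp only [pow_two]; group, hσ2]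
          group
        by_cases h5 : s ^ 2 ∈ W0
        · rw [h3, (hy _ h2).1 ((hσ0 s hs).2 h5), h4, (hy s hs).1 h5]
        · rw [h3, (hy _ h2).2 (fun h => h5 ((hσ0 s hs).1 h)), ← conj_mul, h4, hσt, (hy s hs).2 h5]
      rw [show e * s * e⁻¹ = y⁻¹ * (σ * y * σ⁻¹ * s * (σ * y * σ⁻¹)⁻¹) * y by rw [he]; group, h1]; group⟩
  have hfix : ∀ z ∈ W, σ * z * σ⁻¹ = z → z ∈ W0 := fun z hz h => by
    rcases hσ.normW hEW h0 ht0 hz with ⟨h1, -⟩ | ⟨-, h2⟩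
    · exact h1
    · exact absurd (mul_eq_left.1 (h2.symm.trans h)) ht1
  have he0 : e ^ 2 ∈ W0 := hfix _ (S.T_sq heT) (by
    have h1 : σ * e * σ⁻¹ = e⁻¹ := by
      rw [show σ * e * σ⁻¹ = σ * y⁻¹ * σ⁻¹ * (σ ^ 2 * y * (σ ^ 2)⁻¹) by rw [he]; simp only [pow_two]; group,
        hσ2, he]; group
    rw [← conj_pow, h1, inv_pow, hEW.inv (S.T_sq heT)])
  have hy0 : y ^ 2 ∈ W0 := hfix _ hy2 (by
    have h1 := (hy e heT).1 he0
    rw [← conj_pow, show σ * y * σ⁻¹ = y * e by rw [he]; group,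
      show (y * e) ^ 2 = y * e * y⁻¹ * y ^ 2 * e by simp only [pow_two]; group, h1,
      mul_assoc, S.T_comm (S.W_le hy2) heT]; group)
  have hyt : y ^ 2 = 1 ∨ y ^ 2 = t := by
    by_contra hh
    push Not at hh
    have hn : ∀ v ∈ zpowers t, w * v * w⁻¹ ∈ zpowers t := fun v hv => by
      rw [hEW.conj hw (zpowers_le.2 ht hv)]; exact hv
    obtain ⟨v, hv, i, hi⟩ := (mem_adj hn).1 (hWle hy2)
    by_cases h2 : 2 ∣ i
    · obtain ⟨j, rfl⟩ := h2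
      rw [pow_mul, hEW.pow w hw, one_pow, mul_one] at hi
      exact not_mem_zpowers (hEW.pow t ht) hh.1 hh.2 (hi ▸ hv)
    · refine h0.not_mem (mem_of_pow_mem Nat.prime_two (by rw [hEW.pow w hw]; exact one_mem _) ?_ h2)
      rw [show w ^ i = v⁻¹ * y ^ 2 by rw [hi]; group]
      exact W0.mul_mem (W0.inv_mem (hX hv)) hy0
  obtain ⟨s2, hs2, hs2'⟩ := S.T_surj hw
  have hys := (hy s2 hs2).2 (hs2' ▸ h0.not_mem)
  obtain ⟨i, hi2, hiW, his⟩ : ∃ i, i ^ 2 = 1 ∧ (∀ z ∈ W, i * z * i⁻¹ = z) ∧ i * s2 * i⁻¹ = s2⁻¹ * t := by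
    rcases hyt with h1 | h1
    · exact ⟨y, h1, mem_cent.1 hyN.2, hys⟩
    · refine ⟨y * s2, ?_, mem_cent.1 (mul_mem hyN.2 (S.le (S.T_le hs2)).1), by rw [← hys]; group⟩
      rw [show (y * s2) ^ 2 = y * s2 * y⁻¹ * y ^ 2 * s2 by simp only [pow_two]; group, hys, h1,
        mul_assoc _ t t, hEW.sq ht]; group
  have hiW' : i ∉ W := fun hh => hwt (by
    rw [S.T_comm (S.W_le hh) hs2, mul_inv_cancel_right] at his
    rw [← hs2', pow_two]; nth_rewrite 2 [his]; group)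
  obtain ⟨hM, hH⟩ := S.mx.adj S.hyp hi2 hiW' hiW
  have hwt' : w * t ∈ W := W.mul_mem hw ht
  have htr : Tr W i (w * t) s2 := ⟨mem_cent.1 (S.le (S.T_le hs2)).1, by
    have hii : i⁻¹ = i := by rw [inv_eq_iff_mul_eq_one, ← pow_two, hi2]
    have h1 : s2 * i * s2⁻¹ = i * (i * s2 * i⁻¹) * s2⁻¹ := by
      rw [hii, ← mul_assoc, ← mul_assoc, ← pow_two, hi2, one_mul]
    rw [h1, his, mul_assoc, mul_assoc, S.T_comm (S.W_le ht) (S.T.inv_mem hs2), ← mul_assoc s2⁻¹,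
      ← mul_inv_rev, ← pow_two, hs2', hEW.inv hw]⟩
  have hwt1 : w * t ≠ 1 := fun h => hwt (by rw [eq_inv_of_mul_eq_one_left h, hEW.inv ht])
  obtain ⟨k, hk⟩ := pow_of_isPGroup S.pg (S.T_le hs2)
  rcases two_a S.hm hM (S.hm.tv_of_one Nat.prime_two hM.ea hH hwt' hwt1 htr) hH S.big hk hwt' htr with h | h
  · exact hw1 (hs2' ▸ h)
  · exact ht1 (mul_eq_left.1 (h.symm.trans hs2'))

theorem Hm.cent_of_big [Finite G] (h : Hm G) {V : Subgroup G} (hV : Mx V) (h8 : 4 < Nat.card V) {g : G}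
    (hg : ∀ x ∈ V, g * x * g⁻¹ ∈ V) : ∀ x ∈ V, g * x * g⁻¹ = x := by
  intro v hv
  by_contra hne
  have hE := hV.ea
  have hv1 : v ≠ 1 := fun h => hne (by simp [h])
  have hT := h.tv_three Nat.prime_two hE (three_of_card Nat.prime_two hE h8) hg hv
    (not_mem_zpowers (hE.pow v hv) (fun h => hv1 (conj_eq_one_iff.1 h)) hne)
  obtain ⟨W, -, hW⟩ := exists_hyp Nat.prime_two hE bot_le hv (by simpa using hv1)
  have h4 : 2 < Nat.card W := by have := hW.card Nat.prime_two hE; omega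
  obtain ⟨P, -, S⟩ := exists_sit h hV hT hW h4 (k := 0) (g := 1) (by simp) (one_mem _)
  exact S.false

end Cfsg.Lib.Hg
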